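import Mathlib
import Cfsg.Agent.H3.Meta
import Cfsg.Agent.H1.Huppert
import Cfsg.Agent.H4.Alperin
import Cfsg.Agent.H4.Ito
import Cfsg.Agent.FT.PLen

/-!
Groups in which all subgroups of a fixed order of a Sylow subgroup are strongly closed.
-/

set_option autoImplicit false
set_option linter.unusedSectionVars false
set_option linter.unusedVariables false

namespace Cfsg.Agent.GW

open Subgroup Cfsg.Agent.FT Cfsg.Agent.H3
open scoped commutatorElement Pointwise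

universe u

variable {G : Type u} [Group G] [Finite G] {p k : ℕ} [hp : Fact p.Prime]
  {A E F K L M P Q R U W : Subgroup G} {g x y z : G}

/-- generated by the `p'`-elements that act trivially on every invariant section of order `p` -/
def kres (p : ℕ) (A : Subgroup G) : Subgroup G := piGen {p}ᶜ (sres p A)

theorem sres_nml (p : ℕ) (A : Subgroup G) : sres p A ⊴ A := nml_of_der_le le_sup_left (sres_le p A)

theorem kres_le_sres (p : ℕ) (A : Subgroup G) : kres p A ≤ sres p A := piGen_le _ _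

theorem kres_nml (p : ℕ) (A : Subgroup G) : kres p A ⊴ A :=
  ⟨(kres_le_sres p A).trans (sres_le p A), norms_piGen _ (sres_nml p A).nrm⟩

theorem kres_step (pU : PGrp p U) (hU : A ≤ N(U)) (h1 : ⁅U, kres p A⁆ ≤ W) (h2 : kres p A ≤ C(W)) :
    kres p A ≤ C(U) := piGen_le_iff.2 fun x hx h =>
  have h3 : ⟪x⟫ ≤ kres p A := zpowers_le.2 (mem_piGen hx h)
  zpowers_le.1 (stable_factor_cent (h3.trans ((kres_nml p A).le.trans hU)) (pU.cop h.zpowers)
    ((commSS le_rfl h3).trans h1) (h3.trans h2))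

theorem kres_phi (pU : PGrp p U) (h1 : ⁅U, kres p A⁆ ≤ Phi U) : kres p A ≤ C(U) :=
  piGen_le_iff.2 fun x hx h => zpowers_le.1 (coprime_cent_Phi (pU.cop h.zpowers)
    ((commSS le_rfl (zpowers_le.2 (mem_piGen hx h))).trans h1))

theorem kres_small (pQ : PGrp p Q) (hA : A ≤ N(Q)) (h : ¬ kres p A ≤ C(Q))
    (hm : ∀ W, W < Q → A ≤ N(W) → kres p A ≤ C(W)) :
    ∃ y ∈ Q, y ∉ C(kres p A) ∧ (y ^ p = 1 ∨ p = 2 ∧ y ^ 4 = 1) := by
  have nK := kres_nml p A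
  have h1 : Q ≠ ⊥ := fun e => h (by rw [e, cen_bot]; exact le_top)
  have h2 : Phi Q ≤ Q ⊓ C(kres p A) := le_inf (Phi_le Q) (centsC (hm _ (Phi_lt h1) (norms_Phi hA)))
  have h3 : ⁅Q, kres p A⁆ = Q := by
    by_contra e
    exact h (kres_step pQ hA le_rfl (hm _ (lt_of_le_of_ne (comm_le_left (nK.le.trans hA)) e)
      (normsR hA nK.nrm)))
  have h4 : Q ⊓ C(kres p A) ≤ C(Q) := by
    have := three_subgroup (A := kres p A) (B := Q ⊓ C(kres p A)) (C := Q)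
      (by rw [comm_eq_bot'.2 inf_le_right, commutator_bot_left])
      (comm_eq_bot.2 ((comm_le_left (nrm_of_Phi_le pQ h2 inf_le_left)).trans inf_le_right))
    rw [h3] at this
    exact comm_eq_bot'.1 this
  have h5 : ¬ ⁅Q, piGen {p}ᶜ (sres p A)⁆ ≤ Q ⊓ C(kres p A) := fun e =>
    h (kres_step pQ hA e (centsC inf_le_right))
  obtain ⟨w, hw, a, ha, h6⟩ : ∃ w ∈ Q, ∃ a ∈ kres p A, ⁅w, a⁆ ∉ Q ⊓ C(kres p A) := by
    by_contra! e
    exact h5 (commutator_le.2 e)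
  have hv : a * w⁻¹ * a⁻¹ ∈ Q := conj_mem (hA (nK.le ha)) (inv_mem hw)
  have e1 : ⁅w, a⁆ = w * (a * w⁻¹ * a⁻¹) := by rw [commutatorElement_def]; group
  set v := a * w⁻¹ * a⁻¹ with hv'
  have hc : ⁅v, w⁆ ∈ C(Q) := h4 (h2 (pQ.der_le_Phi (commutator_mem_commutator hv hw)))
  have c1 : Commute w ⁅v, w⁆ := mem_cen.1 hc w hw
  have c2 : Commute v ⁅v, w⁆ := mem_cen.1 hc v hv
  have e2 : w ^ p * v ^ p = 1 := by
    rw [hv', conj_pow, inv_pow, mem_cen.1 (inv_mem (h2 (pQ.pow_mem_Phi hw)).2) a ha]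
    group
  have e3 : ⁅v, w⁆ ^ p = 1 := by
    rw [← comm_pow_right c1, commutatorElement_eq_one_iff_mul_comm]
    exact mem_cen.1 (h4 (h2 (pQ.pow_mem_Phi hw))) v hv
  have e4 := mul_pow_of_class_two c1 c2 p
  rw [e2, one_mul, ← e1] at e4
  have hy : ⁅w, a⁆ ∈ Q := e1 ▸ mul_mem hw hv
  refine ⟨_, hy, fun e => h6 ⟨hy, e⟩, ?_⟩
  by_cases e : p = 2
  · subst e
    refine Or.inr ⟨rfl, ?_⟩
    rw [show 4 = 2 * 2 from rfl, pow_mul, e4, ← pow_mul, mul_comm, pow_mul, e3, one_pow]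
  · obtain ⟨c, hc⟩ := odd_prime_dvd_choose_two hp.out e
    exact Or.inl (by rw [e4, hc, pow_mul, e3, one_pow])

theorem kres_cyc (pU : PGrp p U) (hU : A ≤ N(U)) (h : Cyc U) : kres p A ≤ C(U) :=
  kres_phi pU ((commSS le_rfl (kres_le_sres p A)).trans
    (comm_sres_le (Phi_nrm U) (Cyc.relIndex_Phi_dvd h pU) hU (norms_Phi hU)))

theorem card_maxIn (pF : PGrp p F) (h : MaxIn E F) (hF : #F = p ^ (k + 1)) : #E = p ^ k := by
  have := FT.card_mul_relIndex h.lt.le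
  rw [pF.maxIn_relIndex h, hF, pow_succ] at this
  exact Nat.eq_of_mul_eq_mul_right hp.out.pos this

/-- the orders of the subgroups that are assumed to be closed -/
def Go (p k : ℕ) (E : Subgroup G) : Prop := #E = p ^ k ∨ p ^ k = 2 ∧ #E = 4

theorem kres_loc (hP : PGrp p P) (hR : R ≤ P) (hA : A ≤ N(R)) (hk : 1 ≤ k) (hlt : p ^ k < #P)
    (hE : ∀ E, E ≤ P → Go p k E → A ≤ N(E ⊓ R)) (h : ¬ kres p A ≤ C(R)) :
    ∃ Q F, Q ≤ F ∧ F ≤ P ∧ #F = p ^ (k + 1) ∧ Q ≤ Phi F ∧ ¬ Cyc Q ∧ ¬ kres p A ≤ C(Q) := by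
  obtain ⟨Q, hQ, ⟨h1, h2⟩, h3⟩ := exists_min (fun Q => A ≤ N(Q) ∧ ¬ kres p A ≤ C(Q)) ⟨hA, h⟩
  have hm : ∀ W, W < Q → A ≤ N(W) → kres p A ≤ C(W) := fun W h4 h5 =>
    by_contra fun h6 => h4.ne (h3 W ⟨h5, h6⟩ h4.le)
  have pQ := hP.mono (hQ.trans hR)
  have hE' : ∀ E, E ≤ P → Go p k E → A ≤ N(E ⊓ Q) := fun E h4 h5 => by
    have := normsI (hE E h4 h5) h1
    rwa [inf_assoc, inf_eq_right.2 hQ] at this
  have hc : ¬ Cyc Q := fun e => h2 (kres_cyc pQ h1 e)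
  obtain ⟨y, hy, h4, h5⟩ := kres_small pQ h1 h2 hm
  have key : ∀ E, E ≤ P → Go p k E → y ∈ E → Q ≤ E := fun E h6 h7 h8 => by
    by_contra h9
    exact h4 (centsC (hm _ (inf_lt_right.2 h9) (hE' E h6 h7)) ⟨h8, hy⟩)
  have hyP : ⟪y⟫ ≤ P := zpowers_le.2 (hR (hQ hy))
  have hpk : p ≤ p ^ k := Nat.le_self_pow (by omega) p
  have h6 : #Q ≤ p ^ k := by
    by_cases e : #⟪y⟫ ≤ p ^ k
    · obtain ⟨E, h6, h7, h8⟩ := hP.exists_between hp.out hyP e hlt.le
      exact h8 ▸ card_le (key E h7 (Or.inl h8) (h6 (mem_zpowers y)))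
    · refine (hc (Cyc.mono (cyc_zpowers y) (key _ hyP (Or.inr ?_) (mem_zpowers y)))).elim
      rw [card_zpowers'] at e ⊢
      rcases h5 with h5 | ⟨rfl, h5⟩
      · exact (e ((Nat.le_of_dvd hp.out.pos (orderOf_dvd_of_pow_eq_one h5)).trans hpk)).elim
      · have h7 := orderOf_dvd_of_pow_eq_one h5
        have h8 := Nat.le_of_dvd (by norm_num) h7
        have h9 : 2 ∣ 2 ^ k := dvd_pow_self 2 (by omega)
        generalize orderOf y = o at *
        interval_cases o <;> omega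
  obtain ⟨n, hn⟩ := hP.card
  obtain ⟨F, h7, h8, h9⟩ := hP.exists_between hp.out (n := k + 1) (hQ.trans hR)
    (h6.trans (Nat.pow_le_pow_right hp.out.pos (by omega))) (by
      rw [hn] at hlt ⊢
      exact Nat.pow_le_pow_right hp.out.pos ((Nat.pow_lt_pow_iff_right hp.out.one_lt).1 hlt))
  refine ⟨Q, F, h7, h8, h9, le_Phi h7 fun E h10 => ?_, hc, h2⟩
  by_contra h11
  have pF := hP.mono h8
  have h12 := hE' E (h10.lt.le.trans h8) (Or.inl (card_maxIn pF h10 h9))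
  have h13 := (pF.maxIn_nml h10).nrm
  refine h2 (kres_step pQ h1 ((commSS le_rfl (kres_le_sres p A)).trans
    (comm_sres_le (normsI (h7.trans h13) (le_nrm Q)) ?_ h1 h12)) (hm _ (inf_lt_right.2 h11) h12))
  rw [inf_relIndex_right, ← pF.maxIn_relIndex h10]
  exact relIndex_dvd_of_norm h7 h13

theorem kres_cents (hP : PGrp p P) (hA : A ≤ N(P)) (hk : 1 ≤ k) (hlt : p ^ k < #P)
    (hE : ∀ E, E ≤ P → Go p k E → A ≤ N(E)) : kres p A ≤ C(P) := by
  by_contra h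
  obtain ⟨Q, F, h1, h2, h3, h4, h5, h6⟩ := kres_loc hP le_rfl hA hk hlt
    (fun E h1 h2 => normsI (hE E h1 h2) hA) h
  have pF := hP.mono h2
  have h7 : ∀ E, MaxIn E F → A ≤ N(E) := fun E h7 =>
    hE E (h7.lt.le.trans h2) (Or.inl (card_maxIn pF h7 h3))
  have h8 : A ≤ N(F) := le_nrm_iff.2 fun g hg y hy => by
    obtain ⟨E, h8, h9⟩ := exists_maxIn (lt_of_le_of_ne (zpowers_le.2 hy)
      fun e => h5 (Cyc.mono (cyc_zpowers y) (e ▸ h1)))
    exact h9.lt.le (conj_mem (h7 E h9 hg) (h8 (mem_zpowers y)))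
  refine h6 (centsS h1 (kres_phi pF (le_Phi (comm_le_left ((kres_nml p A).le.trans h8)) fun E h9 => ?_)))
  exact (commSS le_rfl (kres_le_sres p A)).trans (comm_sres_le (pF.maxIn_nml h9).nrm
    (pF.maxIn_relIndex h9).dvd h8 (h7 E h9))

theorem cycChain_of_kres (hP : PGrp p P) (hn : P ⊴ M) (h : kres p M ≤ C(P)) : H1.CycChain M P := by
  refine H1.cycChain_of_chief (nml_bot M) hn bot_le (H1.cycChain_of_cyc cyc_bot (norms_bot M))
    fun V U hc _ hU => ?_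
  have pU := hP.mono hU
  have key : ⁅U, sres p M⁆ ≤ V := by
    have nS := sres_nml p M
    rcases hc.eq_or_eq (W := V ⊔ ⁅U, sres p M⁆) le_sup_left
      (sup_le hc.lt.le (comm_le_left (nS.le.trans hc.nmlU.nrm)))
      (normsY hc.nmlV.nrm (normsR hc.nmlU.nrm nS.nrm)) with e | e
    · exact le_sup_right.trans e.le
    · obtain ⟨T, hT⟩ := exists_syl p (sres p M)
      have h1 : MulEq T (kres p M) (sres p M) := (mulEq_of_sup ((hT.le.trans nS.le).trans (kres_nml p M).nrm)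
        (Hall.piGen_sup (hall_compl_compl.2 hT))).symm
      rw [h1.comm_eq_of_cents' (centsS hU h)] at e
      have h2 := (hT.le.trans nS.le)
      exact (hc.lt.not_ge ((pU.sup hT.pi (h2.trans hc.nmlU.nrm)).nil.le_of_le_sup_comm le_sup_left
        (sup_le hc.nml.nrm (h2.trans hc.nmlV.nrm))
        (e.ge.trans (sup_le_sup_left (commSS le_rfl le_sup_right) _)))).elim
  obtain ⟨q, hq, h1⟩ := hc.abelem pU.sol
  obtain rfl : p = q := (pU.quo V).eq_of_pgrp (h1.pGrp hq) hc.minNml.ne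
  exact H1.chief_prime_of_exponent hq hc h1 ((commSS le_rfl le_sup_left).trans key) fun x hx =>
    (commSS le_rfl (zpowers_le.2 ((sres_le_iff.1 le_rfl).2 x hx))).trans key

/-- strong closure of `E` in `P` with respect to `M` -/
def HCl (M P E : Subgroup G) : Prop := ∀ g ∈ M, ∀ x ∈ E, g * x * g⁻¹ ∈ P → g * x * g⁻¹ ∈ E

theorem sres_zpowers (h : (p - 1).Coprime (orderOf x)) : x ∈ sres p ⟪x⟫ :=
  mem_of_pow_mem ((sres_le_iff.1 le_rfl).2 x (mem_zpowers x)) h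

theorem HCl.norms (h : HCl M P E) (hQ : Q ≤ P) (hg : g ∈ M) (hn : g ∈ N(Q)) : g ∈ N(E ⊓ Q) :=
  mem_nrm.2 fun x hx => ⟨h g hg x hx.1 (hQ (conj_mem hn hx.2)), conj_mem hn hx.2⟩

theorem focal_top (hS : Syl p P ⊤) (hc : (p - 1).Coprime (Nat.card G)) (hL : MaxIn L P)
    (h : HCl ⊤ P L) (hx : x ∈ P) (hg : g * x * g⁻¹ ∈ P) : g * x * g⁻¹ * x⁻¹ ∈ L := by
  obtain ⟨T, rfl⟩ := (syl_top_iff hp.out).1 hS
  refine H4.alperin_induction T (fun A g => ∀ a ∈ A, g * a * g⁻¹ * a⁻¹ ∈ L) ?_ ?_ ?_ ?_ ⟪x⟫ g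
    (zpowers_le.2 hx) (H4.conj_smul_zpowers_le hg) x (mem_zpowers x)
  · intro A g h _ _ _ h1 h2 a ha
    have := mul_mem (h2 (g * a * g⁻¹) (conj_mem_cj.2 ha)) (h1 a ha)
    rwa [show h * (g * a * g⁻¹) * h⁻¹ * (g * a * g⁻¹)⁻¹ * (g * a * g⁻¹ * a⁻¹) =
      h * g * a * (h * g)⁻¹ * a⁻¹ by group] at this
  · intro A g _ _ h1 b hb
    obtain ⟨a, ha, rfl⟩ := mem_cj'.1 hb
    have := inv_mem (h1 a ha)
    rwa [show (g * a * g⁻¹ * a⁻¹)⁻¹ = g⁻¹ * (g * a * g⁻¹) * g⁻¹⁻¹ * (g * a * g⁻¹)⁻¹ by group] at this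
  · exact fun A B g h1 _ _ h2 a ha => h2 a (h1 ha)
  · intro B hB _ _ y hy a ha
    have h1 := (hS.pi.maxIn_nml hL).nrm
    have h2 : ⁅B, sres p ⟪y⟫⁆ ≤ L ⊓ B := comm_sres_le (normsI (hB.trans h1) (le_nrm B)) (by
      rw [inf_relIndex_right, ← hS.pi.maxIn_relIndex hL]
      exact relIndex_dvd_of_norm hB h1) (zpowers_le.2 hy) (zpowers_le.2 (h.norms hB trivial hy))
    rw [commC] at h2
    exact (h2 (commutator_mem_commutator (sres_zpowers
      (hc.coprime_dvd_right (orderOf_dvd_natCard y))) ha)).1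

theorem npc_of_maxIn (hS : Syl p P M) (hc : (p - 1).Coprime #M) (h : ∀ L, MaxIn L P → HCl M P L) :
    NPC p M := by
  have h1 : P ⊓ ⁅M, M⁆ ≤ Phi P := le_Phi inf_le_left fun L hL =>
    focal_subgroup_le hS.isHall fun x hx g hg h1 => by
      have h2 := hL.lt.le.trans hS.le
      have h3 : MaxIn (L.subgroupOf M) (P.subgroupOf M) := maxIn_of_prime_relIndex (by
        rw [relIndex_subgroupOf hS.le, hS.pi.maxIn_relIndex hL]; exact hp.out) (comap_mono hL.lt.le)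
      exact focal_top (G := M) (x := ⟨x, hS.le hx⟩) (g := ⟨g, hg⟩) ((hall_so_top hS.le).2 hS) hc h3
        (fun g _ x hx h4 => h L hL g g.2 x hx h4) hx h1
  have nD := piGen_nml {p}ᶜ M
  have h2 : P ⊓ piGen {p}ᶜ M ≤ ⁅M, M⁆ := (hS.pi.inf_left _).le_of_quo inf_le_right
    (nD.le.trans (der_nml M).nrm) (by
      rw [quo_piGen _ (der_nml M).nrm]; exact npc_iff_pRes.1 ((ab_quo_der M).nil.npc p))
  have h3 : NPC p (piGen {p}ᶜ M) := (npc_iff hp.out).2 (H4.hasNPC_of_inf_le_frattini hS.pi.isPGroup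
    (hS.le.trans nD.nrm) (by rw [← inf_relIndex_right]; exact (hS.inf_nml nD).not_dvd hp.out)
    (le_trans (le_inf inf_le_right (inf_comm P _ ▸ h2)) h1))
  have h4 := npc_iff_pRes.1 h3
  rw [pRes_eq, piGen_idem] at h4
  exact npc_iff_pRes.2 h4

theorem nrm_zpowers_cen (hz : orderOf z = p) (hc : (p - 1).Coprime (orderOf g)) (hg : g ∈ N(⟪z⟫)) :
    g ∈ C[z] := by
  rw [← cen_zpowers]
  exact sres_cents ((card_zpowers' z).trans hz).dvd (zpowers_le.2 hg) (sres_zpowers hc)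

/-- a weakly closed central subgroup of order `p` -/
theorem npc_of_scl (hS : Syl p P M) (hc : (p - 1).Coprime #M) (hz : orderOf z = p) (h1 : P ≤ C[z])
    (h2 : z ∈ P) (h : HCl M P ⟪z⟫) (h3 : NPC p ((M ⊓ C[z]) /ₛ ⟪z⟫)) : NPC p M := by
  refine Frobenius_normal_complement hS fun Q hQ _ g hg h4 => ?_
  have pz : PiElt {p} z := (piElt_of_orderOf_prime hp.out hz).2 rfl
  have nC := subcent_nml_subnorm M Q
  obtain ⟨R, hR, h5⟩ := pz.zpowers.exists_syl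
    (zpowers_le.2 (show z ∈ M ⊓ C(Q) from ⟨hS.le h2, le_cen1.1 (hQ.trans h1)⟩))
  obtain ⟨m, hm, h6⟩ := hS.syl_Jsub hR.pi (hR.le.trans inf_le_left)
  have cz : (#⟪z⟫).Prime := ((card_zpowers' z).trans hz).symm ▸ hp.out
  have z1 : z ≠ 1 := fun e => hp.out.ne_one (by rw [← hz, e, orderOf_one])
  have key : ∀ n ∈ M, n * z * n⁻¹ ∈ P → n ∈ C[z] := fun n hn h7 =>
    nrm_zpowers_cen hz (hc.coprime_dvd_right (orderOf_dvd_card' hn)) (mem_nrm_of_cj_le (by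
      rw [cj_zpowers]; exact zpowers_le.2 (h n hn z (mem_zpowers z) h7)))
  have h7 : M ⊓ N(Q) ⊓ N(R) ≤ M ⊓ C[z] := fun n hn => by
    have h7 := key m hm (h6 (conj_mem_cj.2 (h5 (mem_zpowers z))))
    have h8 := key (m * n) (mul_mem hm hn.1.1) (by
      have := h6 (conj_mem_cj.2 (conj_mem hn.2 (h5 (mem_zpowers z))))
      rwa [show m * (n * z * n⁻¹) * m⁻¹ = m * n * z * (m * n)⁻¹ by group] at this)
    exact ⟨hn.1.1, (mul_mem_cancel_left h7).1 h8⟩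
  have nz : M ⊓ C[z] ≤ N(⟪z⟫) := norms_zpowers_of_cen1 inf_le_right
  have hP : P ≤ M ⊓ C[z] := le_inf hS.le h1
  have h8 : piGen {p}ᶜ (M ⊓ N(Q) ⊓ N(R)) ≤ M ⊓ C(Q) := piGen_le_iff.2 fun n hn h8 => by
    have h9 : ⟪n⟫ ≤ M ⊓ C[z] := zpowers_le.2 (h7 hn)
    have h10 : ⟪n⟫ ≤ N(Q) := zpowers_le.2 hn.1.2
    have h11 := h3.cents ((hS.pi.mono hQ).quo _) (quo_mono _ (hQ.trans hP)) (h8.zpowers.quo _)
      (quo_mono _ h9) (quo_norms _ h10)
    rw [quo_cents_iff (h9.trans nz) (hQ.trans (hP.trans nz)), commC] at h11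
    exact ⟨hn.1.1, zpowers_le.1 (stable_factor_cent h10 ((hS.pi.mono hQ).cop h8.zpowers) h11
      (cen_zpowers z ▸ h9.trans inf_le_right))⟩
  refine (h4.mem_of_relIndex hg nC.nrm ?_).2
  rw [(hR.frattini nC).relIndex_left]
  exact (piGen_relIndex _ _).of_dvd (relIndex_dvd_of_le h8 _)

theorem hs_main : ∀ (n : ℕ) {G : Type u} [Group G] [Finite G] {M P : Subgroup G} {k : ℕ}, #M = n →
    Syl p P M → (p - 1).Coprime #M → 1 ≤ k → p ^ k < #P → (∀ E, E ≤ P → Go p k E → HCl M P E) →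
    NPC p M := by
  intro n
  induction n using Nat.strong_induction_on with
  | _ n ih =>
  intro G _ _ M P k hn hS hc hk hlt hE
  have hP := hS.pi
  have hk3 : NPC p M ∨ 3 ≤ k := or_iff_not_imp_right.2 fun h =>
    Frobenius_normal_complement hS fun R hR _ g hg h1 => by
      by_contra h2
      obtain ⟨Q, F, h3, h4, h5, h6, h7, -⟩ := kres_loc (A := ⟪g⟫) hP hR (zpowers_le.2 hg.2) hk hlt
        (fun E h3 h4 => zpowers_le.2 ((hE E h3 h4).norms hR hg.1 hg.2)) fun e =>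
          h2 (e (mem_piGen (sres_zpowers (hc.coprime_dvd_right (orderOf_dvd_card' hg.1))) h1))
      have pF := hP.mono h4
      have big : ∀ {X : Subgroup G}, PGrp p X → ¬ Cyc X → p ^ 2 ≤ (Phi X).relIndex X := fun {X} h8 h9 => by
        obtain ⟨j, hj⟩ := (h8.relIndex (Phi X)).exists_pow (relIndex_pos _ _).ne'
        rw [hj]
        refine Nat.pow_le_pow_right hp.out.pos (not_lt.1 fun h10 => h9 ?_)
        refine cyc_of_quo_le_Phi (Phi_nrm X) le_rfl (cyc_of_card_dvd_prime hp.out ?_)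
        rw [card_quo (Phi_nrm X), hj]
        exact (pow_dvd_pow p (Nat.le_of_lt_succ h10)).trans (pow_one p).dvd
      have h8 := big pF fun e => h7 (e.mono h3)
      have h9 := (big (pF.mono h3) h7).trans (Nat.le_of_dvd (card_pos Q) (relIndex_dvd _ _))
      have h10 := Nat.mul_le_mul (h9.trans (card_le h6)) h8
      rw [FT.card_mul_relIndex (Phi_le F), h5, ← pow_add] at h10
      have := (Nat.pow_le_pow_iff_right hp.out.one_lt).1 h10
      omega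
  refine hk3.elim id fun hk3 => ?_
  obtain ⟨m, hm⟩ := hP.card
  have hkm : k < m := (Nat.pow_lt_pow_iff_right hp.out.one_lt).1 (hm ▸ hlt)
  by_cases h : ∀ y ∈ P, orderOf y ≤ p ^ k
  · refine npc_of_maxIn hS hc fun L hL g hg x hx h1 => ?_
    obtain ⟨m, rfl⟩ : ∃ j, m = j + 1 := ⟨m - 1, by omega⟩
    obtain ⟨E, h2, h3, h4⟩ := (hP.mono hL.lt.le).exists_between hp.out (n := k) (zpowers_le.2 hx)
      (by rw [card_zpowers']; exact h x (hL.lt.le hx))
      (by rw [card_maxIn hP hL hm]; exact Nat.pow_le_pow_right hp.out.pos (by omega))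
    exact h3 (hE E (h3.trans hL.lt.le) (Or.inl h4) g hg x (h2 (mem_zpowers x)) h1)
  · push Not at h
    obtain ⟨y, hy, h⟩ := h
    have hyP := zpowers_le.2 hy
    obtain ⟨E, -, h1, h2⟩ := (hP.mono hyP).exists_between hp.out (n := k) bot_le
      (by rw [card_bot']; exact Nat.one_le_pow _ _ hp.out.pos) (by rw [card_zpowers']; exact h.le)
    have cE := Cyc.mono (cyc_zpowers y) h1
    have hEP := h1.trans hyP
    obtain ⟨z, hz, h3⟩ := exists_elt_of_prime_dvd (H := E) hp.out (h2 ▸ dvd_pow_self p (by omega))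
    have cz : #⟪z⟫ = p := (card_zpowers' z).trans h3
    have h4 : HCl M P ⟪z⟫ := fun g hg x hx h4 => by
      have h5 := hE E hEP (Or.inl h2) g hg x (zpowers_le.2 hz hx) h4
      exact cE.le_of_card_dvd (zpowers_le.2 h5) (zpowers_le.2 hz) (by
        rw [card_zpowers', orderOf_conj]; exact orderOf_dvd_card' hx) (mem_zpowers _)
    have h5 : P ≤ C[z] := cen_zpowers z ▸ hP.cents_of_prime cz hp.out (le_nrm_iff.2 fun g hg x hx =>
      h4 g (hS.le hg) x hx (conj_mem (le_nrm P hg) (hEP (zpowers_le.2 hz hx))))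
    have nz : M ⊓ C[z] ≤ N(⟪z⟫) := norms_zpowers_of_cen1 inf_le_right
    have hPC : P ≤ M ⊓ C[z] := le_inf hS.le h5
    have zP : ⟪z⟫ ⊴ P := ⟨zpowers_le.2 (hEP hz), hPC.trans nz⟩
    obtain ⟨k, rfl⟩ : ∃ j, k = j + 1 := ⟨k - 1, by omega⟩
    refine npc_of_scl hS hc h3 h5 (hEP hz) h4 (ih _ ?_ (k := k) rfl
      ((hS.subl hPC inf_le_left).quo nz)
      (hc.coprime_dvd_right ((card_quo_dvd _ _).trans (card_dvd inf_le_left))) (by omega) ?_ ?_)
    · exact hn ▸ (card_quo_lt ⟨zP.le.trans hPC, nz⟩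
        (ne_bot_of_prime_card (cz.symm ▸ hp.out))).trans_le (card_le inf_le_left)
    · rw [← card_quo_mul zP, cz, pow_succ'] at hlt
      exact Nat.lt_of_mul_lt_mul_left hlt
    · intro E' h6 h7 g' hg' x' hx' h8
      obtain ⟨g, hg, hg1, rfl⟩ := mem_quo.1 hg'
      obtain ⟨x, hx1, rfl⟩ := exists_coset x'
      have h9 : #E' = p ^ k := h7.resolve_right fun e => by
        have := Nat.pow_le_pow_left hp.out.two_le 2
        have := Nat.pow_le_pow_right hp.out.pos (show 2 ≤ k by omega)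
        omega
      rw [← coset_conj hg1 hx1] at h8 ⊢
      have h10 := mul_mem (mul_mem hg1 hx1) (inv_mem hg1)
      exact (mem_qpre.1 (hE _ (qpre_le_of_le_quo zP.le h6) (Or.inl (by
        rw [card_qpre, cz, h9, pow_succ'])) g hg.1 x (mem_qpre.2 ⟨hx1, hx'⟩)
        (mem_of_coset_mem h10 zP.le h8))).2

theorem scl_of_H (hP : PGrp p P) (hE : E ≤ P) (h : ∀ g, cj g E ⊓ N(E) ≤ E) : HCl M P E := by
  have h1 : P ≤ N(E) := by
    by_contra h1
    obtain ⟨g, hg, h2⟩ := SetLike.exists_of_lt (hP.lt_subnorm (inf_lt_left.2 h1))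
    exact h2 ⟨hg.1, mem_nrm_of_cj_le (le_trans (le_inf le_rfl
      ((cj_le_of_nrm hg.2 (le_inf hE (le_nrm E))).trans inf_le_right)) (h g))⟩
  exact fun g _ x hx h2 => h g ⟨conj_mem_cj.2 hx, h1 h2⟩

theorem coprime_pred (n : ℕ) (h : ∀ q, q.Prime → q ∣ n → p ≤ q) : (p - 1).Coprime n :=
  coprime_iff_forall.2 fun q hq h1 h2 => by
    have := h q hq h2
    have := Nat.le_of_dvd (Nat.sub_pos_of_lt hp.out.one_lt) h1
    have := hp.out.pos
    omega

/-- the hypothesis on a Sylow subgroup -/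
def HS (p : ℕ) (M P : Subgroup G) : Prop :=
  Cyc P ∨ ∃ k, 1 ≤ k ∧ p ^ k < #P ∧ ∀ E, E ≤ P → Go p k E → HCl M P E

theorem hs_of (hP : PGrp p P) (h : Cyc P ∨ ∃ D : Subgroup G, D ≤ P ∧ 1 < #D ∧ #D < #P ∧ ∀ E : Subgroup G,
    E ≤ P → (#E = #D ∨ #D = 2 ∧ #E = 4) → ∀ g, cj g E ⊓ N(E) ≤ E) : HS p M P :=
  h.imp_right fun ⟨D, h1, h2, h3, h4⟩ => by
    obtain ⟨k, hk⟩ := (hP.mono h1).card
    rw [hk] at h2 h3 h4
    exact ⟨k, Nat.pos_of_ne_zero fun e => by simp [e] at h2, h3, fun E h5 h6 =>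
      scl_of_H hP h5 (h4 E h5 h6)⟩

theorem HS.npc (h : HS p M P) (hS : Syl p P E) (hE : E ≤ M) (hm : ∀ q, q.Prime → q ∣ #E → p ≤ q) :
    NPC p E := by
  rcases h with h | ⟨k, h1, h2, h3⟩
  · exact cyclic_pdiv_normal_complement hS h hm
  · exact hs_main _ rfl hS (coprime_pred _ hm) h1 h2 fun F h4 h5 g hg => h3 F h4 h5 g (hE hg)

theorem HS.cycChain (h : HS p M P) (hP : PGrp p P) (hE : E ⊴ M) (hK : K ⊴ M) (hK' : PiGrp {p}ᶜ K)
    (hd : SD K P E) : H1.CycChain (M /ₛ K) (E /ₛ K) := by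
  have h0 := (hE.quo K)
  rw [hd.quo_eq] at h0 ⊢
  rcases h with h | ⟨k, h1, h2, h3⟩
  · exact H1.cycChain_of_cyc (h.quo K) h0.nrm
  refine cycChain_of_kres (hP.quo K) h0 (kres_cents (hP.quo K) h0.nrm h1
    (by rwa [card_quo_of_inf hd.nrm hd.inf]) fun F' h4 h5 => le_nrm_iff.2 fun g' hg' x' hx' => ?_)
  have e := quo_inf_qpre_of_le h4
  have h6 : Go p k (P ⊓ qpre(K, F')) := by
    rw [Go, ← card_quo_of_inf (inf_le_left.trans hd.nrm) (inf_eq_bot_mono hd.inf le_rfl inf_le_left), e]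
    exact h5
  obtain ⟨g, hg, hg1, rfl⟩ := mem_quo.1 hg'
  obtain ⟨x, hx, hx1, rfl⟩ := mem_quo.1 (e.ge hx')
  have h7 := (hP.piElt hx.1).conj g
  obtain ⟨c, hc, h8⟩ := hd.Jsub (zpowers_le.2 (hE.conj_mem hg (hd.right hx.1))) (hK'.cop' h7.zpowers)
    (Or.inr (sol_zpowers _))
  have h9 := h8 (conj_mem_cj.2 (mem_zpowers _))
  rw [show c * (g * x * g⁻¹) * c⁻¹ = c * g * x * (c * g)⁻¹ by group] at h9
  have h10 := (mem_qpre.1 (h3 _ inf_le_left h6 _ (mul_mem (hK.le hc) hg) x hx h9).2).2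
  rwa [coset_conj (mul_mem (le_nrm K hc) hg1) hx1, coset_mul (le_nrm K hc) hg1, coset_of_mem hc,
    one_mul] at h10

omit hp in
theorem hs_cycChain : ∀ (n : ℕ) {E : Subgroup G}, #E = n → E ⊴ M →
    (∀ p P, p.Prime → Syl p P E → HS p M P) → H1.CycChain M E := by
  intro n
  induction n using Nat.strong_induction_on with
  | _ n ih =>
  intro E hn hE h
  by_cases h1 : E = ⊥
  · exact H1.cycChain_of_cyc (h1 ▸ cyc_bot) hE.nrm
  have hp := Nat.minFac_prime (one_lt_card h1).ne'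
  haveI := Fact.mk hp
  obtain ⟨P, hP⟩ := exists_syl (#E).minFac E
  have h2 := (h _ P hp hP).npc hP hE.le fun q hq => Nat.minFac_le_of_dvd hq.two_le
  have hd := h2.sd hP
  have hK := hE.pcore {(#E).minFac}ᶜ
  have h3 := ((h _ P hp hP).cycChain hP.pi hE hK (pcore_pi _ _) hd).qpre
    (ih _ (hn ▸ card_lt (hd.lt_of_ne (hP.syl_ne_bot ⟨hp, Nat.minFac_dvd _⟩))) rfl hK fun q Q hq hQ => by
      by_cases e : q = (#E).minFac
      · exact Or.inl ((hQ.pi.eq_bot (e ▸ (pcore_pi _ _).mono hQ.le)) ▸ cyc_bot)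
      · exact h q Q hq (h2.hall.subHall_syl e hQ))
  rwa [qpre_quo_of_nml hd.nml] at h3

end Cfsg.Agent.GW
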