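import Mathlib
import Cfsg.Agent.H27.Mt0

set_option autoImplicit false
namespace Cfsg.Agent.H27.Mt
open Matrix Cfsg.Agent.H13

universe u
variable {G : Type*} [Group G] {F : Type} [Field F] (S : SzData G F) {E : Type*} [AddCommGroup E]
  [Module F E] {π : G →* (E →ₗ[F] E)}

/-- quotient representation -/
def ssq_quo (π : G →* (E →ₗ[F] E)) (R : Submodule F E) (hR : ∀ g, ∀ x ∈ R, π g x ∈ R) :
    G →* (E ⧸ R →ₗ[F] E ⧸ R) where
  toFun g := R.mapQ R (π g) (hR g)
  map_one' := by ext x; simp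
  map_mul' g h := by ext x; simp

theorem ssq_quo_mk (R : Submodule F E) (hR : ∀ g, ∀ x ∈ R, π g x ∈ R) (g : G) (x : E) :
    ssq_quo π R hR g (R.mkQ x) = R.mkQ (π g x) := rfl

theorem ssq_quo_D (R : Submodule F E) (hR : ∀ g, ∀ x ∈ R, π g x ∈ R) (g : G) (x : E) :
    D (ssq_quo π R hR) g (R.mkQ x) = R.mkQ (D π g x) := by
  rw [D_apply, D_apply, map_sub, ssq_quo_mk]

theorem ssq_quo_nz (h : Nz π) (R : Submodule F E) (hR : ∀ g, ∀ x ∈ R, π g x ∈ R) :
    Nz (ssq_quo π R hR) := fun g ho h1 x => by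
  obtain ⟨y, rfl⟩ := R.mkQ_surjective x
  simp only [ssq_quo_mk]
  rw [← map_sum, h g ho h1, map_zero]

/-- subrepresentation -/
def ssq_sub (π : G →* (E →ₗ[F] E)) (R : Submodule F E) (hR : ∀ g, ∀ x ∈ R, π g x ∈ R) :
    G →* (R →ₗ[F] R) where
  toFun g := (π g).restrict (hR g)
  map_one' := by ext x; simp
  map_mul' g h := by ext x; simp

theorem ssq_sub_coe (R : Submodule F E) (hR : ∀ g, ∀ x ∈ R, π g x ∈ R) (g : G) (x : R) :
    (ssq_sub π R hR g x : E) = π g x := rfl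

theorem ssq_sub_D (R : Submodule F E) (hR : ∀ g, ∀ x ∈ R, π g x ∈ R) (g : G) (x : R) :
    (D (ssq_sub π R hR) g x : E) = D π g x := rfl

theorem ssq_sub_nz (h : Nz π) (R : Submodule F E) (hR : ∀ g, ∀ x ∈ R, π g x ∈ R) :
    Nz (ssq_sub π R hR) := fun g ho h1 x => Subtype.ext (by
  rw [AddSubmonoidClass.coe_finsetSum]
  exact h g ho h1 x)

variable {S} in
theorem ssq_D {τ : F →+* F} {φ : (Fin 4 → F) →ₗ[F] E} (h : GM S τ π φ) (g : G) (x : Fin 4 → F) :
    D π g (φ x) = φ (nat S τ g x - x) := by rw [D_apply, map_sub, h]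

variable {S} in
theorem ssq_inv {τ : F →+* F} {φ : (Fin 4 → F) →ₗ[F] E} (h : GM S τ π φ) (g : G) :
    ∀ x ∈ LinearMap.range φ, π g x ∈ LinearMap.range φ := by
  rintro _ ⟨y, rfl⟩
  exact ⟨_, h g y⟩

include S in
theorem ss_two (x : E) : x + x = 0 := by
  have := S.charP
  rw [← two_smul F, show (2 : F) = 0 from CharP.cast_eq_zero F 2, zero_smul]

theorem ss_uu : S.u 1 0 * S.u 1 0 = S.u 0 1 := by
  have := S.charP
  rw [S.u_mul, show (1 : F) + 1 = 0 from CharTwo.add_self_eq_zero 1]; simp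

theorem ss_DD (x : E) : D π (S.u 1 0) (D π (S.u 1 0) x) = D π (S.u 0 1) x := by
  simp only [D_apply, map_sub]
  rw [← Module.End.mul_apply, ← map_mul, ss_uu]
  linear_combination (norm := abel) ss_two S x - ss_two S (π (S.u 1 0) x)

theorem ss_k1 (h : Nz π) {x : E} (hx : D π (S.u 1 0) x = 0) :
    x = D π (S.u 1 0) (D π (S.u 1 0) (D π (S.u 1 0) (π S.w x))) := by
  have := rel5 S h x
  rw [D_apply, sub_eq_zero] at hx
  simp only [pow_succ, pow_zero, one_mul, map_mul, Module.End.mul_apply, hx] at this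
  simp only [D_apply, map_sub]
  linear_combination (norm := abel) this - ss_two S (π (S.u 1 0) (π (S.u 1 0) (π (S.u 1 0) (π S.w x))))
    + ss_two S (π (S.u 1 0) (π (S.u 1 0) (π S.w x))) - ss_two S (π (S.u 1 0) (π S.w x))
    - ss_two S (π (S.u 1 0) (π S.w x))

theorem ss_k2 (h : Nz π) {x : E} (hx : D π (S.u 1 0) (D π (S.u 1 0) x) = 0) :
    x = D π (S.u 1 0) (D π (S.u 1 0) (π S.w x + π (S.u 1 0) (π S.w (π (S.u 1 0) x)))) := by
  have := rel5 S h x
  rw [ss_DD, D_apply, sub_eq_zero, ← ss_uu, map_mul, Module.End.mul_apply] at hx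
  simp only [pow_succ, pow_zero, one_mul, map_mul, Module.End.mul_apply, hx] at this
  rw [ss_DD, ← ss_uu]
  simp only [D_apply, map_add, map_mul, Module.End.mul_apply]
  linear_combination (norm := abel) this
    - ss_two S (π (S.u 1 0) (π (S.u 1 0) (π (S.u 1 0) (π S.w (π (S.u 1 0) x)))))
    - ss_two S (π (S.u 1 0) (π (S.u 1 0) (π S.w x)))

theorem ss_eig (c : C1.{u} S) {E : Type u} [AddCommGroup E] [Module F E] [Finite E]
    {π : G →* (E →ₗ[F] E)} (h : Nz π) (h2 : I2 S π) {p : E} (hp : ∀ a b, π (S.u a b) p = p)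
    (χ : Fˣ → F) (he : ∀ k, π (S.h k) p = χ k • p) : p ∈ Sp S π := by
  by_cases p0 : p = 0
  · rw [p0]; exact zero_mem _
  let X := Submodule.span F (Set.range fun g => π g p)
  have hX : ∀ g, ∀ x ∈ X, π g x ∈ X := fun g x hx => by
    refine (Submodule.span_le (p := X.comap (π g))).2 ?_ hx
    rintro _ ⟨k, rfl⟩
    exact Submodule.subset_span ⟨g * k, by simp⟩
  have hD : ∀ g, ∀ x ∈ X, D π g x ∈ X := fun g x hx => sub_mem (hX g x hx) hx
  have pX : p ∈ X := Submodule.subset_span ⟨1, by simp⟩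
  obtain ⟨y, hy⟩ : ∃ y, y = π S.w p := ⟨_, rfl⟩
  have yX : y ∈ X := hy ▸ hX _ _ pX
  have k : ∀ a b, ∃ z ∈ X, π (S.u a b) y = y + D π (S.u 1 0) z := fun a b => by
    obtain ⟨z, hz⟩ : ∃ z, z = D π (S.u a b) y := ⟨_, rfl⟩
    have zX : z ∈ X := hz ▸ hD _ _ yX
    have e1 : D π (S.u 0 1) z = D π (S.u a b) (D π (S.u 0 1) y) := by
      have : S.u 0 1 * S.u a b = S.u a b * S.u 0 1 := by simp [S.u_mul, add_comm]
      have e0 : π (S.u 0 1) (π (S.u a b) y) = π (S.u a b) (π (S.u 0 1) y) := by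
        rw [← Module.End.mul_apply, ← map_mul, this, map_mul, Module.End.mul_apply]
      rw [hz, D_apply π (S.u a b) y, D_apply π (S.u 0 1) y, map_sub, map_sub, D_apply, D_apply,
        D_apply, D_apply, e0]; abel
    have e2 := ss_k1 S h (x := D π (S.u 0 1) z) (by rw [e1]; exact h2 _ _ _ _ _ _)
    obtain ⟨t, ht⟩ : ∃ t, t = π S.w (D π (S.u 0 1) z) := ⟨_, rfl⟩
    have tX : t ∈ X := ht ▸ hX _ _ (hD _ _ zX)
    rw [← ht, ← ss_DD] at e2
    have e3 := ss_k2 S h (x := z - D π (S.u 1 0) t) (by rw [map_sub, map_sub, ← e2, sub_self])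
    have wX : z - D π (S.u 1 0) t ∈ X := sub_mem zX (hD _ _ tX)
    refine ⟨t + D π (S.u 1 0) _, add_mem tX (hD _ _ (add_mem (hX S.w _ wX)
      (hX (S.u 1 0) _ (hX S.w _ (hX (S.u 1 0) _ wX))))), ?_⟩
    rw [map_add, ← e3, hz, D_apply π (S.u a b)]; abel
  have A : ∀ x ∈ X, ∃ c : F, ∃ z ∈ X, x = c • y + D π (S.u 1 0) z := by
    intro x hx
    induction hx using Submodule.span_induction with
    | mem x hx =>
      obtain ⟨g, rfl⟩ := hx
      rcases S.bruhat g with ⟨a, b, l, rfl⟩ | ⟨a, b, a', b', l, rfl⟩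
      · have e := ss_k1 S h (x := p) (by rw [D_apply, hp, sub_self])
        refine ⟨0, χ l • _, Submodule.smul_mem _ _ (hD (S.u 1 0) _ (hD (S.u 1 0) _ (hX S.w _ pX))), ?_⟩
        simp only [map_mul, Module.End.mul_apply, he, map_smul, hp, ← e, zero_smul, zero_add]
      · obtain ⟨z, zX, e⟩ := k a b
        refine ⟨χ l, χ l • z, Submodule.smul_mem _ _ zX, ?_⟩
        simp only [map_mul, Module.End.mul_apply, he, map_smul, hp, ← hy, e, smul_add]
    | zero => exact ⟨0, 0, zero_mem _, by simp⟩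
    | add a b _ _ ha hb =>
      obtain ⟨c, z, zX, rfl⟩ := ha
      obtain ⟨c', z', zX', rfl⟩ := hb
      exact ⟨c + c', z + z', add_mem zX zX', by rw [map_add]; module⟩
    | smul r a _ ha =>
      obtain ⟨c, z, zX, rfl⟩ := ha
      exact ⟨r * c, r • z, Submodule.smul_mem _ _ zX, by rw [map_smul]; module⟩
  have d4 : ∀ x, D π (S.u 1 0) (D π (S.u 1 0) (D π (S.u 1 0) (D π (S.u 1 0) x))) = 0 := fun x => by
    rw [ss_DD S x]; exact h2 _ _ _ _ _ _
  let b : Fin 4 → E := ![y, D π (S.u 1 0) y, D π (S.u 1 0) (D π (S.u 1 0) y),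
    D π (S.u 1 0) (D π (S.u 1 0) (D π (S.u 1 0) y))]
  have le : X ≤ Submodule.span F (Set.range b) := fun x hx => by
    obtain ⟨c0, x1, m1, rfl⟩ := A x hx
    obtain ⟨c1, x2, m2, rfl⟩ := A x1 m1
    obtain ⟨c2, x3, m3, rfl⟩ := A x2 m2
    obtain ⟨c3, x4, -, rfl⟩ := A x3 m3
    refine (Submodule.mem_span_range_iff_exists_fun F).2 ⟨![c0, c1, c2, c3], ?_⟩
    simp [b, Fin.sum_univ_four, d4, add_assoc]
  have : Module.Finite F E := Module.Finite.of_finite
  have f4 : Module.finrank F X ≤ 4 := (Submodule.finrank_mono le).trans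
    ((finrank_range_le_card (R := F) b).trans (by simp))
  have : Nontrivial X := ⟨⟨⟨p, pX⟩, 0, fun z => p0 (congrArg Subtype.val z)⟩⟩
  obtain ⟨τ, φ, hi, hφ⟩ := c X (ssq_sub π X hX) (ssq_sub_nz h X hX)
  have ht : LinearMap.range φ = ⊤ := Submodule.eq_top_of_finrank_eq (le_antisymm
    (Submodule.finrank_le _) (by rw [LinearMap.finrank_range_of_inj hi]; simpa using f4))
  obtain ⟨v, hv⟩ : (⟨p, pX⟩ : X) ∈ LinearMap.range φ := ht ▸ Submodule.mem_top
  exact Submodule.mem_iSup_of_mem ⟨⟨τ, X.subtype ∘ₗ φ⟩, X.injective_subtype.comp hi,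
    fun g x => congrArg Subtype.val (hφ g x)⟩ ⟨v, congrArg Subtype.val hv⟩

theorem ss (c : C1.{u} S) : SS.{u} S := by
  classical
  intro E _ _ _ π h h1 h2
  have := S.charP
  have := S.finiteF
  let := Fintype.ofFinite F
  have P : ∀ p : E, (∀ a b, π (S.u a b) p = p) → p ∈ Sp S π := fun p hp => by
    have e : p = ∑ j ∈ Finset.range (Fintype.card Fˣ), ∑ k : Fˣ, ((k⁻¹ ^ j : Fˣ) : F) • π (S.h k) p := by
      rw [Finset.sum_comm, Finset.sum_eq_single 1]
      · have : Odd (Fintype.card Fˣ) := by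
          rw [← Nat.card_eq_fintype_card, S.card_units]; exact S.odd_q_sub_one
        obtain ⟨r, hr⟩ := this
        simp only [inv_one, one_pow, Units.val_one, one_smul, map_one, Module.End.one_apply,
          Finset.sum_const, Finset.card_range, hr]
        rw [add_smul, mul_smul, two_smul, ss_two S, one_smul, zero_add]
      · intro k _ hk
        rw [← Finset.sum_smul]
        have := mul_geom_sum ((k⁻¹ : Fˣ) : F) (Fintype.card Fˣ)
        rw [← Units.val_pow_eq_pow_val, pow_card_eq_one, Units.val_one, sub_self, mul_eq_zero,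
          sub_eq_zero, Units.val_eq_one, inv_eq_one] at this
        simp only [Units.val_pow_eq_pow_val]
        rw [this.resolve_left hk, zero_smul]
      · simp
    rw [e]
    refine Submodule.sum_mem _ fun j _ => ss_eig S c h h2 (fun a b => ?_) (fun l => (l : F) ^ j) fun l => ?_
    · rw [map_sum]
      refine Finset.sum_congr rfl fun k _ => ?_
      have := S.h_mul_u k ((k⁻¹ : Fˣ) * a) ((k * S.θ k)⁻¹ * b)
      rw [Units.mul_inv_cancel_left, mul_inv_cancel_left₀ (mul_ne_zero k.ne_zero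
        ((map_ne_zero _).2 k.ne_zero))] at this
      rw [map_smul, ← Module.End.mul_apply, ← map_mul, ← this, map_mul, Module.End.mul_apply, hp]
    · rw [map_sum, Finset.smul_sum, ← Equiv.sum_comp (Equiv.mulLeft l)
        (fun k => (l : F) ^ j • ((k⁻¹ ^ j : Fˣ) : F) • π (S.h k) p)]
      refine Finset.sum_congr rfl fun k _ => ?_
      rw [map_smul, ← Module.End.mul_apply, ← map_mul, ← map_mul, smul_smul, Equiv.coe_mulLeft,
        ← Units.val_pow_eq_pow_val, ← Units.val_mul, ← mul_pow, mul_inv, mul_inv_cancel_left]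
  by_contra n
  have hR : ∀ g, ∀ x ∈ Sp S π, π g x ∈ Sp S π := fun g => by
    refine (iSup_le fun q => ?_ : Sp S π ≤ (Sp S π).comap (π g))
    exact fun x hx => Submodule.mem_iSup_of_mem q (ssq_inv q.2.2 g x hx)
  have : Finite (E ⧸ Sp S π) := Finite.of_surjective _ (Sp S π).mkQ_surjective
  have : Nontrivial (E ⧸ Sp S π) := Submodule.Quotient.nontrivial_iff.2 n
  obtain ⟨τ, φ, hi, hφ⟩ := c _ (ssq_quo π _ hR) (ssq_quo_nz h _ hR)
  obtain ⟨x, hx⟩ := (Sp S π).mkQ_surjective (φ ![0, 0, 0, 1])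
  have e1 : (Sp S π).mkQ (D π (S.u 1 0) (D π (S.u 1 0) (D π (S.u 1 0) x))) = 0 :=
    (Submodule.Quotient.mk_eq_zero _).2 (P _ fun a b => by
      rw [← sub_eq_zero, ← D_apply, ss_DD S x]; exact h2 _ _ _ _ _ _)
  rw [← ssq_quo_D _ hR, ← ssq_quo_D _ hR, ← ssq_quo_D _ hR, hx, ssq_D hφ, ssq_D hφ, ssq_D hφ,
    ← map_zero φ] at e1
  have := congrFun (hi e1) 0
  simp [nat_u] at this

end Cfsg.Agent.H27.Mt
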