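import Mathlib
import Cfsg.Agent.GW.On1

/-! Groups with a geometric partition of rank at least three are vector spaces. -/
set_option autoImplicit false
set_option linter.unusedSectionVars false
namespace Cfsg.Agent.GW.ON
open Set MulAction Cfsg.Agent.GW.PP

theorem ext_add {M M' : Type*} [AddCommGroup M] [AddCommGroup M'] (N : AddSubgroup M) (f : M → M')
    (add : ∀ u v, u ∉ N → v ∉ N → u + v ∉ N → f (u + v) = f u + f v)
    (big : ∀ u, ∃ w, w ∉ N ∧ u + w ∉ N ∧ w - u ∉ N) : ∃ φ : M →+ M', ∀ u ∉ N, φ u = f u := by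
  classical
  obtain ⟨w₀, hw₀, -⟩ := big 0
  have nm : ∀ {n w}, n ∈ N → w ∉ N → n + w ∉ N := fun hn hw H => hw ((add_mem_cancel_left hn).1 H)
  have k1 : ∀ n ∈ N, ∀ w w', w ∉ N → w' ∉ N → w + w' ∉ N → f (n + w) - f w = f (n + w') - f w' :=
    fun n hn w w' a b c => by
      have e1 := add (n + w) w' (nm hn a) b (by rw [add_assoc]; exact nm hn c)
      have e2 := add (n + w') w (nm hn b) a (by rw [add_assoc, add_comm w']; exact nm hn c)
      rw [add_right_comm, e2] at e1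
      rw [sub_eq_sub_iff_add_eq_add, e1]
  have k2 : ∀ n ∈ N, ∀ w ∉ N, f (n + w) = f (n + w₀) - f w₀ + f w := fun n hn w a => by
    rw [← sub_eq_iff_eq_add]
    by_cases e : w + w₀ ∈ N
    · obtain ⟨w', b1, b2, b3⟩ := big w₀
      rw [k1 n hn w w' a b1 (by simpa using nm e b3), k1 n hn w₀ w' hw₀ b1 b2]
    · exact k1 n hn w w₀ a hw₀ e
  refine ⟨AddMonoidHom.mk' (fun m => if m ∈ N then f (m + w₀) - f w₀ else f m) fun u v => ?_,
    fun u hu => if_neg hu⟩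
  by_cases a : u ∈ N <;> by_cases b : v ∈ N
  · rw [if_pos a, if_pos b, if_pos (add_mem a b), add_assoc, k2 u a _ (nm b hw₀)]; abel
  · rw [if_pos a, if_neg b, if_neg (nm a b), k2 u a v b]
  · rw [if_neg a, if_pos b, add_comm u, if_neg (nm b a), k2 v b u a, add_comm]
  rw [if_neg a, if_neg b]
  split_ifs with c
  · obtain ⟨w, b1, b2, -⟩ := big v
    have := k2 _ c w b1
    rw [add_assoc, add u _ a b2 (by rw [← add_assoc]; exact nm c b1), add v w b b1 b2, ← add_assoc] at this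
    exact (add_right_cancel this).symm
  · exact add u v a b c

/-- A geometric partition of rank at least three. -/
structure Kap {M : Type*} [AddCommGroup M] (κ : M → AddSubgroup M) : Prop where
  k0 : κ 0 = ⊥
  k1 : ∀ t, t ∈ κ t
  k2 : ∀ {t u}, u ∈ κ t → u ≠ 0 → κ u = κ t
  k3 : ∀ t u, κ (t + u) ≤ κ t ⊔ κ u
  k4 : ∀ t u, ∃ w, w ∉ κ t ⊔ κ u

namespace Kap
variable {M : Type*} [AddCommGroup M] {κ : M → AddSubgroup M} (h : Kap κ) {t u w z : M}
include h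

theorem le (k : u ∈ κ t) : κ u ≤ κ t := by
  by_cases e : u = 0
  · rw [e, h.k0]; exact bot_le
  · exact (h.k2 k e).le

theorem le2 (k : z ∈ κ t ⊔ κ u) : κ z ≤ κ t ⊔ κ u := by
  obtain ⟨a, ha, b, hb, rfl⟩ := AddSubgroup.mem_sup.1 k
  exact (h.k3 a b).trans (sup_le_sup (h.le ha) (h.le hb))

theorem z1 (k1 : z ∈ κ w) (k2 : z ∈ κ t) (k3 : w ∉ κ t) : z = 0 := by_contra fun e =>
  k3 (h.le k2 ((h.k2 k1 e).ge (h.k1 w)))

theorem z2 (k1 : z ∈ κ w) (k2 : z ∈ κ t ⊔ κ u) (k3 : w ∉ κ t ⊔ κ u) : z = 0 := by_contra fun e =>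
  k3 (h.le2 k2 ((h.k2 k1 e).ge (h.k1 w)))

theorem exch (k1 : u ∉ κ t) (k2 : w ∉ κ t ⊔ κ u) : u ∉ κ t ⊔ κ w := fun H => by
  obtain ⟨a, ha, b, hb, e⟩ := AddSubgroup.mem_sup.1 H
  rw [h.z2 hb (eq_sub_of_add_eq' e ▸ sub_mem (AddSubgroup.mem_sup_right (h.k1 u))
    (AddSubgroup.mem_sup_left ha)) k2, add_zero] at e
  exact k1 (e ▸ ha)

theorem z3 (t0 : t ≠ 0) (k : u ∉ κ t) (k1 : z ∈ κ u) (k2 : z ∈ κ (t + u)) : z = 0 :=
  h.z1 k2 k1 fun H => k ((h.k2 ((add_mem_cancel_right (h.k1 u)).1 H) t0).ge (h.k1 u))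

theorem scal {t₁ : M} (t0 : t ≠ 0) (k : t₁ ∈ κ t) : ∃ φ : M →+ M, (∀ m, φ m ∈ κ m) ∧ φ t = t₁ := by
  have L := @AddSubgroup.mem_sup_left M _
  have R := @AddSubgroup.mem_sup_right M _
  have ex : ∀ u, ∃ a ∈ κ u, t₁ + a ∈ κ (t + u) := fun u => by
    have := h.k3 (t + u) (-u)
    rw [add_neg_cancel_right] at this
    obtain ⟨a, ha, b, hb, e⟩ := AddSubgroup.mem_sup.1 (this k)
    exact ⟨-b, neg_mem (h.le (neg_mem (h.k1 u)) hb), by simpa [← e] using ha⟩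
  choose f f1 f2 using ex
  have un : ∀ u ∉ κ t, ∀ a ∈ κ u, t₁ + a ∈ κ (t + u) → a = f u := fun u hu a a1 a2 =>
    sub_eq_zero.1 (h.z3 t0 hu (sub_mem a1 (f1 u)) (by simpa using sub_mem a2 (f2 u)))
  have half : ∀ u ∉ κ t, ∀ w ∉ κ t ⊔ κ u, ∀ a ∈ κ u, ∀ a' ∈ κ w, a + a' = f (u + w) → a = f u :=
    fun u hu w hw a ha a' ha' e => by
      have := h.k3 (t + u) w
      rw [add_assoc] at this
      obtain ⟨b, hb, b', hb', e'⟩ := AddSubgroup.mem_sup.1 (this (f2 (u + w)))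
      have e2 : b' - a' = t₁ + a - b := by rw [← e] at e'; rw [sub_eq_sub_iff_add_eq_add, add_comm, e']; abel
      have := h.z2 (sub_mem hb' ha') (e2 ▸ sub_mem (add_mem (L k) (R ha)) (h.k3 t u hb)) hw
      rw [e2, sub_eq_zero] at this
      exact un u hu a ha (this ▸ hb)
  have ad : ∀ u ∉ κ t, ∀ w ∉ κ t ⊔ κ u, f (u + w) = f u + f w := fun u hu w hw => by
    obtain ⟨a, ha, a', ha', e⟩ := AddSubgroup.mem_sup.1 (h.k3 u w (f1 (u + w)))
    rw [← e, half u hu w hw a ha a' ha' e, half w (fun H => hw (L H)) u (h.exch hu hw) a' ha' a ha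
      (by rw [add_comm, e, add_comm])]
  obtain ⟨φ, hφ⟩ := ext_add (κ t) f (fun u v hu hv huv => by
    by_cases e : v ∈ κ t ⊔ κ u
    · obtain ⟨w, hw⟩ := h.k4 t u
      have s : ∀ {v}, v ∈ κ t ⊔ κ u → w ∉ κ t ⊔ κ v := fun hv H => hw (sup_le le_sup_left (h.le2 hv) H)
      have := ad _ huv w (s (add_mem (R (h.k1 u)) e))
      rw [add_assoc, ad u hu _ fun H => hw ((add_mem_cancel_left e).1 H), ad v hv w (s e), ← add_assoc] at this
      exact (add_right_cancel this).symm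
    · exact ad u hu v e) fun u => by
      obtain ⟨w, hw⟩ := h.k4 t u
      exact ⟨w, fun H => hw (L H), fun H => hw ((add_mem_cancel_left (R (h.k1 u))).1 (L H)),
        fun H => hw (by simpa using add_mem (L H) (R (h.k1 u)))⟩
  obtain ⟨w, hw⟩ := h.k4 t t
  rw [sup_idem] at hw
  have nm : ∀ {n w}, n ∈ κ t → w ∉ κ t → n + w ∉ κ t := fun hn hw H => hw ((add_mem_cancel_left hn).1 H)
  have k1 : ∀ n ∈ κ t, φ n ∈ κ t := fun n hn => by
    have k2 : ∀ w ∉ κ t, φ n ∈ κ t ⊔ κ w := fun w hw => by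
      have := sub_mem (sup_le_sup_right (h.le hn) _ (h.k3 n w (f1 (n + w)))) (R (f1 w))
      rwa [← hφ _ (nm hn hw), ← hφ _ hw, map_add, add_sub_cancel_right] at this
    obtain ⟨w', hw'⟩ := h.k4 t w
    obtain ⟨a, ha, b, hb, e⟩ := AddSubgroup.mem_sup.1 (k2 w' fun H => hw' (L H))
    rw [h.z2 hb (eq_sub_of_add_eq' e ▸ sub_mem (k2 w hw) (L ha)) hw', add_zero] at e
    exact e ▸ ha
  refine ⟨φ, fun m => ?_, sub_eq_zero.1 (h.z1 (t := t) (w := t + w) ?_ (sub_mem (k1 t (h.k1 t)) k)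
    (nm (h.k1 t) hw))⟩
  · by_cases e : m ∈ κ t
    · by_cases e0 : m = 0
      · rw [e0, map_zero]; exact zero_mem _
      · exact (h.k2 e e0).ge (k1 m e)
    · exact hφ m e ▸ f1 m
  · have := sub_mem (f1 (t + w)) (f2 w)
    rwa [← hφ _ (nm (h.k1 t) hw), ← hφ _ hw, map_add, add_sub_add_right_eq_sub] at this

theorem field [Finite M] : ∃ (F : Type) (_ : Field F) (_ : Fintype F) (_ : Module F M),
    ∀ t u, u ∈ κ t ↔ ∃ c : F, c • t = u := by
  let K : Subring (AddMonoid.End M) :=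
    { carrier := {φ | ∀ m, φ m ∈ κ m}
      mul_mem' := fun {a b} ha hb m => h.le (hb m) (ha _)
      one_mem' := h.k1
      add_mem' := fun ha hb m => add_mem (ha m) (hb m)
      zero_mem' := fun m => zero_mem _
      neg_mem' := fun ha m => neg_mem (ha m) }
  have inj : ∀ φ : K, ∀ t ≠ 0, φ.1 t = 0 → φ = 0 := fun φ t t0 e => by
    have k : ∀ u ∉ κ t, φ.1 u = 0 := fun u hu => h.z3 t0 hu (φ.2 u) (by simpa [e] using φ.2 (t + u))
    obtain ⟨w, hw⟩ := h.k4 t t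
    rw [sup_idem] at hw
    refine Subtype.ext (AddMonoidHom.ext fun u => show φ.1 u = 0 from ?_)
    by_cases hu : u ∈ κ t
    · simpa [k w hw] using k (u + w) fun H => hw ((add_mem_cancel_left hu).1 H)
    · exact k u hu
  obtain ⟨w, hw⟩ := h.k4 0 0
  have w0 : w ≠ 0 := fun e => hw (by rw [e]; exact zero_mem _)
  have : Nontrivial K := ⟨1, 0, fun e => w0 (DFunLike.congr_fun (congrArg Subtype.val e) w)⟩
  have : NoZeroDivisors K := ⟨fun {a b} e => or_iff_not_imp_right.2 fun H =>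
    inj a (b.1 w) (fun H' => H (inj b w w0 H')) (DFunLike.congr_fun (congrArg Subtype.val e) w)⟩
  have := NoZeroDivisors.to_isDomain K
  have : Finite (AddMonoid.End M) := DFunLike.finite _
  let := (Finite.isDomain_to_isField K).toField
  obtain ⟨F, i1, i2, ⟨σ⟩⟩ := exists_field0 K
  refine ⟨F, i1, i2, Module.compHom M (K.subtype.comp σ.symm.toRingHom), fun t u => ⟨fun H => ?_, ?_⟩⟩
  · by_cases e : t = 0
    · rw [e, h.k0] at H
      exact ⟨0, (show (σ.symm 0).1 t = 0 by rw [e, map_zero]).trans H.symm⟩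
    obtain ⟨φ, h1, h2⟩ := h.scal e H
    exact ⟨σ ⟨φ, h1⟩, show (σ.symm (σ _)).1 t = u by rw [σ.symm_apply_apply]; exact h2⟩
  · rintro ⟨c, rfl⟩
    exact (σ.symm c).2 t

end Kap
end Cfsg.Agent.GW.ON
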