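import Mathlib
import Cfsg.Agent.GW.On2

/-! O'Nan's theorem: hyperplanes, translation groups, coordinates. -/
set_option autoImplicit false
set_option linter.unusedSectionVars false
namespace Cfsg.Agent.GW.ON
open Set MulAction Cfsg.Agent.GW.PP

variable {G X : Type*} [Group G] [MulAction G X] [Finite G] [Finite X]

/-- Hyperplanes. -/
structure Hy (A : X → Subgroup G) (H : Set X) : Prop where
  cl : ∀ {u v w}, u ≠ v → u ∈ H → v ∈ H → Co A u v w → w ∈ H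
  hit : ∀ {u v}, u ≠ v → ∃ t ∈ H, Co A u v t
  pr : ∃ o, o ∉ H

/-- Elations with given axis and centre. -/
def En (A : X → Subgroup G) (H : Set X) (c : X) : Subgroup G where
  carrier := {a | a ∈ A c ∧ ∀ z ∈ H, a • z = z}
  one_mem' := ⟨one_mem _, fun z _ => one_smul _ z⟩
  mul_mem' a b := ⟨mul_mem a.1 b.1, fun z hz => by rw [mul_smul, b.2 z hz, a.2 z hz]⟩
  inv_mem' a := ⟨inv_mem a.1, fun z hz => inv_fix (a.2 z hz)⟩

/-- Homogeneous coordinates. -/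
structure Vec (A : X → Subgroup G) (F : Type*) {W : Type*} [Field F] [AddCommGroup W] [Module F W]
    (v : X → W) : Prop where
  v0 : ∀ x, v x ≠ 0
  sj : ∀ w ≠ 0, ∃ x, ∃ c : F, c • v x = w
  ln : ∀ x y, x ≠ y → ∃ U : Submodule F W, Module.finrank F U ≤ 2 ∧ ∀ z, Co A x y z ↔ v z ∈ U

theorem Vec.map {A : X → Subgroup G} {F W W' : Type*} [Field F] [AddCommGroup W] [Module F W]
    [AddCommGroup W'] [Module F W'] {v : X → W} (h : Vec A F v) (e : W ≃ₗ[F] W') :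
    Vec A F (fun x => e (v x)) :=
  ⟨fun x => by simpa using h.v0 x, fun w hw => by
    obtain ⟨x, c, H⟩ := h.sj (e.symm w) (by simpa using hw)
    exact ⟨x, c, by rw [← map_smul, H, e.apply_symm_apply]⟩, fun x y ne => by
    obtain ⟨U, h1, h2⟩ := h.ln x y ne
    exact ⟨U.map e.toLinearMap, by rwa [LinearEquiv.finrank_map_eq], fun z => by simp [h2]⟩⟩

theorem finrank_pair {F W : Type*} [Field F] [AddCommGroup W] [Module F W] (a b : W) :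
    Module.finrank F (Submodule.span F {a, b}) ≤ 2 := by
  classical
  rw [← Finset.coe_pair]
  exact (finrank_span_finset_le_card (R := F) {a, b}).trans Finset.card_le_two

namespace On
variable {A : X → Subgroup G} (h : On A) {H : Set X} {x y z u o o' c d : X} {a b g t t' : G}
include h

theorem hy_fix (ha : a ∈ A x) (h1 : a ≠ 1) : Hy A {z | a • z = z} :=
  ⟨fun ne a1 a2 k => h.fix_line ha ne a1 a2 k, fun ne => let ⟨t, t1, t2⟩ := h.hit ha ne; ⟨t, t2, t1⟩,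
    not_forall.1 fun H => h1 (h.fa a H)⟩

theorem ncard_line (n1 : x ≠ y) (n2 : c ≠ d) :
    {z | Co A x y z ∧ z ≠ x}.ncard ≤ {z | Co A c d z ∧ z ≠ c}.ncard := by
  obtain ⟨g, rfl, rfl⟩ := h.t2 x y c d n1 n2
  exact ncard_le_ncard_of_injOn (g • ·) (fun z hz => ⟨h.co_smul g hz.1, fun e => hz.2 (MulAction.injective g e)⟩)
    (MulAction.injective g).injOn

variable (k : Hy A H)
include k

theorem hmem (hc : c ∈ H) (ha : a ∈ A c) (hz : z ∈ H) : a • z ∈ H := by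
  by_cases e : c = z
  · rwa [← e, h.fix ha]
  · exact k.cl e hc hz (h.coA ha z)

theorem hoff (hc : c ∈ H) (ho : o ∉ H) (k1 : Co A c o z) (ne : c ≠ z) : z ∉ H := fun hz =>
  ho (k.cl ne hc hz (h.swap (fun e => ho (e ▸ hc)) ne k1))

theorem free (ha : a ∈ En A H c) (ho : o ∉ H) (e : a • o = o) : a = 1 := h.fa a fun z => by
  by_cases n : o = z
  · exact n ▸ e
  obtain ⟨t, t1, t2⟩ := k.hit n
  have : o ≠ t := fun e => ho (e ▸ t1)
  exact h.fix_line ha.1 this e (ha.2 t t1) (h.swap n this t2)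

theorem cjE (hc : c ∈ H) (hg : g ∈ A c) (ht : t ∈ En A H d) : g * t * g⁻¹ ∈ En A H (g • d) :=
  ⟨h.cj g ht.1, fun z hz => by
    rw [mul_smul, mul_smul, ht.2 _ (h.hmem k hc (inv_mem hg) hz), smul_inv_smul]⟩

theorem cmE (hc : c ∈ H) (hg : g ∈ A c) (ht : t ∈ En A H d) : g * t * g⁻¹ * t⁻¹ ∈ En A H c :=
  ⟨by simpa only [mul_assoc] using mul_mem hg (h.cj' (ht.2 c hc) (inv_mem hg)), fun z hz => by
    rw [mul_smul, (inv_mem ht).2 z hz, (h.cjE k hc hg ht).2 z hz]⟩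

theorem surj (hc : c ∈ H) (ne : c ≠ d) (ht : t ∈ En A H d) (t1 : t ≠ 1) (ho : o ∉ H)
    (k1 : Co A c o o') (n2 : o' ≠ c) : ∃ a ∈ A c, (a * t * a⁻¹ * t⁻¹) • o = o' := by
  have n : c ≠ o := fun e => ho (e ▸ hc)
  have : ∀ z, Co A c d z ∧ z ≠ c → ∃ a ∈ A c, a • d = z := fun z hz => h.trl ne hz.1 hz.2.symm
  choose! f f1 f2 using this
  obtain ⟨z, hz, e⟩ := surj_on_of_inj_on_of_ncard_le (s := {z | Co A c d z ∧ z ≠ c})
    (t := {z | Co A c o z ∧ z ≠ c}) (fun z _ => (f z * t * (f z)⁻¹ * t⁻¹) • o)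
    (fun z hz => ⟨h.coA (h.cmE k hc (f1 z hz) ht).1 o,
      smul_ne _ (h.fix (h.cmE k hc (f1 z hz) ht).1) n.symm⟩)
    (fun z z' hz hz' e => by
      have := h.free k (mul_mem (inv_mem (h.cmE k hc (f1 z' hz') ht)) (h.cmE k hc (f1 z hz) ht)) ho
        (by rw [mul_smul, e, inv_smul_smul])
      have e2 := mul_right_cancel (inv_mul_eq_one.1 this)
      rw [← f2 z hz, ← f2 z' hz']
      exact h.ctr (h.cj _ ht.1) (by simpa using t1) (e2 ▸ h.cj _ ht.1))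
    (h.ncard_line n ne) (toFinite _) o' ⟨k1, n2⟩
  exact ⟨_, f1 z hz, e.symm⟩

theorem prod (hc : c ∈ H) (ne : c ≠ d) (ht : t ∈ En A H c) (ht' : t' ∈ En A H d) (t1 : t' ≠ 1) :
    ∃ a ∈ A c, a * t' * a⁻¹ = t * t' := by
  obtain ⟨o, ho⟩ := k.pr
  obtain ⟨a, a1, a2⟩ := h.surj k hc ne ht' t1 ho (h.coA ht.1 o)
    (smul_ne _ (h.fix ht.1) fun e => ho (e ▸ hc))
  have := h.free k (mul_mem (inv_mem ht) (h.cmE k hc a1 ht')) ho (by rw [mul_smul, a2, inv_smul_smul])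
  exact ⟨a, a1, by rw [inv_mul_eq_one.1 this, inv_mul_cancel_right]⟩

theorem other (c : X) : ∃ d ∈ H, c ≠ d := by
  obtain ⟨x, y, n, -⟩ := h.ns
  obtain ⟨y, n⟩ : ∃ y, c ≠ y := by
    by_cases e : c = x
    exacts [⟨y, e ▸ n⟩, ⟨x, e⟩]
  obtain ⟨z, k1⟩ := h.exT n
  have := h.s23 (h.s12 k1)
  obtain ⟨d, d1, d2⟩ := k.hit this.1
  exact ⟨d, d1, fun e => this.2 (e ▸ d2)⟩

variable (ex : ∃ x ∈ H, ∃ t ∈ En A H x, t ≠ 1)
include ex

theorem exE (hd : d ∈ H) : ∃ t ∈ En A H d, t ≠ 1 := by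
  obtain ⟨x, hx, t, t1, t2⟩ := ex
  by_cases e : x = d
  · exact ⟨t, e ▸ t1, t2⟩
  obtain ⟨c, c1, c2, c3⟩ := h.third e
  obtain ⟨a, a1, rfl⟩ := h.trl c2 (h.symm c2.symm (h.swap e c2.symm c1)) c3
  exact ⟨_, h.cjE k (k.cl e hx hd c1) a1 t1, by simpa using t2⟩

theorem reg (hc : c ∈ H) (ho : o ∉ H) (k1 : Co A c o o') (n2 : o' ≠ c) : ∃ t ∈ En A H c, t • o = o' := by
  obtain ⟨d, d1, d2⟩ := h.other k c
  obtain ⟨t, t1, t2⟩ := h.exE k ex d1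
  obtain ⟨a, a1, a2⟩ := h.surj k hc d2 t1 t2 ho k1 n2
  exact ⟨_, h.cmE k hc a1 t1, a2⟩

theorem vec (rk : ∀ c ∈ H, ∀ d ∈ H, c ≠ d → ∃ e ∈ H, ¬ Co A c d e) :
    ∃ (F : Type) (_ : Field F) (_ : Fintype F) (n : ℕ) (v : X → Fin n → F), Vec A F v := by
  classical
  let T : Subgroup G :=
    { carrier := {t | ∃ c ∈ H, t ∈ En A H c}
      one_mem' := let ⟨x, hx, _⟩ := ex; ⟨x, hx, one_mem _⟩
      inv_mem' := fun ⟨c, hc, a⟩ => ⟨c, hc, inv_mem a⟩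
      mul_mem' := fun {t t'} ⟨c, hc, a⟩ ⟨d, hd, b⟩ => by
        by_cases e : c = d
        · exact ⟨c, hc, mul_mem a (e ▸ b)⟩
        by_cases e1 : t' = 1
        · exact ⟨c, hc, by rwa [e1, mul_one]⟩
        obtain ⟨g, g1, g2⟩ := h.prod k hc e a b e1
        exact ⟨_, h.hmem k hc g1 hd, g2 ▸ h.cjE k hc g1 b⟩ }
  let : CommGroup T := { (inferInstance : Group T) with
    mul_comm := fun ⟨t, c, hc, a⟩ ⟨t', d, hd, b⟩ => Subtype.ext (by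
      by_cases e : c = d
      · exact h.comm a.1 (e ▸ b.1)
      · exact h.pq e a.1 (a.2 d hd) b.1 (b.2 c hc)) }
  let M := Additive T
  let ν : M → G := fun m => m.toMul
  have ext : ∀ {m m' : M}, ν m = ν m' → m = m' := fun e => Subtype.ext e
  have n0 : ∀ {m : M}, ν m ≠ 1 ↔ m ≠ 0 := not_congr ⟨fun e => ext e, fun e => e ▸ rfl⟩
  have na : ∀ m m' : M, ν (m + m') = ν m * ν m' := fun _ _ => rfl
  have mk : ∀ c ∈ H, ∀ t ∈ En A H c, ∃ m : M, ν m = t := fun c hc t ht =>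
    ⟨Additive.ofMul ⟨t, c, hc, ht⟩, rfl⟩
  let κ : M → AddSubgroup M := fun t =>
    { carrier := {u | ∀ c ∈ H, ν t ∈ En A H c → ν u ∈ En A H c}
      zero_mem' := fun c _ _ => one_mem _
      add_mem' := fun a b c hc ht => mul_mem (a c hc ht) (b c hc ht)
      neg_mem' := fun a c hc ht => inv_mem (a c hc ht) }
  have mκ : ∀ {c}, c ∈ H → ∀ {t : M}, ν t ∈ En A H c → t ≠ 0 → ∀ {u}, u ∈ κ t ↔ ν u ∈ En A H c :=
    fun hc t a b u => ⟨fun e => e _ hc a, fun e d _ a' => h.ctr a.1 (n0.2 b) a'.1 ▸ e⟩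
  have K : Kap κ := ⟨eq_bot_iff.2 fun u hu => ?_, fun t c _ a => a, fun {t u} a b => ?_, fun t u s hs => ?_,
    fun t u => ?_⟩
  rotate_left
  · obtain ⟨x, hx, -⟩ := id ex
    obtain ⟨d, d1, d2⟩ := h.other k x
    exact ext (h.ti d2 (hu x hx (one_mem _)).1 (hu d d1 (one_mem _)).1)
  · obtain ⟨c, hc, e⟩ := t.toMul.2
    have : t ≠ 0 := fun e0 => by
      obtain ⟨d, d1, d2⟩ := h.other k c
      exact n0.2 b (h.ti d2 (a c hc e).1 (a d d1 (e0 ▸ one_mem _)).1)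
    ext w
    rw [mκ hc e this, mκ hc (a c hc e) b]
  · by_cases t0 : t = 0
    · exact AddSubgroup.mem_sup_right (by rwa [t0, zero_add] at hs)
    by_cases u0 : u = 0
    · exact AddSubgroup.mem_sup_left (by rwa [u0, add_zero] at hs)
    obtain ⟨c, hc, a⟩ := t.toMul.2
    obtain ⟨d, hd, b⟩ := u.toMul.2
    by_cases e : c = d
    · exact AddSubgroup.mem_sup_left ((mκ hc a t0).2 (hs c hc (mul_mem a (e ▸ b))))
    obtain ⟨g, g1, g2⟩ := h.prod k hc e a b (n0.2 u0)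
    have s1 := h.cjE k hc (inv_mem g1) (hs _ (h.hmem k hc g1 hd) (na t u ▸ g2 ▸ h.cjE k hc g1 b))
    rw [inv_smul_smul] at s1
    obtain ⟨m, hm⟩ := mk c hc _ (h.cmE k hc g1 s1)
    obtain ⟨m', hm'⟩ := mk d hd _ s1
    exact AddSubgroup.mem_sup.2 ⟨m, (mκ hc a t0).2 (hm ▸ h.cmE k hc g1 s1), m', (mκ hd b u0).2 (hm' ▸ s1),
      ext (by rw [na, hm, hm']; group)⟩
  · obtain ⟨c, hc, a⟩ := t.toMul.2
    obtain ⟨d, hd, n, b⟩ : ∃ d ∈ H, c ≠ d ∧ ∀ w ∈ κ t ⊔ κ u, ∃ p ∈ En A H c, ∃ q ∈ En A H d, ν w = p * q := by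
      obtain ⟨d, hd, b⟩ := u.toMul.2
      by_cases e : c = d
      · obtain ⟨d', d1, d2⟩ := h.other k c
        refine ⟨d', d1, d2, fun w hw => ⟨_, ?_, 1, one_mem _, (mul_one _).symm⟩⟩
        obtain ⟨p, hp, q, hq, rfl⟩ := AddSubgroup.mem_sup.1 hw
        exact mul_mem (hp c hc a) (hq c hc (e ▸ b))
      · refine ⟨d, hd, e, fun w hw => ?_⟩
        obtain ⟨p, hp, q, hq, rfl⟩ := AddSubgroup.mem_sup.1 hw
        exact ⟨_, hp c hc a, _, hq d hd b, rfl⟩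
    obtain ⟨e, he, e1⟩ := rk c hc d hd n
    obtain ⟨w, w1, w2⟩ := h.exE k ex he
    obtain ⟨m, rfl⟩ := mk e he w w1
    refine ⟨m, fun hm => e1 ?_⟩
    obtain ⟨p, hp, q, hq, e2⟩ := b m hm
    by_cases q1 : q = 1
    · rw [q1, mul_one] at e2
      exact h.ctr w1.1 w2 (e2 ▸ hp.1) ▸ h.co_l c d
    obtain ⟨g, g1, g2⟩ := h.prod k hc n hp hq q1
    exact h.ctr w1.1 w2 (e2 ▸ g2 ▸ h.cj g hq.1) ▸ h.coA g1 d
  have : Finite M := inferInstanceAs (Finite T)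
  obtain ⟨F, i1, i2, i3, hF⟩ := K.field
  obtain ⟨o, ho⟩ := k.pr
  have e1 : ∀ c ∈ H, ∃ m : M, ν m ∈ En A H c ∧ m ≠ 0 := fun c hc => by
    obtain ⟨t, t1, t2⟩ := h.exE k ex hc
    obtain ⟨m, rfl⟩ := mk c hc t t1
    exact ⟨m, t1, n0.1 t2⟩
  have e2 : ∀ z ∉ H, ∃ m : M, ν m • o = z := fun z hz => by
    by_cases e : o = z
    · exact ⟨0, (one_smul _ o).trans e⟩
    obtain ⟨c, hc, c1⟩ := k.hit e
    have n : o ≠ c := fun e => ho (e ▸ hc)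
    obtain ⟨t, t1, t2⟩ := h.reg k ex hc ho (h.symm n (h.swap e n c1)) fun e => hz (e ▸ hc)
    obtain ⟨m, rfl⟩ := mk c hc t t1
    exact ⟨m, t2⟩
  choose! τ τ1 τ2 using e1
  choose! σ σ1 using e2
  have σ2 : ∀ m : M, ∀ z, ν m • o = z → z ∉ H → σ z = m := fun m z e hz => by
    obtain ⟨c, hc, a⟩ := (-m + σ z).toMul.2
    exact (neg_add_eq_zero.1 (ext (h.free k a ho (show ((ν m)⁻¹ * ν (σ z)) • o = o by
      rw [mul_smul, σ1 z hz, ← e, inv_smul_smul])))).symm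
  have τ3 : ∀ c ∈ H, ∀ u : M, ν u ∈ En A H c ↔ ∃ r : F, r • τ c = u := fun c hc u =>
    (mκ hc (τ1 c hc) (τ2 c hc)).symm.trans (hF _ _)
  let v : X → M × F := fun z => if z ∈ H then (τ z, 0) else (σ z, 1)
  have v1 : ∀ z ∈ H, v z = (τ z, 0) := fun z hz => if_pos hz
  have v2 : ∀ z ∉ H, v z = (σ z, 1) := fun z hz => if_neg hz
  have lA : ∀ c ∈ H, ∀ y ∉ H, ∀ z, Co A c y z ↔ v z ∈ Submodule.span F {v c, v y} := fun c hc y hy z => by
    rw [Submodule.mem_span_pair, v1 c hc, v2 y hy]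
    refine ⟨fun k1 => ?_, fun ⟨a, b, e⟩ => ?_⟩
    · by_cases e : c = z
      · exact ⟨1, 0, by simp [← e, v1 c hc]⟩
      obtain ⟨t, t1, t2⟩ := h.reg k ex hc hy k1 (Ne.symm e)
      obtain ⟨m, rfl⟩ := mk c hc t t1
      obtain ⟨r, rfl⟩ := (τ3 c hc m).1 t1
      have := h.hoff k hc hy k1 e
      exact ⟨r, 1, by simp [v2 z this, σ2 (r • τ c + σ y) z (by rw [na, mul_smul, σ1 y hy, t2]) this]⟩
    by_cases hz : z ∈ H
    · simp only [v1 z hz, Prod.ext_iff] at e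
      simp at e
      simp [e.2] at e
      exact h.ctr (τ1 z hz).1 (n0.2 (τ2 z hz)) ((τ3 c hc _).2 ⟨a, e⟩).1 ▸ h.co_l c y
    · simp only [v2 z hz, Prod.ext_iff] at e
      simp at e
      simp [e.2] at e
      rw [← σ1 z hz, ← e, na, mul_smul, σ1 y hy]
      exact h.coA ((τ3 c hc _).2 ⟨a, rfl⟩).1 y
  have lB : ∀ c ∈ H, ∀ d ∈ H, c ≠ d → ∀ z, Co A c d z ↔ v z ∈ Submodule.span F {v c, v d} :=
    fun c hc d hd n z => by
    rw [Submodule.mem_span_pair, v1 c hc, v1 d hd]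
    refine ⟨fun k1 => ?_, fun ⟨a, b, e⟩ => ?_⟩
    · by_cases e : c = z
      · exact ⟨1, 0, by simp [← e, v1 c hc]⟩
      have hz := k.cl n hc hd k1
      obtain ⟨g, g1, g2⟩ := h.trl n k1 e
      have s1 := h.cjE k hc (inv_mem g1) (τ1 z hz)
      rw [← g2, inv_smul_smul, g2] at s1
      obtain ⟨m, hm⟩ := mk c hc _ (h.cmE k hc g1 s1)
      obtain ⟨m', hm'⟩ := mk d hd _ s1
      obtain ⟨r, e3⟩ := (τ3 c hc m).1 (hm ▸ h.cmE k hc g1 s1)
      obtain ⟨r', e4⟩ := (τ3 d hd m').1 (hm' ▸ s1)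
      have : m + m' = τ z := ext (by rw [na, hm, hm']; group)
      exact ⟨r, r', by simp [v1 z hz, e3, e4, this]⟩
    have hz : z ∈ H := by_contra fun hz => by simp [v2 z hz, Prod.ext_iff] at e
    simp only [v1 z hz, Prod.ext_iff] at e
    simp at e
    have a1 := (τ3 c hc _).2 ⟨a, rfl⟩
    have b1 := (τ3 d hd _).2 ⟨b, rfl⟩
    by_cases q : b • τ d = 0
    · rw [q, add_zero] at e
      exact h.ctr (τ1 z hz).1 (n0.2 (τ2 z hz)) (e ▸ a1.1) ▸ h.co_l c d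
    obtain ⟨g, g1, g2⟩ := h.prod k hc n a1 b1 (n0.2 q)
    exact h.ctr (τ1 z hz).1 (n0.2 (τ2 z hz)) (e ▸ na _ _ ▸ g2 ▸ h.cj g b1.1) ▸ h.coA g1 d
  have V : Vec A F v := ⟨fun z => ?_, fun w hw => ?_, fun x y n => ?_⟩
  · exact ⟨F, i1, i2, _, _, V.map (Module.finBasis F (M × F)).equivFun⟩
  · by_cases hz : z ∈ H
    · simp [v1 z hz, τ2 z hz]
    · simp [v2 z hz]
  · obtain ⟨m, r⟩ := w
    by_cases r0 : r = 0
    · obtain ⟨c, hc, a⟩ := m.toMul.2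
      obtain ⟨s, e⟩ := (τ3 c hc m).1 a
      exact ⟨c, s, by simp [v1 c hc, e, r0]⟩
    obtain ⟨c, hc, a⟩ := (r⁻¹ • m).toMul.2
    have : ν (r⁻¹ • m) • o ∉ H := fun e => ho (inv_smul_smul (ν (r⁻¹ • m)) o ▸ h.hmem k hc (inv_mem a.1) e)
    exact ⟨ν (r⁻¹ • m) • o, r, by rw [v2 _ this, σ2 _ _ rfl this]; simp [r0]⟩
  obtain ⟨c, hc, c1⟩ := k.hit n
  by_cases hx : x ∈ H
  · by_cases hy : y ∈ H
    · exact ⟨_, finrank_pair _ _, lB x hx y hy n⟩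
    · exact ⟨_, finrank_pair _ _, lA x hx y hy⟩
  · exact ⟨_, finrank_pair _ _, fun z => (h.co_eq n (fun e : c = x => hx (e ▸ hc)) c1 (h.co_l x y)).symm.trans
      (lA c hc x hx z)⟩

end On
end Cfsg.Agent.GW.ON
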