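import Mathlib
import Cfsg.Agent.GW.On3
import Cfsg.Agent.H10.SL

/-! O'Nan's theorem: the group generated by the elations is `PSL`. -/
set_option autoImplicit false
set_option linter.unusedSectionVars false
namespace Cfsg.Agent.GW.ON
open Set MulAction Cfsg.Agent.GW.PP LinearMap
open scoped LinearAlgebra.Projectivization

variable {G X : Type*} [Group G] [MulAction G X] [Finite G] [Finite X]

/-- Maps behaving like an elation. -/
structure Pe (A : X → Subgroup G) (H : Set X) (x : X) (σ : X → X) : Prop where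
  fx : ∀ z ∈ H, σ z = z
  ce : ∀ z ∉ H, Co A x z (σ z)
  co : ∀ c ∈ H, ∀ o ∉ H, ∀ z, Co A c o z → Co A c (σ o) (σ z)
  off : ∀ o ∉ H, σ o ∉ H

namespace On
variable {A : X → Subgroup G} (h : On A) {H : Set X} {x y z o : X} {a t : G}
include h

theorem pe_uniq (k : Hy A H) (hx : x ∈ H) {σ τ : X → X} (a : Pe A H x σ) (b : Pe A H x τ) (ho : o ∉ H)
    (e : σ o = τ o) (z : X) : σ z = τ z := by
  have nm : ∀ {c o}, c ∈ H → o ∉ H → c ≠ o := fun hc ho e => ho (e ▸ hc)
  have k1 : ∀ o ∉ H, ∀ z ∉ H, σ o = τ o → ¬ Co A x o z → σ z = τ z := fun o ho z hz e n => by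
    have n1 : o ≠ z := fun e => n (e ▸ co_r x o)
    obtain ⟨c, hc, c1⟩ := k.hit n1
    have c2 := h.symm (nm hc ho).symm (h.swap n1 (nm hc ho).symm c1)
    have n2 : x ≠ c := fun e => n (e ▸ c2)
    exact h.meet (nm hc (a.off o ho)) (nm hx hz) (a.co c hc o ho z c2) (e ▸ b.co c hc o ho z c2) (a.ce z hz)
      (b.ce z hz) (h.co_l _ _) fun H => h.hoff k hx hz H n2 hc
  by_cases hz : z ∈ H
  · rw [a.fx z hz, b.fx z hz]
  by_cases n : Co A x o z
  swap
  · exact k1 o ho z hz e n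
  obtain ⟨c, hc, n1⟩ := h.other k x
  obtain ⟨o', o1, o2, o3⟩ := h.third (nm hc ho)
  have o4 := h.hoff k hc ho o1 o2.symm
  have o5 : ¬ Co A x o o' := fun H => h.hoff k hx ho ((h.co_eq (nm hx ho) o3.symm (co_r x o) H).1
    ((h.co_eq (nm hc ho) o3.symm (co_r c o) o1).2 (h.co_l c o))) n1 hc
  exact k1 o' o4 z hz (k1 o ho o' o4 e o5) fun H => o5 fun g hg e =>
    h.swap (nm hx o4) (nm hx hz) H g hg (n g hg e)

theorem pe_el (k : Hy A H) (hx : x ∈ H) (ht : t ∈ En A H x) : Pe A H x (t • ·) :=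
  ⟨ht.2, fun z _ => h.coA ht.1 z, fun c hc o _ z k1 => by simpa only [ht.2 c hc] using h.co_smul t k1,
    fun o ho e => ho (inv_smul_smul t o ▸ h.hmem k hx (inv_mem ht.1) e)⟩

variable {F W : Type*} [Field F] [AddCommGroup W] [Module F W] [FiniteDimensional F W] {v : X → W}
  (V : Vec A F v) {f : Module.Dual F W} {c d : F}
include V

theorem vinj (e : c • v x = v y) : x = y := by_contra fun n => by
  obtain ⟨z, k⟩ := h.exT n
  obtain ⟨U, -, hU⟩ := V.ln x z (h.t13 k)
  exact (h.s23 k).2 ((hU y).2 (e ▸ U.smul_mem c ((hU x).1 (h.co_l x z))))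

theorem vinj' (e : c • v x = d • v y) (c0 : c ≠ 0) : x = y :=
  (h.vinj V (c := c⁻¹ * d) (by rw [mul_smul, ← e, inv_smul_smul₀ c0])).symm

theorem indep (n : x ≠ y) (e : c • v x + d • v y = 0) : c = 0 := by_contra fun c0 =>
  n (h.vinj' V (d := -d) (by rw [neg_smul]; exact eq_neg_of_add_eq_zero_left e) c0)

theorem vspan (n : x ≠ y) : Co A x y z ↔ ∃ a b : F, a • v x + b • v y = v z := by
  obtain ⟨U, h1, hU⟩ := V.ln x y n
  have : (F ∙ v x) < (F ∙ v x) ⊔ (F ∙ v y) := left_lt_sup.2 (by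
    rw [Submodule.span_singleton_le_iff_mem, Submodule.mem_span_singleton]
    exact fun ⟨c, e⟩ => n (h.vinj V e))
  have := Submodule.finrank_lt_finrank_of_lt this
  rw [finrank_span_singleton (V.v0 x)] at this
  rw [hU, ← Submodule.eq_of_le_of_finrank_le (sup_le (by simpa using (hU x).1 (h.co_l x y))
    (by simpa using (hU y).1 (co_r x y)) : (F ∙ v x) ⊔ (F ∙ v y) ≤ U) (by omega), ← Submodule.span_insert,
    Submodule.mem_span_pair]

theorem vco (n : x ≠ y) {a b : F} (e : a • v x + b • v y = c • v z) (c0 : c ≠ 0) : Co A x y z :=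
  (h.vspan V n).2 ⟨c⁻¹ * a, c⁻¹ * b, by rw [mul_smul, mul_smul, ← smul_add, e, inv_smul_smul₀ c0]⟩

theorem hy_ker (f0 : f ≠ 0) : Hy A {z | f (v z) = 0} := by
  refine ⟨fun n a b k => ?_, fun {x y} n => ?_, ?_⟩
  · obtain ⟨r, s, e⟩ := (h.vspan V n).1 k
    simp only [mem_ofPred] at a b ⊢
    simp [← e, a, b]
  · by_cases e : f (v y) = 0
    · exact ⟨y, e, co_r x y⟩
    have w0 : f (v y) • v x + (-f (v x)) • v y ≠ 0 := fun H => e (h.indep V n H)
    obtain ⟨z, c, hz⟩ := V.sj _ w0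
    have c0 : c ≠ 0 := fun H => w0 (by rw [← hz, H, zero_smul])
    refine ⟨z, ?_, h.vco V n hz.symm c0⟩
    simpa [c0, mul_comm] using congrArg f hz
  · obtain ⟨w, hw⟩ := DFunLike.ne_iff.1 f0
    obtain ⟨z, c, rfl⟩ := V.sj w fun H => hw (by simp [H])
    exact ⟨z, fun H : f (v z) = 0 => hw (by simp [H])⟩

theorem tv_ne (e : f (v x) = 0) (z : X) : transvection f (v x) (v z) ≠ 0 := fun H =>
  V.v0 z ((LinearEquiv.transvection e).map_eq_zero_iff.1 H)

theorem ind_el (f0 : f ≠ 0) (e : f (v x) = 0) (ht : t ∈ En A {z | f (v z) = 0} x) (ho : f (v o) ≠ 0) (r : F)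
    (k : c • v (t • o) = transvection (r • f) (v x) (v o)) (z : X) :
    ∃ c : F, c • v (t • z) = transvection (r • f) (v x) (v z) := by
  have e' : (r • f) (v x) = 0 := by simp [e]
  choose σ s hs using fun z => V.sj _ (h.tv_ne V e' z)
  have s0 : ∀ z, s z ≠ 0 := fun z H => h.tv_ne V e' z (by rw [← hs, H, zero_smul])
  have p : Pe A {z | f (v z) = 0} x σ := ⟨fun z hz => h.vinj V ((hs z).trans (by
      simp [transvection.apply, show f (v z) = 0 from hz])),
    fun z hz => h.vco V (fun H => hz (H ▸ e)) (by rw [hs, transvection.apply, add_comm, one_smul]) (s0 z),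
    fun c hc o ho z k => ?_, fun o ho H => ho ?_⟩
  · exact ⟨s z, by rw [h.pe_uniq (h.hy_ker V f0) e (h.pe_el (h.hy_ker V f0) e ht) p ho
      (h.vinj' V ((hs o).trans k.symm) (s0 o)).symm z, hs]⟩
  · have o1 : f (v (σ o)) ≠ 0 := fun H => ho (by
      simpa [transvection.apply, e, H, eq_comm] using congrArg f (hs o))
    obtain ⟨a, b, e1⟩ := (h.vspan V fun H : c = o => ho (H ▸ hc)).1 k
    refine h.vco V (a := a) (b := b * s o) (fun H => o1 (H ▸ hc)) ?_ (s0 z)
    rw [hs, ← e1, map_add, map_smul, map_smul, mul_smul, hs, transvection.apply _ _ (v c)]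
    simp [show f (v c) = 0 from hc]
  · simpa [transvection.apply, e, show f (v (σ o)) = 0 from H, eq_comm] using congrArg f (hs o)

theorem ex_ker (ha : a ∈ A x) (a1 : a ≠ 1) : ∃ f : Module.Dual F W, f ≠ 0 ∧ ∀ z, f (v z) = 0 ↔ a • z = z := by
  have k := h.hy_fix ha a1
  obtain ⟨o, ho⟩ := k.pr
  have : ∀ w ∈ Submodule.span F (v '' {z | a • z = z}), ∃ z, a • z = z ∧ ∃ c : F, c • v z = w := fun w hw => by
    induction hw using Submodule.span_induction with
    | mem w hw => obtain ⟨z, hz, rfl⟩ := hw; exact ⟨z, hz, 1, one_smul _ _⟩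
    | zero => exact ⟨x, h.fix ha, 0, zero_smul _ _⟩
    | smul r w _ ih => obtain ⟨z, hz, c, rfl⟩ := ih; exact ⟨z, hz, r * c, mul_smul _ _ _⟩
    | add w w' _ _ i1 i2 =>
      obtain ⟨z, hz, c, rfl⟩ := i1
      obtain ⟨z', hz', c', rfl⟩ := i2
      by_cases e : z = z'
      · exact ⟨z, hz, c + c', by rw [add_smul, e]⟩
      by_cases w0 : c • v z + c' • v z' = 0
      · exact ⟨z, hz, 0, by rw [w0, zero_smul]⟩
      obtain ⟨y, s, hy⟩ := V.sj _ w0
      exact ⟨y, k.cl e hz hz' (h.vco V e hy.symm fun H => w0 (by rw [← hy, H, zero_smul])), s, hy⟩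
  obtain ⟨f, f1, f2⟩ := Submodule.exists_le_ker_of_notMem (v := v o) fun H =>
    let ⟨z, hz, c, e⟩ := this _ H; ho (h.vinj V e ▸ hz)
  have f3 : ∀ z, a • z = z → f (v z) = 0 := fun z hz => f2 (Submodule.subset_span ⟨z, hz, rfl⟩)
  refine ⟨f, fun H => f1 (by simp [H]), fun z => ⟨fun hz => ?_, f3 z⟩⟩
  have n : o ≠ z := fun H => f1 (H ▸ hz)
  obtain ⟨y, hy, y1⟩ := k.hit n
  obtain ⟨r, s, e⟩ := (h.vspan V n).1 y1
  have : r = 0 := by simpa [hz, f1, f3 y hy] using congrArg f e
  rw [this, zero_smul, zero_add] at e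
  exact h.vinj V e ▸ hy

theorem ind_of_mem (ha : a ∈ A x) : ∃ f : Module.Dual F W, f (v x) = 0 ∧
    ∀ z, ∃ c : F, c • v (a • z) = transvection f (v x) (v z) := by
  by_cases a1 : a = 1
  · exact ⟨0, rfl, fun z => ⟨1, by simp [a1]⟩⟩
  obtain ⟨f, f0, hf⟩ := h.ex_ker V ha a1
  have e := (hf x).2 (h.fix ha)
  obtain ⟨o, ho⟩ := (h.hy_ker V f0).pr
  have n : x ≠ o := fun H => ho (H ▸ e)
  obtain ⟨r, s, e1⟩ := (h.vspan V n).1 (h.coA ha o)
  have s0 : s ≠ 0 := fun H => smul_ne a (h.fix ha) n.symm (h.vinj V (c := r) (by simpa [H] using e1)).symm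
  refine ⟨(r / s / f (v o)) • f, by simp [e], h.ind_el V (c := s⁻¹) f0 e ⟨ha, fun z hz => (hf z).1 hz⟩ ho _ ?_⟩
  have : f (v o) ≠ 0 := ho
  rw [← e1, transvection.apply, smul_add, inv_smul_smul₀ s0, add_comm, smul_smul]
  congr 2
  simp only [LinearMap.smul_apply, smul_eq_mul]
  field_simp

theorem mem_of_ind (e : f (v x) = 0) : ∃ a ∈ A x, ∀ z, ∃ c : F, c • v (a • z) = transvection f (v x) (v z) := by
  let Φ : Submodule F (Module.Dual F W) :=
    { carrier := {f | f (v x) = 0 ∧ ∃ a ∈ A x, ∀ z, ∃ c : F, c • v (a • z) = transvection f (v x) (v z)}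
      zero_mem' := ⟨rfl, 1, one_mem _, fun z => ⟨1, by simp⟩⟩
      add_mem' := fun {f g} ⟨f1, a, a1, a2⟩ ⟨g1, b, b1, b2⟩ => ⟨by simp [f1, g1], a * b, mul_mem a1 b1, fun z => by
        obtain ⟨c, hc⟩ := b2 z
        obtain ⟨d, hd⟩ := a2 (b • z)
        exact ⟨c * d, by rw [mul_smul a, mul_smul, hd, ← map_smul, hc, transvection.comp_of_right_eq_apply f1]⟩⟩
      smul_mem' := fun r f ⟨f1, a, a1, a2⟩ => ⟨by simp [f1], by
        by_cases f0 : f = 0
        · exact ⟨1, one_mem _, fun z => ⟨1, by simp [f0]⟩⟩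
        have k := h.hy_ker V f0
        obtain ⟨o, ho⟩ := k.pr
        have n : x ≠ o := fun H => ho (H ▸ f1)
        have e' : (r • f) (v x) = 0 := by simp [f1]
        obtain ⟨o', s, hs⟩ := V.sj _ (h.tv_ne V e' o)
        obtain ⟨t, t1, t2⟩ := h.reg k ⟨x, f1, a, ⟨a1, fun z hz => let ⟨c, hc⟩ := a2 z; h.vinj V (hc.trans (by
            simp [transvection.apply, show f (v z) = 0 from hz]))⟩, fun H => by
            obtain ⟨c, hc⟩ := a2 o
            exact ho (h.indep V n (d := 1 - c) (by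
              rw [H, one_smul, transvection.apply] at hc
              rw [sub_smul, hc, one_smul]; abel))⟩ f1 ho (o' := o')
          (h.vco V n (by rw [hs, transvection.apply, add_comm, one_smul])
            fun H => h.tv_ne V e' o (by rw [← hs, H, zero_smul]))
          (fun H => ho (by simpa [transvection.apply, f1, H, eq_comm] using congrArg f hs))
        exact ⟨t, t1.1, h.ind_el V f0 f1 t1 ho r (t2 ▸ hs)⟩⟩ }
  refine (show f ∈ Φ from ?_).2
  rw [← Subspace.dualCoannihilator_dualAnnihilator_eq (W := Φ), Submodule.mem_dualAnnihilator]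
  intro w hw
  by_contra w0
  obtain ⟨y, c, rfl⟩ := V.sj w fun H => w0 (by simp [H])
  obtain ⟨a, a1, a2⟩ := h.exN (x := x) (y := y) fun H => w0 (by simp [← H, e])
  obtain ⟨g, g1, g2⟩ := h.ind_of_mem V a1
  have := (Submodule.mem_dualCoannihilator _).1 hw g ⟨g1, a, a1, g2⟩
  obtain ⟨d, hd⟩ := g2 y
  have c0 : c ≠ 0 := fun H => w0 (by simp [H])
  exact a2 (h.vinj V (hd.trans (by simp [transvection.apply, show g (v y) = 0 by simpa [c0] using this])))

theorem three_le : 3 ≤ Module.finrank F W := by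
  obtain ⟨x, y, n, -⟩ := h.ns
  obtain ⟨z, k⟩ := h.exT n
  have a : (F ∙ v x) < (F ∙ v x) ⊔ (F ∙ v y) := left_lt_sup.2 (by
    rw [Submodule.span_singleton_le_iff_mem, Submodule.mem_span_singleton]
    exact fun ⟨c, e⟩ => n (h.vinj V e))
  have b : (F ∙ v x) ⊔ (F ∙ v y) < ⊤ := lt_top_iff_ne_top.2 fun H => k.2 ((h.vspan V n).2 (by
    rw [← Submodule.mem_span_pair, Submodule.span_insert, H]; trivial))
  have a := Submodule.finrank_lt_finrank_of_lt a
  have b := Submodule.finrank_lt_finrank_of_lt b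
  rw [finrank_span_singleton (V.v0 x)] at a
  rw [finrank_top] at b
  omega

end On

theorem On.psl {A : X → Subgroup G} (h : On A) {F : Type} [Field F] [Fintype F] {n : ℕ} {v : X → Fin n → F}
    (V : Vec A F v) : Nonempty (↥(⨆ x, A x) ≃* Matrix.ProjectiveSpecialLinearGroup (Fin n) F) ∧
      Nat.card X * (Fintype.card F - 1) = Fintype.card F ^ n - 1 := by
  let β : X ≃ ℙ F (Fin n → F) := Equiv.ofBijective (fun x => Projectivization.mk F (v x) (V.v0 x))
    ⟨fun x y e => let ⟨c, hc⟩ := (Projectivization.mk_eq_mk_iff' F _ _ _ _).1 e; (h.vinj V hc).symm, fun p => by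
      obtain ⟨x, c, e⟩ := V.sj p.rep p.rep_nonzero
      exact ⟨x, by rw [← p.mk_rep]; exact ((Projectivization.mk_eq_mk_iff' F _ _ _ _).2 ⟨c, e⟩).symm⟩⟩
  refine ⟨?_, by rw [Nat.card_congr β, ← Nat.card_eq_fintype_card, ← Projectivization.card]; simp⟩
  let ρ := β.symm.permCongrHom.toMonoidHom.comp
    (Projectivization.PSLAction.toPermHom (K := F) (ι := Fin n))
  have r1 : Function.Injective ρ :=
    β.symm.permCongrHom.injective.comp Matrix.ProjectiveSpecialLinearGroup.toPermHom_injective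
  have r2 : Function.Injective (toPermHom G X) := (injective_iff_map_eq_one _).2 fun g e =>
    h.fa g fun x => DFunLike.congr_fun e x
  have r3 : ∀ (g : G) (m : Matrix.SpecialLinearGroup (Fin n) F), (∀ z, ∃ c : F, c • v (g • z) = m • v z) →
      ρ m = toPermHom G X g := fun g m H => Equiv.ext fun z => β.symm_apply_eq.2
    ((Projectivization.mk_eq_mk_iff' F _ _ _ _).2 (H z))
  have : (⨆ x, A x).map (toPermHom G X) = ρ.range := by
    refine le_antisymm (Subgroup.map_le_iff_le_comap.2 (iSup_le fun x a ha => ?_)) ?_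
    · obtain ⟨f, f1, f2⟩ := h.ind_of_mem V ha
      refine ⟨_, r3 a (Matrix.SpecialLinearGroup.toLin'_equiv.symm
        ⟨LinearEquiv.transvection f1, LinearEquiv.transvection.det_eq_one f1⟩) fun z => ?_⟩
      obtain ⟨c, hc⟩ := f2 z
      exact ⟨c, hc.trans (LinearMap.toMatrix'_mulVec _ _).symm⟩
    · rintro _ ⟨m, rfl⟩
      obtain ⟨m, rfl⟩ := QuotientGroup.mk_surjective m
      induction m using H10.SL_transvection_induction with
      | h1 => exact (map_one ρ).symm ▸ one_mem _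
      | hmul a b i1 i2 => rw [QuotientGroup.mk_mul, map_mul]; exact mul_mem i1 i2
      | htr i j hij b =>
        obtain ⟨x, c, e⟩ := V.sj (Pi.single i 1) (by simp)
        have c0 : c ≠ 0 := fun H => by simpa [H] using congrFun e i
        obtain ⟨a, a1, a2⟩ := h.mem_of_ind V (x := x) (f := (c * b) • LinearMap.proj j) (by
          simpa [c0, hij.symm] using .inr (by simpa [c0, hij.symm] using congrFun e j))
        refine ⟨a, Subgroup.mem_iSup_of_mem x a1, (r3 a _ fun z => ?_).symm⟩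
        obtain ⟨d, hd⟩ := a2 z
        refine ⟨d, hd.trans ?_⟩
        rw [transvection.apply, Matrix.SpecialLinearGroup.smul_def, Matrix.SpecialLinearGroup.transvection_coe,
          Matrix.smul_eq_mulVec, Matrix.add_mulVec, Matrix.one_mulVec, Matrix.single_mulVec]
        congr 1
        ext k
        have := congrFun e k
        by_cases e : k = i
        · simp_all
          linear_combination (b * v z j) * this
        · simp_all
  exact ⟨((⨆ x, A x).equivMapOfInjective _ r2).trans ((MulEquiv.subgroupCongr this).trans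
    (MonoidHom.ofInjective r1).symm)⟩

end Cfsg.Agent.GW.ON
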