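import Mathlib
import Cfsg.Agent.GW.On4
import Cfsg.Agent.H2.Components

/-! O'Nan's theorem on abelian normal subgroups of point stabilizers. -/
set_option autoImplicit false
set_option linter.unusedSectionVars false
namespace Cfsg.Agent.GW.ON
open Set MulAction Cfsg.Agent.GW.PP

variable {G X : Type*} [Group G] [MulAction G X] [Finite G] [Finite X]

namespace On
variable {A : X → Subgroup G} (h : On A)
include h

theorem plane {c d : X} (n : c ≠ d) (H : ∀ {u v}, u ≠ v → ∃ t, Co A c d t ∧ Co A u v t) :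
    ∃ (F : Type) (_ : Field F) (_ : Fintype F) (n : ℕ) (v : X → Fin n → F), Vec A F v := by
  let L := {S : Set X // ∃ x y, x ≠ y ∧ S = {z | Co A x y z}}
  let ln : ∀ {x y : X}, x ≠ y → L := fun n => ⟨_, _, _, n, rfl⟩
  have sm : ∀ (g : G) {x y z}, Co A (g • x) (g • y) z ↔ Co A x y (g⁻¹ • z) := fun g x y z =>
    ⟨fun k => by simpa using h.co_smul g⁻¹ k, fun k => by simpa using h.co_smul g k⟩
  obtain ⟨m, P⟩ := exists_pl (I := fun (p : X) (l : L) => p ∈ l.1)
    (fun n => ⟨ln n, h.co_l _ _, co_r _ _⟩) (fun {l m} _ => by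
      obtain ⟨_, x, y, n1, rfl⟩ := l
      obtain ⟨_, u, v, n2, rfl⟩ := m
      obtain ⟨g, rfl, rfl⟩ := h.t2 c d x y n n1
      obtain ⟨t, t1, t2⟩ := H ((MulAction.injective g⁻¹).ne n2)
      exact ⟨g • t, h.co_smul g t1, by simpa using h.co_smul g t2⟩)
    (fun {p q l m} a1 a2 a3 a4 => or_iff_not_imp_left.2 fun e => by
      obtain ⟨_, x, y, n1, rfl⟩ := l
      obtain ⟨_, u, v, n2, rfl⟩ := m
      exact Subtype.ext (Set.ext fun z => (h.co_eq n1 e a1 a2).symm.trans (h.co_eq n2 e a3 a4))) (by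
      obtain ⟨z, k⟩ := h.exT n
      obtain ⟨w, w1, w2, w3⟩ := h.third (t23 k)
      obtain ⟨u, u1, u2, u3⟩ := h.third n
      have k1 := h.mv k u1 u2.symm
      have k2 := h.mv (h.s12 k) (h.symm n u1) u3.symm
      have k3 := h.mv (h.s23 (h.s12 k)) w1 w2.symm
      have k4 := h.mv (h.s12 (h.s23 (h.s12 k))) (h.symm (t23 k) w1) w3.symm
      exact ⟨w, c, d, ln (t23 k1), ln n, ln (h.t13 k), trivial, trivial, trivial, trivial, trivial, trivial,
        (h.s12 (h.s23 k3)).2, (h.s12 (h.s23 k4)).2, (h.s23 (h.s12 k1)).2, h.co_l _ _, h.co_l _ _,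
        (h.s23 (h.s12 k2)).2, co_r _ _, (h.s23 k).2⟩)
  let f : G → L → L := fun g l => ⟨{z | g⁻¹ • z ∈ l.1}, by
    obtain ⟨_, x, y, n1, rfl⟩ := l
    exact ⟨g • x, g • y, (MulAction.injective g).ne n1, Set.ext fun z => (sm g).symm⟩⟩
  obtain ⟨F, i1, i2, φ, hφ, -⟩ := ostrom_wagner P fun p₁ p₂ q₁ q₂ n1 n2 => by
    obtain ⟨g, g1, g2⟩ := h.t2 _ _ _ _ n1 n2
    exact ⟨toPerm g, ⟨f g, f g⁻¹, fun l => Subtype.ext (by simp [f]), fun l => Subtype.ext (by simp [f])⟩,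
      fun p l => by simp [f], g1, g2⟩
  refine ⟨F, i1, i2, 3, fun x => (φ x).rep, fun x => (φ x).rep_nonzero, fun w hw => ?_, fun x y n => ?_⟩
  · obtain ⟨c, e⟩ := (Projectivization.mk_eq_mk_iff' F _ _ hw (Projectivization.rep_nonzero _)).1
      (Projectivization.mk_rep _).symm
    exact ⟨φ.symm (Projectivization.mk F w hw), c, by simpa using e⟩
  · obtain ⟨U, u1, u2⟩ := hφ (ln n)
    exact ⟨U, u1.le, fun z => (u2 z).trans (by
      rw [Projectivization.submodule_eq, Submodule.span_singleton_le_iff_mem])⟩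

theorem main : ∃ (L : Subgroup G) (F : Type) (_ : Field F) (_ : Fintype F) (n : ℕ), 3 ≤ n ∧ L.Normal ∧
    Subgroup.centralizer (L : Set G) = ⊥ ∧ Nonempty (L ≃* Matrix.ProjectiveSpecialLinearGroup (Fin n) F) ∧
    Nat.card X * (Fintype.card F - 1) = Fintype.card F ^ n - 1 := by
  obtain ⟨F, i1, i2, n, v, V⟩ : ∃ (F : Type) (_ : Field F) (_ : Fintype F) (n : ℕ) (v : X → Fin n → F),
      Vec A F v := by
    obtain ⟨x, -, -, a, a1, a2, -⟩ := h.ns
    have k := h.hy_fix a1 a2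
    by_cases rk : ∀ c ∈ {z : X | a • z = z}, ∀ d ∈ {z : X | a • z = z}, c ≠ d →
      ∃ e ∈ {z : X | a • z = z}, ¬ Co A c d e
    · exact h.vec k ⟨x, h.fix a1, a, ⟨a1, fun _ hz => hz⟩, a2⟩ rk
    push Not at rk
    obtain ⟨c, -, d, -, n, H⟩ := rk
    exact h.plane n fun e => let ⟨t, t1, t2⟩ := k.hit e; ⟨t, H t t1, t2⟩
  refine ⟨⨆ x, A x, F, i1, i2, n, by simpa using h.three_le V, ⟨fun a ha g => ?_⟩, eq_bot_iff.2 fun g hg => ?_,
    h.psl V⟩
  · induction ha using Subgroup.iSup_induction' with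
    | hp x a ha => exact Subgroup.mem_iSup_of_mem _ (h.cj g ha)
    | h1 => simp
    | hmul a b _ _ i1 i2 => simpa [mul_assoc] using mul_mem i1 i2
  · refine h.fa g fun x => ?_
    obtain ⟨y, -, n⟩ := h.other (h.hy_fix h.ns.choose_spec.choose_spec.2.choose_spec.1
      h.ns.choose_spec.choose_spec.2.choose_spec.2.1) x
    obtain ⟨a, a1, a2, -⟩ := h.exP n
    exact h.cent a1 a2 (hg a (Subgroup.mem_iSup_of_mem x a1)).symm

end On

theorem t2_of (h2 : IsMultiplyPretransitive G X 2) : T2 G X := fun _ _ _ _ a b =>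
  is_two_pretransitive_iff.1 h2 a b

/-- O'Nan's theorem. -/
theorem onan (fa : ∀ g : G, (∀ x : X, g • x = x) → g = 1) (t2 : T2 G X) (x : X) (N : Subgroup G)
    (hle : N ≤ stabilizer G x) (hn : ∀ g ∈ stabilizer G x, ∀ n ∈ N, g * n * g⁻¹ ∈ N)
    (hab : ∀ a ∈ N, ∀ b ∈ N, a * b = b * a) (hns : ∃ n ∈ N, n ≠ 1 ∧ ∃ y : X, y ≠ x ∧ n • y = y) :
    ∃ (L : Subgroup G) (F : Type) (_ : Field F) (_ : Fintype F) (n : ℕ), 3 ≤ n ∧ L.Normal ∧
    Subgroup.centralizer (L : Set G) = ⊥ ∧ Nonempty (L ≃* Matrix.ProjectiveSpecialLinearGroup (Fin n) F) ∧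
    Nat.card X * (Fintype.card F - 1) = Fintype.card F ^ n - 1 := by
  obtain ⟨a, a1, a2, y, n, a3⟩ := hns
  obtain ⟨p, hp, hd⟩ := Nat.exists_prime_and_dvd (mt orderOf_eq_one_iff.1 a2)
  have tr : ∀ z, ∃ g : G, g • x = z := fun z => by
    by_cases e : x = z
    · exact ⟨1, (one_smul _ _).trans e⟩
    · exact (t2 x z z x e (Ne.symm e)).imp fun _ H => H.1
  have cm : ∀ {z a b}, (∀ g : G, g • x = z → g⁻¹ * a * g ∈ N) → (∀ g : G, g • x = z → g⁻¹ * b * g ∈ N) →
      a * b = b * a := fun {z a b} ha hb => by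
    obtain ⟨g, e⟩ := tr z
    simpa [mul_assoc] using congrArg (fun w => g * w * g⁻¹) (hab _ (ha g e) _ (hb g e))
  let A : X → Subgroup G := fun z =>
    { carrier := {a | a ^ p = 1 ∧ ∀ g : G, g • x = z → g⁻¹ * a * g ∈ N}
      one_mem' := ⟨one_pow _, fun g _ => by simp⟩
      inv_mem' := fun h => ⟨by rw [inv_pow, h.1, inv_one], fun g e => by
        simpa [mul_assoc] using inv_mem (h.2 g e)⟩
      mul_mem' := fun h h' => ⟨by rw [Commute.mul_pow (cm h.2 h'.2), h.1, h'.1, one_mul], fun g e => by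
        simpa [mul_assoc] using mul_mem (h.2 g e) (h'.2 g e)⟩ }
  refine On.main (A := A) ⟨fa, t2, fun {z b} hb => ?_, fun g z b hb => ⟨by rw [conj_pow, hb.1]; simp,
    fun g' e => by simpa [mul_assoc] using hb.2 (g⁻¹ * g') (by rw [mul_smul, e, inv_smul_smul])⟩,
    fun ha hb => cm ha.2 hb.2, ⟨p, hp, fun z b => ⟨1, Subtype.ext (by simpa using b.2.1)⟩⟩,
    x, y, n.symm, a ^ (orderOf a / p), ⟨by rw [← pow_mul, Nat.div_mul_cancel hd, pow_orderOf_eq_one],
      fun g e => by simpa using hn g⁻¹ (inv_mem e) _ (pow_mem a1 _)⟩, fun e => ?_,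
      pow_mem (show a ∈ stabilizer G y from a3) _⟩
  · obtain ⟨g, rfl⟩ := tr z
    have := hle (hb.2 g rfl)
    rwa [mem_stabilizer_iff, mul_smul, mul_smul, inv_smul_eq_iff] at this
  · have := orderOf_pow_orderOf_div (orderOf_pos a).ne' hd
    rw [e, orderOf_one] at this
    exact hp.one_lt.ne this

theorem gfit_eq {L : Subgroup G} [L.Normal] (hC : Subgroup.centralizer (L : Set G) = ⊥)
    [IsSimpleGroup L] : generalizedFittingSubgroup G = L := by
  have hq : IsQuasisimple L := H2.isQuasisimple_of_isSimpleGroup fun H => by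
    obtain ⟨a, ha⟩ := exists_ne (1 : L)
    exact ha (Subtype.ext (hC.le fun b hb => congrArg Subtype.val (H.1.1 ⟨b, hb⟩ a)))
  have h1 : L ≤ layer G := H2.le_layer ⟨Subgroup.Normal.isSubnormal inferInstance, hq⟩
  refine le_antisymm (sup_le (H2.layer_le_of_centralizer_le (Subgroup.Normal.isSubnormal inferInstance)
    (hC ▸ bot_le)) ?_) (h1.trans H2.layer_le_generalizedFitting)
  exact (H2.fittingSubgroup_le_centralizer_layer.trans (Subgroup.centralizer_le h1)).trans (hC ▸ bot_le)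

end Cfsg.Agent.GW.ON
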