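import Mathlib
import Cfsg.Agent.GW.On1

/-! Rank 3 groups with a Frobenius subconstituent: counting tools and the basic set-up. -/
set_option autoImplicit false
set_option linter.unusedSectionVars false
namespace Cfsg.Agent.GW.RK
open Set MulAction Cfsg.Agent.FT Cfsg.Agent.GW.ON

section tools
variable {α β : Type*} [Finite α] [Finite β]

theorem dc (S : Set α) (T : Set β) (r : α → β → Prop) {c d : ℕ}
    (h1 : ∀ a ∈ S, c ≤ {b | b ∈ T ∧ r a b}.ncard) (h2 : ∀ b ∈ T, {a | a ∈ S ∧ r a b}.ncard ≤ d) :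
    S.ncard * c ≤ T.ncard * d := by
  classical
  have := Fintype.ofFinite α
  have := Fintype.ofFinite β
  rw [ncard_eq_toFinset_card', ncard_eq_toFinset_card']
  refine Finset.card_mul_le_card_mul r (fun a ha => ?_) fun b hb => ?_
  · refine (h1 a (by simpa using ha)).trans_eq ?_
    rw [ncard_eq_toFinset_card']
    congr 1; ext; simp [Finset.bipartiteAbove]
  · refine le_trans (le_of_eq ?_) (h2 b (by simpa using hb))
    rw [ncard_eq_toFinset_card']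
    congr 1; ext; simp [Finset.bipartiteBelow]

theorem dc_eq (S : Set α) (T : Set β) (r : α → β → Prop) {c d : ℕ}
    (h1 : ∀ a ∈ S, {b | b ∈ T ∧ r a b}.ncard = c) (h2 : ∀ b ∈ T, {a | a ∈ S ∧ r a b}.ncard = d) :
    S.ncard * c = T.ncard * d :=
  (dc S T r (fun a ha => (h1 a ha).ge) fun b hb => (h2 b hb).le).antisymm
    (dc T S (fun b a => r a b) (fun b hb => (h2 b hb).ge) fun a ha => (h1 a ha).le)

theorem one_fib {T : Set β} {y : β} (h : y ∈ T) : {b | b ∈ T ∧ y = b}.ncard = 1 :=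
  ncard_eq_one.2 ⟨y, by ext b; exact ⟨fun H => H.2.symm, fun H => ⟨H ▸ h, H.symm⟩⟩⟩

theorem fib_le (S : Set α) (T : Set β) (f : α → β) {d : ℕ} (hf : ∀ a ∈ S, f a ∈ T)
    (h : ∀ b ∈ T, {a | a ∈ S ∧ f a = b}.ncard ≤ d) : S.ncard ≤ T.ncard * d := by
  simpa using dc S T (fun a b => f a = b) (c := 1) (fun a ha => (one_fib (hf a ha)).ge) h

theorem fib_eq (S : Set α) (T : Set β) (f : α → β) {d : ℕ} (hf : ∀ a ∈ S, f a ∈ T)
    (h : ∀ b ∈ T, {a | a ∈ S ∧ f a = b}.ncard = d) : S.ncard = T.ncard * d := by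
  simpa using dc_eq S T (fun a b => f a = b) (c := 1) (fun a ha => one_fib (hf a ha)) h

theorem split (S : Set α) (p : α → Prop) :
    S.ncard = {a | a ∈ S ∧ p a}.ncard + {a | a ∈ S ∧ ¬ p a}.ncard := by
  rw [← ncard_union_eq (by rw [Set.disjoint_left]; exact fun a h1 h2 => h2.2 h1.2)]
  congr 1; ext a; by_cases p a <;> simp [*]

theorem le_one {S : Set α} (h : ∀ a ∈ S, ∀ b ∈ S, a = b) : S.ncard ≤ 1 :=
  (ncard_le_one (toFinite _)).2 h

theorem le_two {S : Set α} (a b : α) (h : ∀ c ∈ S, c = a ∨ c = b) : S.ncard ≤ 2 :=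
  (ncard_le_ncard (t := {a, b}) h).trans (by
    rw [insert_eq]; exact (ncard_union_le _ _).trans (by simp))

theorem inj_le {S : Set α} {T : Set β} (f : α → β) (hf : ∀ a ∈ S, f a ∈ T)
    (hi : ∀ a ∈ S, ∀ b ∈ S, f a = f b → a = b) : S.ncard ≤ T.ncard :=
  ncard_le_ncard_of_injOn f hf hi

theorem two_dvd (S : Set α) (s : α → α) (h1 : ∀ a ∈ S, s a ∈ S) (h2 : ∀ a ∈ S, s (s a) = a)
    (h3 : ∀ a ∈ S, s a ≠ a) : 2 ∣ S.ncard := by
  refine ⟨_, (fib_eq S ((fun a => ({a, s a} : Set α)) '' S) _ (fun a ha => ⟨a, ha, rfl⟩) ?_).trans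
    (mul_comm _ _)⟩
  rintro _ ⟨a, ha, rfl⟩
  rw [← ncard_pair (h3 a ha).symm]
  congr 1; ext b
  refine ⟨fun H => H.2.le (Or.inl rfl), ?_⟩
  rintro (rfl | rfl)
  · exact ⟨ha, rfl⟩
  · exact ⟨h1 a ha, by rw [h2 a ha, pair_comm]⟩

theorem four_dvd (S : Set α) (s t : α → α) (h1 : ∀ a ∈ S, s a ∈ S) (h2 : ∀ a ∈ S, s (s a) = a)
    (h3 : ∀ a ∈ S, s a ≠ a) (k1 : ∀ a ∈ S, t a ∈ S) (k2 : ∀ a ∈ S, t (t a) = a)
    (k3 : ∀ a ∈ S, t a ≠ a) (c : ∀ a ∈ S, s (t a) = t (s a)) (n : ∀ a ∈ S, s a ≠ t a) :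
    4 ∣ S.ncard := by
  refine ⟨_, (fib_eq S ((fun a => ({a, s a, t a, s (t a)} : Set α)) '' S) _
    (fun a ha => ⟨a, ha, rfl⟩) ?_).trans (mul_comm _ _)⟩
  rintro _ ⟨a, ha, rfl⟩
  have e : ({a, s a, t a, s (t a)} : Set α).ncard = 4 := by
    have n1 : a ≠ s (t a) := fun e => n a ha (by
      have := congrArg s e; rwa [h2 _ (k1 a ha)] at this)
    have n2 : s a ≠ s (t a) := fun e => k3 a ha (by
      have := congrArg s e; rw [h2 _ (k1 a ha), h2 a ha] at this; exact this.symm)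
    rw [ncard_insert_of_notMem (by simp [(h3 a ha).symm, (k3 a ha).symm, n1]),
      ncard_insert_of_notMem (by simp [n a ha, n2]), ncard_pair (h3 _ (k1 a ha)).symm]
  rw [← e]
  congr 1; ext b
  refine ⟨fun H => H.2.le (Or.inl rfl), ?_⟩
  rintro (rfl | rfl | rfl | rfl)
  · exact ⟨ha, rfl⟩
  · refine ⟨h1 a ha, ?_⟩
    rw [← c a ha, h2 a ha, h2 _ (k1 a ha)]; ext; simp only [mem_insert_iff, mem_singleton_iff]; tauto
  · refine ⟨k1 a ha, ?_⟩
    rw [k2 a ha]; ext; simp only [mem_insert_iff, mem_singleton_iff]; tauto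
  · refine ⟨h1 _ (k1 a ha), ?_⟩
    rw [h2 _ (k1 a ha), ← c _ (k1 a ha), k2 a ha, h2 a ha]
    ext; simp only [mem_insert_iff, mem_singleton_iff]; tauto

end tools

variable {G X : Type*} [Group G] [MulAction G X] [Finite G] [Finite X]

theorem sub_card (H : Subgroup G) : (H : Set G).ncard = #H := (Nat.card_coe_set_eq _).symm

theorem img_mul {β : Type*} [Finite β] {H S : Subgroup G} (hS : S ≤ H) (f : G → β) (T : Set β)
    (hT : ∀ b, b ∈ T ↔ ∃ g ∈ H, f g = b) (hf : ∀ g ∈ H, ∀ h ∈ H, f g = f h ↔ h⁻¹ * g ∈ S) :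
    T.ncard * #S = #H := by
  rw [← sub_card H, fib_eq (H : Set G) T f (d := #S) (fun g hg => (hT _).2 ⟨g, hg, rfl⟩)]
  intro b hb
  obtain ⟨h, hh, rfl⟩ := (hT b).1 hb
  rw [← sub_card, ← ncard_image_of_injective (S : Set G) (mul_right_injective h)]
  congr 1; ext g
  refine ⟨fun H => ⟨_, (hf g H.1 h hh).1 H.2, by simp⟩, ?_⟩
  rintro ⟨s, hs, rfl⟩
  exact ⟨H.mul_mem hh (hS hs), (hf _ (H.mul_mem hh (hS hs)) h hh).2 (by simpa using hs)⟩

theorem orb (H : Subgroup G) (y : X) (T : Set X) (hT : ∀ b, b ∈ T ↔ ∃ g ∈ H, g • y = b) :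
    T.ncard * #(H ⊓ stabilizer G y : Subgroup G) = #H :=
  img_mul inf_le_left (· • y) T hT fun g hg h hh => by
    rw [Subgroup.mem_inf, mem_stabilizer_iff, mul_smul, inv_smul_eq_iff]
    exact ⟨fun e => ⟨H.mul_mem (H.inv_mem hh) hg, e⟩, fun e => e.2⟩

/-- The conjugacy class of `t` under `H`. -/
def Cl (H : Subgroup G) (t : G) : Set G := {s | ∃ g ∈ H, g * t * g⁻¹ = s}

theorem cls (H : Subgroup G) (t : G) : (Cl H t).ncard * #(H ⊓ C[t] : Subgroup G) = #H :=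
  img_mul inf_le_left (fun g => g * t * g⁻¹) _ (fun _ => Iff.rfl) fun g hg h hh => by
    rw [Subgroup.mem_inf, Subgroup.mem_centralizer_singleton_iff]
    refine ⟨fun e => ⟨H.mul_mem (H.inv_mem hh) hg, ?_⟩, fun e => ?_⟩
    · rw [mul_assoc, mul_inv_eq_iff_eq_mul.1 e]; group
    · calc g * t * g⁻¹ = h * (h⁻¹ * g * t) * g⁻¹ := by group
        _ = h * t * h⁻¹ := by rw [e.2]; group

/-- Involutions. -/
def Iv (t : G) : Prop := t ≠ 1 ∧ t * t = 1

theorem Iv.inv {t : G} (h : Iv t) : t⁻¹ = t := inv_eq_of_mul_eq_one_right h.2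

theorem Iv.cj {t : G} (h : Iv t) (g : G) : Iv (g * t * g⁻¹) :=
  ⟨conj_ne_one.2 h.1, by rw [conj_mul, h.2]; simp⟩

theorem Iv.ss {t : G} (h : Iv t) (x : X) : t • t • x = x := by rw [← mul_smul, h.2, one_smul]

theorem Iv.sw {t : G} (h : Iv t) {x y : X} (e : t • x = y) : t • y = x := e ▸ h.ss x

theorem Iv.odd {t : G} (h : Iv t) {n : ℕ} (hn : Odd n) : t ^ n = t := by
  obtain ⟨m, rfl⟩ := hn
  rw [pow_succ, pow_mul, sq, h.2, one_pow, one_mul]

theorem exists_iv {H : Subgroup G} (h : 2 ∣ #H) : ∃ t ∈ H, Iv t := by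
  have : Fact (Nat.Prime 2) := ⟨Nat.prime_two⟩
  obtain ⟨t, ht⟩ := exists_prime_orderOf_dvd_card' (G := H) 2 h
  refine ⟨t, t.2, fun e => ?_, ?_⟩
  · rw [show t = 1 from Subtype.ext e, orderOf_one] at ht; omega
  · have := pow_orderOf_eq_one t
    rw [ht, sq] at this; exact congrArg Subtype.val this

theorem pow_card {H : Subgroup G} {g : G} (h : g ∈ H) : g ^ #H = 1 :=
  congrArg Subtype.val (pow_card_eq_one' (x := (⟨g, h⟩ : H)))

/-- Two-point stabilizers. -/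
abbrev St (G : Type*) [Group G] [MulAction G X] (x y : X) : Subgroup G :=
  stabilizer G x ⊓ stabilizer G y

theorem swap_le {S : Set G} (M : Subgroup G) (h : ∀ s ∈ S, ∀ t ∈ S, s * t ∈ M) : S.ncard ≤ #M := by
  rcases S.eq_empty_or_nonempty with rfl | ⟨s, hs⟩
  · simp
  · exact sub_card M ▸ inj_le (s * ·) (h s hs) fun a _ b _ e => mul_left_cancel e

theorem swap_st {S : Set G} {x y : X} (h : ∀ s ∈ S, Iv s ∧ s • x = y) : S.ncard ≤ #(St G x y) :=
  swap_le _ fun s hs t ht => ⟨show (s * t) • x = x by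
    rw [mul_smul, (h t ht).2, (h s hs).1.sw (h s hs).2], show (s * t) • y = y by
    rw [mul_smul, (h t ht).1.sw (h t ht).2, (h s hs).2]⟩

/-- An involution acting fixed-point-freely on a subgroup inverts it. -/
theorem fpf_inv {D : Subgroup G} {t : G} (ht : Iv t) (hn : ∀ g ∈ D, t * g * t ∈ D)
    (hc : ∀ g ∈ D, g * t = t * g → g = 1) : ∀ g ∈ D, t * g * t = g⁻¹ := by
  have hi : Function.Injective fun g : D => (⟨g⁻¹ * (t * g * t), D.mul_mem (D.inv_mem g.2)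
      (hn g g.2)⟩ : D) := fun a b e => by
    have e1 : (a : G)⁻¹ * (t * a * t) = (b : G)⁻¹ * (t * b * t) := congrArg Subtype.val e
    have := hc (b * (a : G)⁻¹) (D.mul_mem b.2 (D.inv_mem a.2)) (by
      calc (b : G) * (a : G)⁻¹ * t = b * ((a : G)⁻¹ * (t * a * t)) * t⁻¹ * (a : G)⁻¹ := by group
        _ = t * (b * (a : G)⁻¹) := by rw [e1]; group)
    exact Subtype.ext (mul_inv_eq_one.1 this).symm
  intro g hg
  obtain ⟨a, e⟩ := Finite.injective_iff_surjective.1 hi ⟨g, hg⟩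
  have e1 : g = (a : G)⁻¹ * (t * a * t) := (congrArg Subtype.val e).symm
  rw [e1]
  calc t * ((a : G)⁻¹ * (t * a * t)) * t = t * (a : G)⁻¹ * t * a * (t * t) := by group
    _ = _ := by rw [ht.2]; simp only [mul_inv_rev, inv_inv, ht.inv]; group

theorem inv_ab {D : Subgroup G} {t : G} (ht : Iv t) (hi : ∀ g ∈ D, t * g * t = g⁻¹) {a b : G}
    (ha : a ∈ D) (hb : b ∈ D) : a * b = b * a := by
  have := hi _ (D.mul_mem ha hb)
  rw [show t * (a * b) * t = (t * a * t) * (t * b * t) by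
    calc t * (a * b) * t = t * a * (t * t) * b * t := by rw [ht.2]; group
      _ = _ := by group, hi a ha, hi b hb, ← mul_inv_rev] at this
  exact (inv_injective this).symm

theorem inv_mul_cent {D : Subgroup G} {s t : G} (hs : Iv s) (ht : Iv t)
    (h1 : ∀ g ∈ D, s * g * s = g⁻¹) (h2 : ∀ g ∈ D, t * g * t = g⁻¹) {g : G} (hg : g ∈ D) :
    s * t * g = g * (s * t) := by
  calc s * t * g = s * (t * g * t) * s * (s * t) := by
        rw [show s * (t * g * t) * s * (s * t) = s * t * g * t * (s * s) * t by group, hs.2,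
          mul_one, mul_assoc _ t t, ht.2, mul_one]
    _ = _ := by rw [h2 g hg, h1 _ (D.inv_mem hg), inv_inv]

/-- Distinct non-adjacent points. -/
def Na (a : X → X → Prop) (x y : X) : Prop := x ≠ y ∧ ¬ a x y

/-- The configuration. -/
structure Rk (a : X → X → Prop) (K : X → Subgroup G) (k e L l : ℕ) : Prop where
  symm : ∀ {x y}, a x y → a y x
  irr : ∀ {x y}, a x y → x ≠ y
  inv : ∀ (g : G) {x y}, a x y → a (g • x) (g • y)
  tA : ∀ {x y u v}, a x y → a u v → ∃ g : G, g • x = u ∧ g • y = v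
  tN : ∀ {x y u v}, Na a x y → Na a u v → ∃ g : G, g • x = u ∧ g • y = v
  f1 : ∀ {g : G} {x y w}, a x y → a x w → y ≠ w → g • x = x → g • y = y → g • w = w → g = 1
  mK : ∀ {x} {g : G}, g ∈ K x ↔ g • x = x ∧ (g = 1 ∨ ∀ y, a x y → g • y ≠ y)
  tK : ∀ {x y w}, a x y → a x w → ∃ g ∈ K x, g • y = w
  nil : ∀ x, Nil (K x)
  c1 : ∃ x y w, Na a x y ∧ Na a x w ∧ a y w
  c2 : ∃ x y w, a x y ∧ a x w ∧ Na a y w
  ev : 2 ∣ Nat.card G
  e2 : 2 ≤ e
  ck : ∀ x, {y | a x y}.ncard = k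
  cl : ∀ x, {y | Na a x y}.ncard = l
  ce : ∀ {x y}, a x y → #(St G x y) = e
  cL : ∀ {x y}, Na a x y → #(St G x y) = L

namespace Rk
variable {a : X → X → Prop} {K : X → Subgroup G} {k e L l : ℕ} (h : Rk a K k e L l)
  {x y u v w : X} {g r s t z : G}
include h

theorem inv' (g : G) : a (g • x) (g • y) ↔ a x y :=
  ⟨fun H => by simpa using h.inv g⁻¹ H, h.inv g⟩

theorem nsymm (n : Na a x y) : Na a y x := ⟨n.1.symm, fun H => n.2 (h.symm H)⟩

theorem ninv (g : G) (n : Na a x y) : Na a (g • x) (g • y) :=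
  ⟨fun e => n.1 (MulAction.injective g e), fun H => n.2 ((h.inv' g).1 H)⟩

theorem fa (e : g • x = x) (H : a x y) : a x (g • y) := by simpa only [e] using h.inv g H

theorem fn (e : g • x = x) (H : Na a x y) : Na a x (g • y) := by simpa only [e] using h.ninv g H

theorem Kf (hg : g ∈ K x) : g • x = x := (h.mK.1 hg).1

theorem K1 (hg : g ∈ K x) (H : a x y) (e : g • y = y) : g = 1 :=
  (h.mK.1 hg).2.resolve_right fun k => k y H e

theorem Kcj (g : G) (hs : s ∈ K x) : g * s * g⁻¹ ∈ K (g • x) := by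
  refine h.mK.2 ⟨by rw [cj_smul, h.Kf hs], (h.mK.1 hs).2.imp (fun e => by simp [e]) fun k y H e => ?_⟩
  refine k (g⁻¹ • y) (by simpa using h.inv g⁻¹ H) ?_
  rw [eq_inv_smul_iff, ← mul_smul, ← mul_smul]; exact e

theorem Kcj' (e : g • x = x) (hs : s ∈ K x) : g * s * g⁻¹ ∈ K x := by simpa only [e] using h.Kcj g hs

theorem nK (e : g • x = x) (hg : g ∉ K x) : ∃ y, a x y ∧ g • y = y := by
  by_contra H
  exact hg (h.mK.2 ⟨e, Or.inr fun y k e => H ⟨y, k, e⟩⟩)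

theorem uq (g1 : g ≠ 1) (e : g • x = x) (k1 : a x y) (k2 : a x w) (e1 : g • y = y) (e2 : g • w = w) :
    y = w := by_contra fun n => g1 (h.f1 k1 k2 n e e1 e2)

theorem k2 : 2 ≤ k := by
  obtain ⟨x, y, w, k1, k2, n⟩ := h.c2
  rw [← h.ck x, ← ncard_pair n.1]
  exact ncard_le_ncard (by rintro _ (rfl | rfl) <;> assumption)

theorem exA (x : X) : ∃ y, a x y := by
  have := h.k2
  exact (ncard_pos (s := {y | a x y})).1 (by rw [h.ck]; omega)

theorem l1 : 1 ≤ l := by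
  obtain ⟨x, y, w, k1, -⟩ := h.c1
  rw [← h.cl x]
  exact (ncard_pos (toFinite _)).2 ⟨y, k1⟩

theorem exN (x : X) : ∃ y, Na a x y := by
  have := h.l1
  exact (ncard_pos (s := {y | Na a x y})).1 (by rw [h.cl]; omega)

theorem tr (x y : X) : ∃ g : G, g • x = y := by
  obtain ⟨u, k1⟩ := h.exA x
  obtain ⟨v, k2⟩ := h.exA y
  exact (h.tA k1 k2).imp fun _ => And.left

theorem c1' (n : Na a x y) : ∃ w, Na a x w ∧ a y w := by
  obtain ⟨x', y', w, k1, k2, k3⟩ := h.c1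
  obtain ⟨g, rfl, rfl⟩ := h.tN k1 n
  exact ⟨g • w, h.ninv g k2, h.inv g k3⟩

theorem c2' (n : Na a x y) : ∃ w, a x w ∧ a y w := by
  obtain ⟨x', y', w, k1, k2, k3⟩ := h.c2
  obtain ⟨g, rfl, rfl⟩ := h.tN k3 n
  exact ⟨g • x', h.inv g (h.symm k1), h.inv g (h.symm k2)⟩

theorem cK (x : X) : #(K x) = k := by
  obtain ⟨y, hy⟩ := h.exA x
  have := orb (K x) y {w | a x w} fun w => ⟨fun H => h.tK hy H, by
    rintro ⟨g, hg, rfl⟩; exact h.fa (h.Kf hg) hy⟩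
  rw [h.ck, (Subgroup.eq_bot_iff_forall (K x ⊓ stabilizer G y)).2 fun g hg =>
    h.K1 hg.1 hy hg.2] at this
  simpa using this.symm

theorem cH (x : X) : #(stabilizer G x) = k * e := by
  obtain ⟨y, hy⟩ := h.exA x
  rw [← h.ck x, ← h.ce hy]
  refine (orb _ y _ fun w => ⟨fun H => h.tA hy H, ?_⟩).symm
  rintro ⟨g, hg, rfl⟩; exact h.fa hg hy

theorem lL : l * L = k * e := by
  obtain ⟨x, y, w, hy, -⟩ := h.c1
  rw [← h.cH x, ← h.cl x, ← h.cL hy]
  refine orb _ y _ fun w => ⟨fun H => h.tN hy H, ?_⟩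
  rintro ⟨g, hg, rfl⟩; exact h.fn hg hy

theorem cn : Nat.card X = 1 + k + l := by
  obtain ⟨x, -⟩ := h.c1
  rw [← ncard_univ, split univ (x = ·), split {y | y ∈ univ ∧ ¬ x = y} (a x), ← h.ck x, ← h.cl x,
    one_fib (mem_univ x), add_assoc]
  congr 3 <;> ext y <;> simp [Na]
  exact fun H => h.irr H

theorem cG : Nat.card G = Nat.card X * (k * e) := by
  obtain ⟨x, -⟩ := h.c1
  have := orb (⊤ : Subgroup G) x univ fun w => by simpa using h.tr x w
  rw [top_inf_eq, h.cH, ncard_univ, Subgroup.card_top] at this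
  exact this.symm

theorem ek : ∃ c, k = c * e + 1 := by
  obtain ⟨x, y, w, k1, -⟩ := h.c2
  obtain ⟨c, hc⟩ := PP.card_dvd_of_free (St G x y) {w | a x w ∧ ¬ y = w} (fun g hg w hw =>
    ⟨h.fa hg.1 hw.1, (smul_ne g hg.2 (Ne.symm hw.2)).symm⟩) fun w hw g hg e => h.f1 k1 hw.1 hw.2 hg.1 hg.2 e
  refine ⟨c, ?_⟩
  rw [← h.ck x, split _ (y = ·), one_fib (T := {w | a x w}) k1, mul_comm, ← h.ce k1, ← hc, add_comm]
  rfl

theorem cop : k.Coprime e := by
  obtain ⟨c, rfl⟩ := h.ek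
  simp

theorem pe (H : a x y) (e1 : g • x = x) (e2 : g • y = y) : g ^ e = 1 :=
  h.ce H ▸ pow_card (H := St G x y) ⟨e1, e2⟩

theorem pk (hg : g ∈ K x) : g ^ k = 1 := h.cK x ▸ pow_card hg

theorem KK (hg : g ∈ K x) (e : g • y = y) : g ∈ K y := by_contra fun H => by
  obtain ⟨w, k1, k2⟩ := h.nK e H
  have := pow_gcd_eq_one.2 ⟨h.pk hg, h.pe k1 e k2⟩
  rw [h.cop, pow_one] at this
  exact H (this ▸ (K y).one_mem)

theorem cK' (hs : s ∈ K x) (s1 : s ≠ 1) (e : g • x = x) (c : g * s = s * g) : g ∈ K x :=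
  by_contra fun H => by
    obtain ⟨y, k1, k2⟩ := h.nK e H
    refine s1 (h.K1 hs k1 (h.uq (g := g) (fun e => H (e ▸ (K x).one_mem)) e
      (h.fa (h.Kf hs) k1) k1 ?_ k2))
    rw [← mul_smul, c, mul_smul, k2]

theorem peK (e1 : g • x = x) : g ^ e ∈ K x := by
  by_cases H : g ∈ K x
  · exact (K x).pow_mem H e
  · obtain ⟨y, k1, k2⟩ := h.nK e1 H
    exact h.pe k1 e1 k2 ▸ (K x).one_mem

theorem exK (x : X) : ∃ s ∈ K x, s ≠ 1 := by
  have := h.k2
  exact ((K x).bot_or_exists_ne_one).resolve_left fun e => by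
    have := h.cK x; rw [e, Subgroup.card_bot] at this; omega

/-! even complements -/

theorem kodd (he : 2 ∣ e) : Odd k := by
  obtain ⟨c, hc⟩ := h.ek
  obtain ⟨d, rfl⟩ := he
  exact ⟨c * d, by rw [hc]; ring⟩

theorem ivK (he : 2 ∣ e) (ht : Iv t) : t ∉ K x := fun H => ht.1 (by
  rw [← ht.odd (h.kodd he), h.pk H])

theorem ivI (he : 2 ∣ e) (ht : Iv t) (e1 : t • x = x) : ∀ g ∈ K x, t * g * t = g⁻¹ :=
  fpf_inv ht (fun g hg => by simpa only [ht.inv] using h.Kcj' e1 hg) fun g hg c =>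
    by_contra fun g1 => h.ivK he ht (h.cK' hg g1 e1 c.symm)

theorem exI (he : 2 ∣ e) (H : a x y) : ∃ t : G, Iv t ∧ t • x = x ∧ t • y = y := by
  obtain ⟨t, k1, k2⟩ := exists_iv (H := St G x y) (h.ce H ▸ he)
  exact ⟨t, k2, k1⟩

theorem Kab (he : 2 ∣ e) (hg : g ∈ K x) (hs : s ∈ K x) : g * s = s * g := by
  obtain ⟨y, k1⟩ := h.exA x
  obtain ⟨t, k2, k3, -⟩ := h.exI he k1
  exact inv_ab k2 (h.ivI he k2 k3) hg hs

theorem ivM (he : 2 ∣ e) (hs : Iv s) (ht : Iv t) (e1 : s • x = x) (e2 : t • x = x) :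
    s * t ∈ K x := by
  obtain ⟨g, hg, g1⟩ := h.exK x
  exact h.cK' hg g1 (by rw [mul_smul, e2, e1])
    (inv_mul_cent hs ht (h.ivI he hs e1) (h.ivI he ht e2) hg)

theorem ivU (he : 2 ∣ e) (H : a x y) (hs : Iv s) (ht : Iv t) (e1 : s • x = x) (e2 : t • x = x)
    (e3 : s • y = y) (e4 : t • y = y) : s = t := by
  have := h.K1 (h.ivM he hs ht e1 e2) H (by rw [mul_smul, e4, e3])
  rw [← hs.inv]; exact inv_eq_of_mul_eq_one_right this

theorem ivN (he : 2 ∣ e) (ht : Iv t) (e1 : t • x = x) : ∃ y, a x y ∧ t • y = y :=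
  h.nK e1 (h.ivK he ht)

theorem ivC (he : 2 ∣ e) (x : X) : {t : G | Iv t ∧ t • x = x}.ncard = k := by
  have := dc_eq {t : G | Iv t ∧ t • x = x} {y | a x y} (fun t y => t • y = y) (c := 1) (d := 1)
    (fun t ht => by
      obtain ⟨y, k1, k2⟩ := h.ivN he ht.1 ht.2
      exact ncard_eq_one.2 ⟨y, by
        ext w; exact ⟨fun H => h.uq ht.1.1 ht.2 H.1 k1 H.2 k2, fun H => H ▸ ⟨k1, k2⟩⟩⟩)
    fun y hy => by
      obtain ⟨t, k1, k2, k3⟩ := h.exI he hy
      exact ncard_eq_one.2 ⟨t, by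
        ext s; exact ⟨fun H => h.ivU he hy H.1.1 k1 H.1.2 k2 H.2 k3, fun H => H ▸ ⟨⟨k1, k2⟩, k3⟩⟩⟩
  simpa [h.ck] using this

end Rk
end Cfsg.Agent.GW.RK
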