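import Mathlib

/-! Integrality of eigenvalue multiplicities for triangle-free strongly regular graphs. -/
set_option autoImplicit false
namespace Cfsg.Agent.GW.RK
open Set Matrix

theorem idem_trace {X : Type*} [Fintype X] [DecidableEq X] (P : Matrix X X ℝ) (h : P * P = P) :
    ∃ m : ℕ, P.trace = m := by
  have e : IsIdempotentElem (Matrix.toLin' P) := by
    rw [IsIdempotentElem, Module.End.mul_eq_comp, ← Matrix.toLin'_mul, h]
  exact ⟨_, by rw [← Matrix.trace_toLin'_eq, (LinearMap.IsIdempotentElem.isProj_range _ e).trace]⟩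

theorem srg {X : Type*} [Finite X] (a : X → X → Prop) {k d n : ℕ} (sy : ∀ x y, a x y → a y x)
    (ir : ∀ x, ¬ a x x) (ck : ∀ x, {y | a x y}.ncard = k) (cn : Nat.card X = n)
    (l0 : ∀ x y w, a x y → a x w → ¬ a y w)
    (mu : ∀ x y, x ≠ y → ¬ a x y → {w | a x w ∧ a y w}.ncard = d)
    (rel : d * n + k = k * k + d * k + d) (dk : d < k) (n0 : 0 < n) (ne : d * n ≠ 2 * k + d) :
    ∃ ρ : ℕ, ρ * ρ + 4 * d = d * d + 4 * k ∧ ∃ N : ℤ, N * ρ = d * n - d - 2 * k := by
  classical
  have := Fintype.ofFinite X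
  let M : Matrix X X ℝ := Matrix.of fun x y => if a x y then 1 else 0
  let J : Matrix X X ℝ := Matrix.of fun _ _ => 1
  have cs : ∀ p : X → Prop, (∑ w, if p w then (1 : ℝ) else 0) = {w | p w}.ncard := fun p => by
    rw [Finset.sum_boole, ncard_eq_toFinset_card']; simp
  have JJ : J * J = (n : ℝ) • J := by
    ext x y; simp [J, mul_apply, ← cn]
  have MJ : M * J = (k : ℝ) • J := by
    ext x y; simp [J, M, mul_apply, cs, ck, -Finset.sum_boole]
  have JM : J * M = (k : ℝ) • J := by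
    ext x y
    simp only [J, M, mul_apply, of_apply, one_mul, cs, Matrix.smul_apply, smul_eq_mul, mul_one, ← ck y]
    congr 2; ext w; exact ⟨sy _ _, sy _ _⟩
  have MM : M * M = ((k : ℝ) - d) • (1 : Matrix X X ℝ) - (d : ℝ) • M + (d : ℝ) • J := by
    ext x y
    have : (M * M) x y = {w | a x w ∧ a y w}.ncard := by
      rw [← cs, mul_apply]
      refine Finset.sum_congr rfl fun w _ => ?_
      by_cases h1 : a x w <;> by_cases h2 : a y w
      · simp [M, h1, h2, sy _ _ h2]
      · simp [M, h1, h2, show ¬ a w y from fun h => h2 (sy _ _ h)]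
      · simp [M, h1]
      · simp [M, h1]
    rw [this]
    by_cases e : x = y
    · subst e; simp [M, J, ir, ck]
    by_cases h : a x y
    · rw [show {w | a x w ∧ a y w} = ∅ from eq_empty_of_forall_notMem fun w H => l0 x y w h H.1 H.2]
      simp [M, J, h, e]
    · simp [M, J, h, e, mu x y e h]
  have tM : M.trace = 0 := by simp [M, trace, ir]
  have tJ : J.trace = n := by simp [J, trace, ← cn]
  obtain ⟨Δ, hΔ⟩ : ∃ Δ : ℕ, Δ + 4 * d = d * d + 4 * k := ⟨d * d + 4 * (k - d), by omega⟩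
  have hΔ' : (Δ : ℝ) = d * d + 4 * k - 4 * d := by rw [eq_sub_iff_add_eq]; exact_mod_cast hΔ
  have rel' : (d : ℝ) * n + k = k * k + d * k + d := by exact_mod_cast rel
  set δ := √(Δ : ℝ) with hδ
  have δ2 : δ * δ = d * d + 4 * k - 4 * d := by rw [← hΔ']; exact Real.mul_self_sqrt (by positivity)
  have δ0 : 0 < δ := Real.sqrt_pos.2 (by exact_mod_cast (by nlinarith : 0 < Δ))
  have n1 : (n : ℝ) ≠ 0 := by positivity
  obtain ⟨β, hβ⟩ : ∃ β : ℝ, β * n = 2 * k + d + δ := ⟨(2 * k + d + δ) / n, by field_simp⟩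
  obtain ⟨m, hm⟩ := idem_trace ((2 * δ)⁻¹ • ((2 : ℝ) • M + (d + δ) • (1 : Matrix X X ℝ) - β • J)) (by
    rw [Matrix.smul_mul, Matrix.mul_smul, smul_smul, mul_comm, ← smul_smul]
    congr 1
    rw [inv_smul_eq_iff₀ (by positivity)]
    simp only [Matrix.add_mul, Matrix.mul_add, Matrix.sub_mul, Matrix.mul_sub, Matrix.smul_mul,
      Matrix.mul_smul, Matrix.mul_one, Matrix.one_mul, MM, MJ, JM, JJ]
    match_scalars
    · linear_combination (-1) * δ2
    · ring
    · refine mul_left_cancel₀ n1 ?_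
      linear_combination 4 * rel' + (β * n - 2 * k - d + δ) * hβ + δ2)
  rw [trace_smul, trace_sub, trace_add, trace_smul, trace_smul, trace_smul, tM, tJ, trace_one,
    Fintype.card_eq_nat_card, cn, smul_eq_mul, inv_mul_eq_iff_eq_mul₀ (by positivity)] at hm
  simp only [smul_eq_mul] at hm
  have key : ((2 * m + 1 - n : ℤ) : ℝ) * δ = ((d * n - d - 2 * k : ℤ) : ℝ) := by
    push_cast; linear_combination (-1) * hm - hβ
  have N0 : (2 * m + 1 - n : ℤ) ≠ 0 := fun e => by
    rw [e] at key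
    have : (d * n - d - 2 * k : ℤ) = 0 := Int.cast_injective (α := ℝ) (by
      rw [← key]; simp)
    exact ne (by zify; omega)
  obtain ⟨ρ, hρ⟩ : IsSquare Δ := by
    by_contra H
    refine (irrational_sqrt_natCast_iff.2 H) ⟨(d * n - d - 2 * k : ℤ) / (2 * m + 1 - n : ℤ), ?_⟩
    rw [Rat.cast_div, Rat.cast_intCast, Rat.cast_intCast, ← key, ← hδ]
    field_simp
  refine ⟨ρ, hρ ▸ hΔ, 2 * m + 1 - n, ?_⟩
  rw [show δ = ρ by rw [hδ, hρ, Nat.cast_mul, Real.sqrt_mul_self (by positivity)]] at key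
  exact_mod_cast key

end Cfsg.Agent.GW.RK
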