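import Mathlib
import Cfsg.Agent.GW.Rk1

/-! Rank 3 groups with a Frobenius subconstituent: the case of lines. -/
set_option autoImplicit false
set_option linter.unusedSectionVars false
namespace Cfsg.Agent.GW.RK
open Set MulAction Cfsg.Agent.FT Cfsg.Agent.GW.ON

variable {G X : Type*} [Group G] [MulAction G X] [Finite G] [Finite X]

/-- Collinearity. -/
def Ln (K : X → Subgroup G) (x y w : X) : Prop := ∀ r, r ∈ Z(K x) → r ∈ Z(K y) → r ∈ Z(K w)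

/-- The centres meet. -/
def HR (a : X → X → Prop) (K : X → Subgroup G) : Prop :=
  ∀ x y, Na a x y → ∃ r, r ≠ 1 ∧ r ∈ Z(K x) ∧ r ∈ Z(K y)

theorem ln_l (K : X → Subgroup G) (x y : X) : Ln K x y x := fun _ h _ => h
theorem ln_r (K : X → Subgroup G) (x y : X) : Ln K x y y := fun _ _ h => h

namespace Rk
variable {a : X → X → Prop} {K : X → Subgroup G} {k e L l : ℕ} (h : Rk a K k e L l)
  {x y u v w p b c d : X} {g r s t z : G}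
include h

theorem Zcj (g : G) (hs : s ∈ Z(K x)) : g * s * g⁻¹ ∈ Z(K (g • x)) :=
  ⟨h.Kcj g hs.1, mem_cen.2 fun b hb => by
    have := mem_cen.1 hs.2 (g⁻¹ * b * g) (by simpa using h.Kcj g⁻¹ hb)
    calc b * (g * s * g⁻¹) = g * (g⁻¹ * b * g * s) * g⁻¹ := by group
      _ = _ := by rw [this]; group⟩

theorem Zcj' (g : G) (hs : s ∈ Z(K (g • x))) : g⁻¹ * s * g ∈ Z(K x) := by simpa using h.Zcj g⁻¹ hs

theorem cardZ (n1 : Na a x y) (n2 : Na a u v) :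
    #(Z(K x) ⊓ Z(K y) : Subgroup G) ≤ #(Z(K u) ⊓ Z(K v) : Subgroup G) := by
  obtain ⟨g, rfl, rfl⟩ := h.tN n1 n2
  exact card_le_cj g fun a ha => ⟨h.Zcj g ha.1, h.Zcj g ha.2⟩

theorem cardM (n1 : Na a x y) (n2 : Na a u v) :
    #(K x ⊓ K y : Subgroup G) ≤ #(K u ⊓ K v : Subgroup G) := by
  obtain ⟨g, rfl, rfl⟩ := h.tN n1 n2
  exact card_le_cj g fun a ha => ⟨h.Kcj g ha.1, h.Kcj g ha.2⟩

theorem hr (n : Na a x y) (z1 : z ≠ 1) (hz : z ∈ Z(K x)) (e1 : z • y = y) : HR a K := by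
  by_cases H : ∀ g : G, g * z = z * g → g • x = x
  · obtain ⟨w, k1, k2⟩ := h.c1' n
    obtain ⟨g, e2, e3⟩ := h.tN (h.nsymm n) k1
    have := H _ (mem_cen.1 (h.Zcj' g (e2 ▸ hz)).2 z (h.KK hz.1 e1)).symm
    rw [mul_smul, mul_smul, e3, inv_smul_eq_iff, e3] at this
    exact (z1 (h.K1 (h.KK hz.1 e1) k2 this)).elim
  push Not at H
  obtain ⟨g, c, ne⟩ := H
  have k1 : z ∈ Z(K (g • x)) := by simpa [c] using h.Zcj g hz
  intro u v n'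
  obtain ⟨g', rfl, rfl⟩ := h.tN (show Na a x (g • x) from
    ⟨ne.symm, fun H => z1 (h.K1 hz.1 H (h.Kf k1.1))⟩) n'
  exact ⟨_, conj_ne_one.2 z1, h.Zcj g' hz, h.Zcj g' k1⟩

theorem ln_nrm (hg : ∀ r, r ∈ Z(K x) → r ∈ Z(K y) → g⁻¹ * r * g ∈ Z(K x) ∧ g⁻¹ * r * g ∈ Z(K y))
    (k1 : Ln K x y w) : Ln K x y (g • w) := fun r r1 r2 => by
  simpa [mul_assoc] using h.Zcj g (k1 _ (hg r r1 r2).1 (hg r r1 r2).2)

theorem ln_K (k1 : Ln K x y u) (hg : g ∈ K u) (k2 : Ln K x y w) : Ln K x y (g • w) :=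
  h.ln_nrm (fun r r1 r2 => by
    rw [mul_assoc, ← mem_cen.1 (k1 r r1 r2).2 g hg, inv_mul_cancel_left]; exact ⟨r1, r2⟩) k2

theorem ln_smul (g : G) (k1 : Ln K x y w) : Ln K (g • x) (g • y) (g • w) := fun r r1 r2 => by
  simpa [mul_assoc] using h.Zcj g (k1 _ (h.Zcj' g r1) (h.Zcj' g r2))

variable (R : HR a K)
include R

theorem ln_na (n : Na a x y) (k1 : Ln K x y u) (k2 : Ln K x y w) : ¬ a u w := fun H => by
  obtain ⟨r, r1, r2, r3⟩ := R x y n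
  exact r1 (h.K1 (k1 r r2 r3).1 H (h.Kf (k2 r r2 r3).1))

theorem ln_iff (n : Na a x y) (k1 : Ln K x y u) (k2 : Ln K x y w) (ne : u ≠ w) :
    Ln K u w p ↔ Ln K x y p := by
  have : Z(K x) ⊓ Z(K y) = Z(K u) ⊓ Z(K w) := Subgroup.eq_of_le_of_card_ge
    (fun r hr => ⟨k1 r hr.1 hr.2, k2 r hr.1 hr.2⟩) (h.cardZ ⟨ne, h.ln_na R n k1 k2⟩ n)
  exact ⟨fun H r r1 r2 => H r (k1 r r1 r2) (k2 r r1 r2), fun H r r1 r2 =>
    H r (this.ge ⟨r1, r2⟩).1 (this.ge ⟨r1, r2⟩).2⟩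

theorem alpha (n : Na a x y) (k1 : Ln K x y p) (H : a b p) (k2 : Ln K x y c) (k3 : Ln K x y d)
    (n1 : ¬ a b c) (n2 : ¬ a b d) : c = d := by_contra fun ne => by
  have nb : ¬ Ln K x y b := fun k => h.ln_na R n k k1 H
  have m1 : Na a b c := ⟨fun e => nb (e ▸ k2), n1⟩
  have m2 : Na a b d := ⟨fun e => nb (e ▸ k3), n2⟩
  have : K b ⊓ K c = K c ⊓ K d := Subgroup.eq_of_le_of_card_ge (fun g hg => ⟨hg.2, h.KK hg.2 <|
    by_contra fun ne => nb <| (h.ln_iff R n (h.ln_K k2 hg.2 k3) k3 ne).1 <|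
      (h.ln_iff R m2 (h.ln_K (ln_l K b d) hg.1 (ln_r K b d)) (ln_r K b d) ne).2 (ln_l K b d)⟩)
    (h.cardM ⟨ne, h.ln_na R n k2 k3⟩ m1)
  obtain ⟨r, r1, r2, r3⟩ := R x y n
  exact r1 (h.K1 (this.ge ⟨(k2 r r2 r3).1, (k3 r r2 r3).1⟩).1 H (h.Kf (k1 r r2 r3).1))

theorem p1 (n2 : Na a x y) (n1 : ¬ a c x) (H : a c y) (k1 : Ln K x y w) (ne : w ≠ x) : a c w :=
  by_contra fun H' => ne (h.alpha R n2 (ln_r K x y) H k1 (ln_l K x y) H' n1)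

theorem p2 (n1 : Na a x c) (n2 : Na a x y) (n3 : Na a x w) (H1 : a c y) (H2 : a c w) :
    ∃ g ∈ K x ⊓ K c, g • y = w := by
  obtain ⟨g, hg, rfl⟩ := h.tK H1 H2
  refine ⟨g, ⟨h.KK hg ?_, hg⟩, rfl⟩
  exact h.alpha R n1 (ln_r K x c) (h.symm H2) (h.ln_K (ln_r K x c) hg (ln_l K x c)) (ln_l K x c)
    (h.nsymm (h.ninv g n2)).2 (h.nsymm n3).2

theorem p3 (n1 : Na a x c) (n2 : Na a x y) (n3 : Na a x w) (H1 : a c y) (H2 : a c w) :
    Ln K x y w := by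
  obtain ⟨g, hg, rfl⟩ := h.p2 R n1 n2 n3 H1 H2
  exact h.ln_K (ln_l K x y) hg.1 (ln_r K x y)

theorem even_e : 2 ∣ e := by
  obtain ⟨x, c, y, n1, n2, H⟩ := h.c1
  obtain ⟨g, e1, e2⟩ := h.tN n1 n2
  have key : ∀ w, Ln K x c w → w ≠ x → Ln K x c ((g ^ 2) • w) ∧ (g ^ 2) • w ≠ x := fun w k1 ne => by
    have k2 : Ln K x y (g • w) := by simpa only [e1, e2] using h.ln_smul g k1
    have k3 := smul_ne g e1 ne
    have k4 := h.inv g (h.p1 R n2 (h.nsymm n1).2 H k2 k3)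
    rw [e2] at k4
    rw [sq, mul_smul]
    exact ⟨h.p3 R n2 n1 (h.fn e1 ⟨k3.symm, h.ln_na R n2 (ln_l K x y) k2⟩) (h.symm H) k4,
      smul_ne g e1 k3⟩
  have key2 : ∀ m : ℕ, Ln K x c ((g ^ (2 * m)) • c) ∧ (g ^ (2 * m)) • c ≠ x := fun m => by
    induction m with
    | zero => simpa using ⟨ln_r K x c, n1.1.symm⟩
    | succ m ih => rw [mul_add, mul_one, add_comm, pow_add, mul_smul]; exact key _ ih.1 ih.2
  by_contra he
  obtain ⟨m, hm⟩ : Odd e := Nat.odd_iff.2 (by omega)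
  have k1 := h.ln_K (ln_l K x c) (h.peK e1) (ln_r K x c)
  rw [hm, pow_succ', mul_smul] at k1
  have k2 : Ln K x y (g • (g ^ (2 * m)) • c) := by simpa only [e1, e2] using h.ln_smul g (key2 m).1
  exact h.ln_na R n1 (ln_r K x c) k1 (h.p1 R n2 (h.nsymm n1).2 H k2 (smul_ne g e1 (key2 m).2))

theorem lncard (n1 : Na a x c) (n2 : Na a x y) (H : a c y) :
    {w | Ln K x y w ∧ ¬ x = w}.ncard = #(K x ⊓ K c : Subgroup G) ∧
      {w | Ln K x y w ∧ ¬ x = w}.ncard * #(K x ⊓ K y : Subgroup G) = k := by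
  have k1 : ∀ g ∈ K x, Ln K x y (g • y) ∧ ¬ x = g • y := fun g hg =>
    ⟨h.ln_K (ln_l K x y) hg (ln_r K x y), (h.fn (h.Kf hg) n2).1⟩
  have k2 : ∀ w, Ln K x y w ∧ ¬ x = w → ∃ g ∈ K x ⊓ K c, g • y = w := fun w hw =>
    h.p2 R n1 n2 ⟨hw.2, h.ln_na R n2 (ln_l K x y) hw.1⟩ H
      (h.p1 R n2 (h.nsymm n1).2 H hw.1 (Ne.symm hw.2))
  constructor
  · have := orb (K x ⊓ K c) y {w | Ln K x y w ∧ ¬ x = w} fun w =>
      ⟨k2 w, by rintro ⟨g, hg, rfl⟩; exact k1 g hg.1⟩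
    rw [(Subgroup.eq_bot_iff_forall ((K x ⊓ K c) ⊓ stabilizer G y)).2 fun g hg =>
      h.K1 hg.1.2 H hg.2] at this
    simpa using this
  · have := orb (K x) y {w | Ln K x y w ∧ ¬ x = w} fun w =>
      ⟨fun hw => (k2 w hw).imp fun g hg => ⟨hg.1.1, hg.2⟩, by rintro ⟨g, hg, rfl⟩; exact k1 g hg⟩
    rwa [h.cK, show K x ⊓ stabilizer G y = K x ⊓ K y from le_antisymm
      (fun g hg => ⟨hg.1, h.KK hg.1 hg.2⟩) fun g hg => ⟨hg.1, h.Kf hg.2⟩] at this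

theorem lines : Nat.card X = 16 ∧ k = 9 := by
  have he := h.even_e R
  have ZK : ∀ {x g}, g ∈ K x → g ∈ Z(K x) := fun hg => ⟨hg, mem_cen.2 fun s hs => h.Kab he hs hg⟩
  obtain ⟨x, c, y, n1, n2, H⟩ := h.c1
  obtain ⟨a1, a2⟩ := h.lncard R n1 n2 H
  obtain ⟨a3, -⟩ := h.lncard R n2 n1 (h.symm H)
  have a4 := (h.cardM n2 n1).antisymm (h.cardM n1 n2)
  rw [a4] at a2 a3
  rw [a1] at a2
  have a5 : l = #(K x ⊓ K c : Subgroup G) + #(K x ⊓ K c : Subgroup G) := by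
    rw [← h.cl x, split _ (Ln K x y)]
    congr 1
    · rw [← a1]; congr 1; ext w
      exact ⟨fun H => ⟨H.2, H.1.1⟩, fun H => ⟨⟨H.2, h.ln_na R n2 (ln_l K x y) H.1⟩, H.1⟩⟩
    · rw [← a3]; congr 1; ext w
      refine ⟨fun hw => ⟨?_, hw.1.1⟩, fun hw => ⟨⟨hw.2, h.ln_na R n1 (ln_l K x c) hw.1⟩, fun k =>
        h.ln_na R n1 (ln_r K x c) hw.1 (h.p1 R n2 (h.nsymm n1).2 H k (Ne.symm hw.2))⟩⟩
      by_cases e1 : c = w
      · exact e1 ▸ ln_r K x c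
      have m : Na a c w := ⟨e1, fun k => hw.2 (h.p3 R n1 n2 hw.1 H k)⟩
      intro r r1 r2
      by_cases e2 : r • w = w
      · exact ZK (h.KK r1.1 e2)
      have := (h.ln_iff R hw.1 (h.ln_K (ln_l K x w) r1.1 (ln_r K x w)) (ln_r K x w) e2).1 <|
        (h.ln_iff R m (h.ln_K (ln_l K c w) r2.1 (ln_r K c w)) (ln_r K c w) e2).2 (ln_l K c w)
      exact (h.ln_iff R hw.1 (ln_l K x w) this n1.1).2 (ln_r K x w) r r1 r2
  obtain ⟨r, r1, r2, r3⟩ := R x c n1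
  have a6 : 1 < #(K x ⊓ K c : Subgroup G) := (Subgroup.one_lt_card_iff_ne_bot _).2 fun e =>
    r1 ((Subgroup.eq_bot_iff_forall _).1 e r ⟨r2.1, r3.1⟩)
  -- the involution count
  set Λ := {w | Ln K x c w} with hΛ
  set T := {t : G | Iv t ∧ ∃ w ∈ Λ, t • w = w} with hT
  have b0 : Λ.ncard = #(K x ⊓ K c : Subgroup G) + 1 := by
    rw [split Λ (x = ·), one_fib (ln_l K x c), ← a3, add_comm]; rfl
  have iv : ∀ t ∈ T, ∀ s, s ∈ Z(K x) → s ∈ Z(K c) → t * s * t = s⁻¹ := fun t ht s s1 s2 => by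
    obtain ⟨w, k1, k2⟩ := ht.2
    exact h.ivI he ht.1 k2 s (k1 s s1 s2).1
  have pr : ∀ t ∈ T, ∀ w ∈ Λ, t • w ∈ Λ := fun t ht w hw => h.ln_nrm (fun s s1 s2 => by
    rw [ht.1.inv, iv t ht s s1 s2]; exact ⟨inv_mem s1, inv_mem s2⟩) hw
  have f2 : ∀ t ∈ T, {w | w ∈ Λ ∧ t • w = w}.ncard ≤ 2 := fun t ht => by
    obtain ⟨u, k1, k2⟩ := ht.2
    rw [split _ (u = ·), one_fib (T := {w | w ∈ Λ ∧ t • w = w}) ⟨k1, k2⟩]
    refine Nat.add_le_add_left (le_one fun v hv w hw => ?_) 1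
    have nv : Na a u v := ⟨hv.2, h.ln_na R n1 k1 hv.1.1⟩
    have nw : Na a u w := ⟨hw.2, h.ln_na R n1 k1 hw.1.1⟩
    obtain ⟨p, m1, m2⟩ := h.c1' nv
    obtain ⟨g, hg, rfl⟩ := h.p2 R m1 nv nw (h.symm m2) (h.p1 R nv (h.nsymm m1).2 (h.symm m2)
      ((h.ln_iff R n1 k1 hv.1.1 nv.1).2 hw.1.1) nw.1.symm)
    have e1 : g⁻¹ • v = g • v := by
      rw [← h.ivI he ht.1 k2 g hg.1, mul_smul, mul_smul, hv.1.2, hw.1.2]
    have e2 : g ^ 2 ∈ stabilizer G v := by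
      rw [mem_stabilizer_iff, sq, mul_smul, ← e1, smul_inv_smul]
    obtain ⟨j, hj⟩ := h.kodd he
    have e3 : g = (g ^ 2) ^ (j + 1) := by
      rw [← pow_mul, mul_add, mul_one, show 2 * j + 2 = k + 1 by omega, pow_succ, h.pk hg.1, one_mul]
    exact (e3 ▸ pow_mem e2 (j + 1) : g ∈ stabilizer G v).symm
  have b1 := dc Λ T (fun w t => t • w = w) (c := k) (d := 2) (fun w hw => by
    rw [← h.ivC he w]
    exact ncard_le_ncard fun t ht => ⟨⟨ht.1, w, hw, ht.2⟩, ht.2⟩) f2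
  have b2 := dc T Λ (fun t w => ¬ t • w = w) (c := #(K x ⊓ K c : Subgroup G) - 1)
    (d := #(K x ⊓ K c : Subgroup G) * #(K x ⊓ K c : Subgroup G)) (fun t ht => by
      have := split Λ (fun w => t • w = w)
      have := f2 t ht
      omega) fun w hw => by
      refine (fib_le _ {v | v ∈ Λ ∧ ¬ w = v} (· • w) (d := #(K x ⊓ K c : Subgroup G))
        (fun t ht => ⟨pr t ht.1 w hw, Ne.symm ht.2⟩) fun v hv => ?_).trans ?_
      · refine (swap_le (K w ⊓ K v) fun s hs t ht => ?_).trans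
          (h.cardM ⟨hv.2, h.ln_na R n1 hw hv.1⟩ n1)
        have e1 : (s * t) • w = w := by rw [mul_smul, ht.2, hs.1.1.1.sw hs.2]
        have e2 : s * t ∈ K w := h.cK' (hw r r2 r3).1 r1 e1 (inv_mul_cent (D := Z(K x) ⊓ Z(K c))
          hs.1.1.1 ht.1.1.1 (fun g hg => iv s hs.1.1 g hg.1 hg.2)
          (fun g hg => iv t ht.1.1 g hg.1 hg.2) ⟨r2, r3⟩)
        exact ⟨e2, h.KK e2 (by rw [mul_smul, ht.1.1.1.sw ht.2, hs.2])⟩
      · have := split Λ (w = ·)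
        rw [one_fib hw] at this
        exact Nat.mul_le_mul_right _ (by omega)
  have b3 := h.cn
  obtain ⟨j, hj⟩ := h.kodd he
  rw [b0] at b1 b2
  generalize #(K x ⊓ K c : Subgroup G) = m at *
  obtain ⟨m, rfl⟩ : ∃ m', m = m' + 1 := ⟨m - 1, by omega⟩
  rw [Nat.add_sub_cancel] at b2
  subst a2
  have : m ≤ 2 := by
    by_contra H
    have p : 0 < (m + 1 + 1) * ((m + 1) * (m + 1)) := by positivity
    nlinarith
  interval_cases m <;> omega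

end Rk
end Cfsg.Agent.GW.RK
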