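import Mathlib
import Cfsg.Agent.GW.Rk2

/-! Rank 3 groups with a Frobenius subconstituent: semiregular kernels, first cases. -/
set_option autoImplicit false
set_option linter.unusedSectionVars false
namespace Cfsg.Agent.GW.RK
open Set MulAction Cfsg.Agent.FT Cfsg.Agent.GW.ON

variable {G X : Type*} [Group G] [MulAction G X] [Finite G] [Finite X]

/-- Semiregular kernels. -/
def Sr (a : X → X → Prop) (K : X → Subgroup G) : Prop :=
  ∀ x y, Na a x y → ∀ g ∈ K x, g • y = y → g = 1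

/-- Involutions with fixed points mapping `x` to `y`. -/
def Jf (G : Type*) [Group G] [MulAction G X] (x y : X) : Set G :=
  {t | (Iv t ∧ ∃ p : X, t • p = p) ∧ t • x = y}

theorem jf_le (g : G) (x y : X) : (Jf G x y).ncard ≤ (Jf G (g • x) (g • y)).ncard :=
  inj_le (fun t => g * t * g⁻¹) (fun t ht => ⟨⟨ht.1.1.cj g, ht.1.2.elim fun p e =>
    ⟨g • p, by rw [cj_smul, e]⟩⟩, by rw [cj_smul, ht.2]⟩) fun _ _ _ _ e => by simpa using e

theorem jf_st (x y : X) : (Jf G x y).ncard ≤ #(St G x y) := swap_st fun _ h => ⟨h.1.1, h.2⟩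

theorem all_inv {D : Subgroup G} {S : Set G} {s : G} (hs : s ∈ S) (h1 : ∀ t ∈ S, Iv t ∧ s * t ∈ D)
    (h2 : #D ≤ S.ncard) : ∀ g ∈ D, s * g ∈ S ∧ s * g * s = g⁻¹ := fun g hg => by
  have : (s * ·) '' S = D := eq_of_subset_of_ncard_le (by rintro _ ⟨t, ht, rfl⟩; exact (h1 t ht).2)
    (by rw [ncard_image_of_injective _ (mul_right_injective s), sub_card]; exact h2)
  obtain ⟨t, ht, rfl⟩ := this.ge hg
  have e : s * (s * t) = t := by rw [← mul_assoc, (h1 s hs).1.2, one_mul]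
  exact ⟨e.symm ▸ ht, by rw [e, mul_inv_rev, (h1 s hs).1.inv, (h1 t ht).1.inv]⟩

theorem idx2 {D E : Subgroup G} (hle : D ≤ E) (hc : #E = 2 * #D) {y : G} (hy : y ∈ E) (ny : y ∉ D) :
    ∀ g ∈ E, g ∈ D ∨ y⁻¹ * g ∈ D := fun g hg => by
  have : (D : Set G) ∪ (y * ·) '' D = E := eq_of_subset_of_ncard_le
    (by rintro _ (h | ⟨t, ht, rfl⟩); exacts [hle h, E.mul_mem hy (hle ht)]) (by
      rw [ncard_union_eq (by
        rw [Set.disjoint_left]; rintro _ h ⟨t, ht, rfl⟩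
        exact ny (by simpa using D.mul_mem h (D.inv_mem ht))),
        ncard_image_of_injective _ (mul_right_injective y), sub_card, sub_card]; omega)
  rcases this.ge hg with h | ⟨t, ht, rfl⟩
  · exact Or.inl h
  · exact Or.inr (by simpa using ht)

namespace Rk
variable {a : X → X → Prop} {K : X → Subgroup G} {k e L l : ℕ} (h : Rk a K k e L l)
  {x y u v w p b c d : X} {g r s t z : G}
include h

theorem jfA (k1 : a x y) (k2 : a u v) : (Jf G x y).ncard = (Jf G u v).ncard := by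
  obtain ⟨g, rfl, rfl⟩ := h.tA k1 k2
  exact (jf_le g x y).antisymm (by simpa using jf_le g⁻¹ (g • x) (g • y))

theorem jfN (k1 : Na a x y) (k2 : Na a u v) : (Jf G x y).ncard = (Jf G u v).ncard := by
  obtain ⟨g, rfl, rfl⟩ := h.tN k1 k2
  exact (jf_le g x y).antisymm (by simpa using jf_le g⁻¹ (g • x) (g • y))

theorem L0 : 0 < L := by
  obtain ⟨x, y, -, n, -⟩ := h.c1
  exact h.cL n ▸ Nat.card_pos

theorem Le (S : Sr a K) : L ∣ e := by
  obtain ⟨x, y, -, n, -⟩ := h.c1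
  refine (Nat.Coprime.dvd_mul_left ?_).1 (Dvd.intro_left l h.lL)
  refine Nat.Coprime.symm (Nat.coprime_of_dvd fun p hp h1 h2 => ?_)
  have : Fact p.Prime := ⟨hp⟩
  obtain ⟨g, hg⟩ := exists_prime_orderOf_dvd_card' (G := St G x y) p (h.cL n ▸ h2)
  have g1 : (g : G) ≠ 1 := fun e => by
    rw [show g = 1 from Subtype.ext e, orderOf_one] at hg; exact hp.one_lt.ne hg
  obtain ⟨w, k1, k2⟩ := h.nK g.2.1 fun H => g1 (S x y n g H g.2.2)
  have := orderOf_dvd_of_pow_eq_one (h.pe k1 g.2.1 k2)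
  rw [Subgroup.orderOf_coe, hg] at this
  exact hp.one_lt.ne' (Nat.eq_one_of_dvd_coprimes h.cop h1 this)

theorem cfix (S : Sr a K) (n : Na a x c) (hz : z ∈ St G x c) (z1 : z ≠ 1)
    (hc : ∀ g ∈ St G x c, g * z = z * g) : ∃ b, a x b ∧ ∀ g ∈ St G x c, g • b = b := by
  obtain ⟨b, k1, k2⟩ := h.nK hz.1 fun H => z1 (S x c n z H hz.2)
  exact ⟨b, k1, fun g hg => h.uq z1 hz.1 (h.fa hg.1 k1) k1
    (by rw [← mul_smul, ← hc g hg, mul_smul, k2]) k2⟩

theorem partner (n : Na a x c) (hz : z ∈ St G x c) (z1 : z ≠ 1) (k1 : a x b) (k2 : a c d)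
    (f1 : ∀ g ∈ St G x c, g • b = b) (f2 : ∀ g ∈ St G x c, g • d = d) :
    Na a x d ∧ ∃ y : G, y • x = x ∧ y • b = b ∧ y • c = d := by
  have m : Na a x d := ⟨fun e => n.2 (h.symm (e ▸ k2)), fun H => n.1 <| h.uq z1 (f2 z hz)
    (h.symm H) (h.symm k2) hz.1 hz.2⟩
  obtain ⟨y, e1, e2⟩ := h.tN n m
  have : St G x c = St G x d := Subgroup.eq_of_le_of_card_ge (fun g hg => ⟨hg.1, f2 g hg⟩)
    (by rw [h.cL n, h.cL m])
  have k3 : y * z * y⁻¹ ∈ St G x c := this.ge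
    ⟨show _ • x = x by nth_rw 1 [← e1]; rw [cj_smul, show z • x = x from hz.1, e1],
      show _ • d = d by rw [← e2, cj_smul, show z • c = c from hz.2]⟩
  exact ⟨m, y, e1, h.uq (conj_ne_one.2 z1) k3.1 (h.fa e1 k1) k1 (by rw [cj_smul, f1 z hz])
    (f1 _ k3), e2⟩

theorem even_e' (NZ : ∀ x y, Na a x y → ∀ z ∈ Z(K x), z • y = y → z = 1) : 2 ∣ e := by
  by_contra he
  have hk : 2 ∣ k := by
    by_contra hk
    have o1 : Odd (k * e) := Nat.odd_mul.2 ⟨Nat.odd_iff.2 (by omega), Nat.odd_iff.2 (by omega)⟩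
    have o2 := (Nat.odd_mul.1 (h.lL ▸ o1)).1
    have := h.ev
    rw [h.cG, h.cn] at this
    exact (Nat.odd_mul.2 ⟨by rw [Nat.odd_iff] at *; omega, o1⟩).not_two_dvd_nat this
  have fx : ∀ {x y t}, t ≠ 1 → t ∈ Z(K x) → t • y = y → x = y := fun {x y t} t1 ht e =>
    by_contra fun n => t1 (by by_cases H : a x y; exacts [h.K1 ht.1 H e, NZ _ _ ⟨n, H⟩ _ ht e])
  have ex : ∀ x, ∃ t, Iv t ∧ t ∈ Z(K x) := fun x => by
    have k1 := (h.nil x).meet_cen (pcore_nml {2} (K x))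
      ((h.nil x).pcore_ne_bot ⟨Nat.prime_two, h.cK x ▸ hk⟩ rfl)
    obtain ⟨t, k2, k3⟩ := exists_iv (PiGrp.dvd (p := 2) ((pcore_pi {2} (K x)).mono inf_le_left) k1)
    exact ⟨t, k3, pcore_le _ _ k2.1, k2.2⟩
  have lo : ∀ x, e ≤ {t | Iv t ∧ t ∈ Z(K x)}.ncard := fun x => by
    obtain ⟨t, k1, k2⟩ := ex x
    obtain ⟨y, k3⟩ := h.exA x
    rw [← h.ce k3, ← sub_card]
    refine inj_le (fun g => g * t * g⁻¹) (fun g hg => ⟨k1.cj g, by
      simpa only [show g • x = x from hg.1] using h.Zcj g k2⟩) fun g hg s hs e => ?_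
    have m := mul_mem (inv_mem hs) hg
    have := h.K1 (h.cK' k2.1 k1.1 m.1 (by
      rw [mul_assoc, mul_inv_eq_iff_eq_mul.1 e]; group)) k3 m.2
    exact (inv_mul_eq_one.1 this).symm
  obtain ⟨x, -⟩ := h.c1
  set C := {t : G | Iv t ∧ ∃ p, t ∈ Z(K p) ∧ ¬ x = p} with hC
  have b1 := dc {p | p ∈ univ ∧ ¬ x = p} C (fun p t => t ∈ Z(K p)) (c := e) (d := 1)
    (fun p hp => (lo p).trans (ncard_le_ncard fun t ht => ⟨⟨ht.1, p, ht.2, hp.2⟩, ht.2⟩))
    fun t ht => le_one fun p hp q hq => fx ht.1.1 hp.2 (h.Kf hq.2.1)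
  have b2 := split univ (x = ·)
  rw [one_fib (mem_univ x), ncard_univ, h.cn] at b2
  have b3 := split C fun t => a x (t • x)
  have b4 := fib_le {t | t ∈ C ∧ a x (t • x)} {y | a x y} (· • x) (d := e) (fun t ht => ht.2)
    fun y hy => h.ce hy ▸ swap_st fun t ht => ⟨ht.1.1.1, ht.2⟩
  have b5 := fib_le {t | t ∈ C ∧ ¬ a x (t • x)} {y | Na a x y} (· • x) (d := e - 1) (fun t ht => by
    obtain ⟨p, k1, k2⟩ := ht.1.2
    exact ⟨fun e => k2 (fx ht.1.1.1 k1 e.symm).symm, ht.2⟩) fun y hy => by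
      by_cases S : Sr a K
      · by_contra H
        have le := Nat.le_of_dvd (by have := h.e2; omega) (h.Le S)
        set J := {t | t ∈ {t | t ∈ C ∧ ¬ a x (t • x)} ∧ t • x = y}
        obtain ⟨s, hs⟩ := (ncard_pos (toFinite J)).1 (by omega)
        have i1 := all_inv (D := St G x y) hs (fun t ht => ⟨ht.1.1.1, show _ • x = x by
          rw [mul_smul, ht.2, hs.1.1.1.sw hs.2], show _ • y = y by
          rw [mul_smul, ht.1.1.1.sw ht.2, hs.2]⟩) (by rw [h.cL hy]; omega)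
        have ab : ∀ g ∈ St G x y, ∀ r ∈ St G x y, g * r = r * g := fun g hg r hr =>
          inv_ab hs.1.1.1 (fun g hg => (i1 g hg).2) hg hr
        have le2 : J.ncard ≤ L := h.cL hy ▸ swap_st fun t ht => ⟨ht.1.1.1, ht.2⟩
        obtain ⟨z, hz, z1⟩ := ((St G x y).bot_or_exists_ne_one).resolve_left fun e => by
          have := h.cL hy; have := h.e2; simp only [e, Subgroup.card_bot] at *; omega
        obtain ⟨b, k1, k2⟩ := h.cfix S hy hz z1 fun g hg => ab g hg z hz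
        obtain ⟨d, k3, k4⟩ := h.cfix S (h.nsymm hy) ⟨hz.2, hz.1⟩ z1 fun g hg => ab g ⟨hg.2, hg.1⟩ z hz
        obtain ⟨-, g, e1, e2, e3⟩ := h.partner hy hz z1 k1 k3 k2 fun g hg => k4 g ⟨hg.2, hg.1⟩
        have : St G x y = St G x b := Subgroup.eq_of_le_of_card_ge (fun g hg => ⟨hg.1, k2 g hg⟩)
          (by rw [h.cL hy, h.ce k1]; omega)
        exact h.irr k3 ((this.ge ⟨e1, e2⟩).2.symm.trans e3)
      refine (le_one fun s hs t ht => ?_).trans (by have := h.e2; omega)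
      obtain ⟨r, r1, r2⟩ : ∃ r, r ≠ 1 ∧ r ∈ K x ⊓ K y := by
        simp only [Sr, not_forall] at S
        obtain ⟨u, v, n, r', k1, k2, k3⟩ := S
        obtain ⟨g, e1, e2⟩ := h.tN n hy
        exact ⟨_, conj_ne_one.2 k3, e1 ▸ h.Kcj g k1, e2 ▸ h.Kcj g (h.KK k1 k2)⟩
      have key : ∀ t : G, Iv t → t • x = y → ∀ p, t ∈ Z(K p) → ∀ m ∈ K x ⊓ K y, m * t = t * m :=
        fun t ht e1 p hp => by
          obtain ⟨z, z1, z2⟩ := ex x
          have o1 := two_dvd {w | w ∈ {w : X | ∀ m ∈ K x ⊓ K y, m • w = w} ∧ ¬ x = w} (z • ·)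
            (fun w hw => ⟨fun m hm => by
              rw [← mul_smul, mem_cen.1 z2.2 m hm.1, mul_smul, hw.1 m hm],
              (smul_ne z (h.Kf z2.1) (Ne.symm hw.2)).symm⟩) (fun w _ => z1.ss w)
            fun w hw e => hw.2 (fx z1.1 z2 e)
          have o2 := split {w : X | ∀ m ∈ K x ⊓ K y, m • w = w} (x = ·)
          rw [one_fib (T := {w : X | ∀ m ∈ K x ⊓ K y, m • w = w}) fun m hm => h.Kf hm.1] at o2
          by_contra H
          have := two_dvd {w : X | ∀ m ∈ K x ⊓ K y, m • w = w} (t • ·) (fun w hw m hm => by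
            have := hw (t * m * t⁻¹) ⟨ht.sw e1 ▸ h.Kcj t hm.2, e1 ▸ h.Kcj t hm.1⟩
            rw [ht.inv, mul_smul, mul_smul] at this
            exact (ht.sw this).symm) (fun w _ => ht.ss w) fun w hw e => H fun m hm =>
              mem_cen.1 hp.2 m (h.KK hm.1 (fx ht.1 hp e ▸ hw m hm))
          omega
      obtain ⟨p, p1, p2⟩ := hs.1.1.2
      obtain ⟨q, q1, -⟩ := ht.1.1.2
      have i1 := hs.1.1.1
      have i2 := ht.1.1.1
      have e1 : (s * t) • x = x := by rw [mul_smul, ht.2, i1.sw hs.2]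
      have e2 := h.cK' r2.1 r1 e1 (by
        rw [mul_assoc, ← key t i2 ht.2 q q1 r r2, ← mul_assoc, ← key s i1 hs.2 p p1 r r2, mul_assoc])
      have e3 := key s i1 hs.2 p p1 _ ⟨e2, h.KK e2 (by rw [mul_smul, i2.sw ht.2, hs.2])⟩
      rw [mul_assoc, mul_left_cancel_iff] at e3
      have e4 : p = q := (fx i2.1 q1 (MulAction.injective s (by
        show s • t • p = s • p
        rw [← mul_smul, ← e3, mul_smul, h.Kf p1.1]
        exact ((fx i1.1 p1 (by rw [← mul_smul, ← e3, mul_smul, h.Kf p1.1])).symm)))).symm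
      subst e4
      by_contra ne
      exact p2 (fx (fun e => ne (by rw [← i1.inv]; exact inv_eq_of_mul_eq_one_right e))
        (mul_mem p1 q1) e1).symm
  rw [h.ck] at b4
  rw [h.cl] at b5
  have := h.l1
  have := h.e2
  obtain ⟨e, rfl⟩ : ∃ e', e = e' + 1 := ⟨e - 1, by omega⟩
  rw [show {p | p ∈ univ ∧ ¬x = p}.ncard = k + l by omega] at b1
  rw [Nat.add_sub_cancel] at b5
  nlinarith

variable (he : 2 ∣ e) (S : Sr a K)
include he S

theorem ivU' (ne : x ≠ y) (hs : Iv s) (ht : Iv t) (e1 : s • x = x) (e2 : t • x = x)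
    (e3 : s • y = y) (e4 : t • y = y) : s = t := by
  by_cases H : a x y
  · exact h.ivU he H hs ht e1 e2 e3 e4
  have := S x y ⟨ne, H⟩ _ (h.ivM he hs ht e1 e2) (by rw [mul_smul, e4, e3])
  rw [← hs.inv]; exact inv_eq_of_mul_eq_one_right this

theorem ivZ (ne : x ≠ y) (hz : Iv z) (e1 : z • x = x) (e2 : z • y = y)
    (e3 : g • x = x ∧ g • y = y ∨ g • x = y ∧ g • y = x) : g * z = z * g := by
  rw [← mul_inv_eq_iff_eq_mul]
  have k1 : (g * z * g⁻¹) • g • x = g • x := by rw [cj_smul, e1]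
  have k2 : (g * z * g⁻¹) • g • y = g • y := by rw [cj_smul, e2]
  rcases e3 with ⟨e3, e4⟩ | ⟨e3, e4⟩ <;> rw [e3] at k1 <;> rw [e4] at k2
  exacts [h.ivU' he S ne (hz.cj g) hz k1 e1 k2 e2, h.ivU' he S ne (hz.cj g) hz k2 e1 k1 e2]

theorem ivCj (hz : Iv z) (ht : Iv t) (e1 : z • x = x) (e2 : t • y = y) : ∃ g : G, g * z * g⁻¹ = t := by
  obtain ⟨u, k1, k2⟩ := h.ivN he hz e1
  obtain ⟨v, k3, k4⟩ := h.ivN he ht e2
  obtain ⟨g, rfl, rfl⟩ := h.tA k1 k3
  exact ⟨g, h.ivU he k3 (hz.cj g) ht (by rw [cj_smul, e1]) e2 (by rw [cj_smul, k2]) k4⟩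

theorem fixC (hz : Iv z) (ht : Iv t) (e1 : z • x = x) (e2 : t • y = y) :
    {p : X | t • p = p}.ncard = {p : X | z • p = p}.ncard := by
  obtain ⟨g, rfl⟩ := h.ivCj he S hz ht e1 e2
  rw [← ncard_image_of_injective {p : X | z • p = p} (MulAction.injective g)]
  congr 1; ext p
  refine ⟨fun H => ⟨g⁻¹ • p, ?_, smul_inv_smul g p⟩, ?_⟩
  · show z • _ = _
    rw [eq_inv_smul_iff, ← mul_smul, ← mul_smul]; exact H
  · rintro ⟨p, hp, rfl⟩; exact (cj_smul g z p).trans (congrArg _ hp)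

theorem cnt (hz : Iv z) (e1 : z • x = x) (k1 : a x y) (k2 : Na a x w) :
    (1 + k + l) * k = (k + k * (Jf G x y).ncard + l * (Jf G x w).ncard) *
      {p : X | z • p = p}.ncard := by
  set C := {t : G | Iv t ∧ ∃ p : X, t • p = p} with hC
  have b1 := dc_eq univ C (fun (p : X) t => t • p = p) (c := k) (d := {p : X | z • p = p}.ncard)
    (fun p _ => by
      rw [← h.ivC he p]; congr 1; ext t; exact ⟨fun H => ⟨H.1.1, H.2⟩, fun H => ⟨⟨H.1, p, H.2⟩, H.2⟩⟩)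
    fun t ht => by
      obtain ⟨p, hp⟩ := ht.2
      rw [← h.fixC he S hz ht.1 e1 hp]; simp
  rw [← h.cn, ← ncard_univ, b1, split C fun t => x = t • x,
    split {t | t ∈ C ∧ ¬ x = t • x} fun t => a x (t • x),
    fib_eq {t | t ∈ {t | t ∈ C ∧ ¬ x = t • x} ∧ a x (t • x)} {y | a x y} (· • x) (d := (Jf G x y).ncard) (fun t ht => ht.2),
    fib_eq {t | t ∈ {t | t ∈ C ∧ ¬ x = t • x} ∧ ¬ a x (t • x)} {y | Na a x y} (· • x)
      (d := (Jf G x w).ncard) (fun t ht => ⟨ht.1.2, ht.2⟩), h.ck, h.cl, add_assoc]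
  · congr 2
    rw [← h.ivC he x]; congr 1; ext t
    exact ⟨fun H => ⟨H.1.1, H.2.symm⟩, fun H => ⟨⟨H.1, x, H.2⟩, H.2.symm⟩⟩
  · intro v hv
    rw [← h.jfN hv k2]; congr 1; ext t
    exact ⟨fun H => ⟨H.1.1.1, H.2⟩, fun H => ⟨⟨⟨H.1, H.2 ▸ hv.1⟩, H.2 ▸ hv.2⟩, H.2⟩⟩
  · intro v hv
    rw [← h.jfA hv k1]; congr 1; ext t
    exact ⟨fun H => ⟨H.1.1.1, H.2⟩, fun H => ⟨⟨⟨H.1, H.2 ▸ h.irr hv⟩, H.2 ▸ hv⟩, H.2⟩⟩

theorem odd_L (hL : ¬ 2 ∣ L) : Nat.card X = 10 ∧ k = 3 ∧ e = 2 := by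
  have niv : ∀ {x c} {t : G}, Na a x c → Iv t → t ∉ St G x c := fun n ht H => ht.1 (by
    rw [← ht.odd (Nat.odd_iff.2 (by omega) : Odd L), ← h.cL n, pow_card H])
  obtain ⟨x, c, -, n, -⟩ := h.c1
  obtain ⟨b0, k0⟩ := h.exA x
  obtain ⟨z0, z1, z2, z3⟩ := h.exI he k0
  have b1 := h.cnt he S z1 z2 k0 n
  have b2 : {p : X | z0 • p = p}.ncard = 2 := by
    rw [← ncard_pair (h.irr k0)]; congr 1; ext p
    refine ⟨fun H => by_contra fun H' => ?_, by rintro (rfl | rfl) <;> assumption⟩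
    simp only [mem_insert_iff, mem_singleton_iff, not_or] at H'
    by_cases k1 : a x p
    · exact H'.2 (h.uq z1.1 z2 k1 k0 H z3)
    · exact niv ⟨Ne.symm H'.1, k1⟩ z1 ⟨z2, H⟩
  obtain ⟨e', rfl⟩ := h.Le S
  obtain ⟨m, hm⟩ := h.ek
  have L0 := h.L0
  have b3 : l = k * e' := Nat.eq_of_mul_eq_mul_right L0 (by rw [h.lL]; ring)
  have b4 := jf_st (G := G) x b0
  have b5 := jf_st (G := G) x c
  rw [h.ce k0] at b4
  rw [h.cL n] at b5
  have k2 := h.k2
  have e2 : 2 ∣ e' := (Nat.prime_two.dvd_mul.1 he).resolve_left hL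
  have e0 : 0 < e' := by have := h.e2; rcases e' with _ | e' <;> simp at *
  have m0 : 0 < m := by rcases m with _ | m <;> simp at *; omega
  rw [b2, b3] at b1
  have b6 : 1 + k + k * e' = (1 + (Jf G x b0).ncard + e' * (Jf G x c).ncard) * 2 :=
    Nat.eq_of_mul_eq_mul_right (by omega : 0 < k) (by rw [b1]; ring)
  have b7 : e' * (Jf G x c).ncard ≤ L * e' := by rw [mul_comm]; exact Nat.mul_le_mul_right _ b5
  have b8 : m * (1 + e') < 4 := by
    by_contra H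
    have : 4 * (L * e') ≤ m * (1 + e') * (L * e') := Nat.mul_le_mul_right _ (by omega)
    rw [hm] at b6
    nlinarith
  obtain rfl : e' = 2 := by
    by_contra H
    nlinarith [show 4 ≤ e' by omega]
  obtain rfl : m = 1 := by omega
  suffices L = 1 by rw [h.cn]; omega
  by_contra L1
  have j2 : (Jf G x b0).ncard ≤ 2 := by
    obtain ⟨t, ht⟩ := (ncard_pos (toFinite (Jf G x c))).1 (by omega)
    have sub : Jf G x c ⊆ Cl (St G x c) t := fun s hs => by
      have m : s * t ∈ St G x c := ⟨show _ • x = x by rw [mul_smul, ht.2, hs.1.1.sw hs.2],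
        show _ • c = c by rw [mul_smul, ht.1.1.sw ht.2, hs.2]⟩
      obtain ⟨j, hj⟩ : Odd L := Nat.odd_iff.2 (by omega)
      have i1 : t * (s * t) ^ (j + 1) * t⁻¹ = ((s * t) ^ (j + 1))⁻¹ := by
        rw [← conj_pow, ← inv_pow, mul_inv_rev, ht.1.1.inv, hs.1.1.inv, mul_assoc, mul_assoc,
          ht.1.1.2, mul_one]
      refine ⟨_, pow_mem m (j + 1), ?_⟩
      rw [← i1, ← mul_assoc, ← mul_assoc, mul_assoc _ t t, ht.1.1.2, mul_one, ← pow_add,
        show j + 1 + (j + 1) = L + 1 by omega, pow_succ, ← h.cL n, pow_card m]; group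
    have c1 := cls (St G x c) t
    have c2 := ncard_le_ncard sub
    have c3 : #(St G x c ⊓ C[t] : Subgroup G) = 1 := by
      have : 0 < #(St G x c ⊓ C[t] : Subgroup G) := Nat.card_pos
      rw [h.cL n] at c1
      by_contra H
      nlinarith [show 2 ≤ #(St G x c ⊓ C[t] : Subgroup G) by omega]
    have i1 := fpf_inv (D := St G x c) ht.1.1 (fun g hg => ⟨show _ • x = x by
      rw [mul_smul, mul_smul, ht.2, show g • c = c from hg.2, ht.1.1.sw ht.2], show _ • c = c by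
      rw [mul_smul, mul_smul, ht.1.1.sw ht.2, show g • x = x from hg.1, ht.2]⟩) fun g hg e =>
      (Subgroup.eq_bot_iff_forall _).1 (Subgroup.eq_bot_of_card_eq _ c3) g ⟨hg, mem_cen1.2 e⟩
    have ab : ∀ g ∈ St G x c, ∀ r ∈ St G x c, g * r = r * g := fun g hg r hr =>
      inv_ab ht.1.1 i1 hg hr
    obtain ⟨r, hr, r1⟩ := ((St G x c).bot_or_exists_ne_one).resolve_left fun e => by
      have := h.cL n; rw [e, Subgroup.card_bot] at this; omega
    obtain ⟨b, k1, f1⟩ := h.cfix S n hr r1 fun g hg => ab g hg r hr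
    obtain ⟨d, k3, f2⟩ := h.cfix S (h.nsymm n) ⟨hr.2, hr.1⟩ r1 fun g hg => ab g ⟨hg.2, hg.1⟩ r hr
    obtain ⟨-, y, e1, e2, e3⟩ := h.partner (h.nsymm n) ⟨hr.2, hr.1⟩ r1 k3 k1 f2
      fun g hg => f1 g ⟨hg.2, hg.1⟩
    obtain ⟨z, i2, i3, i4⟩ := h.exI he k1
    obtain ⟨s, j1, j2, j3⟩ := h.exI he k3
    have s1 : s • x = b := by
      rcases idx2 (D := St G c x) (E := St G c d) (fun g hg => ⟨hg.1, f2 g hg⟩)
        (by rw [h.ce k3, h.cL (h.nsymm n), mul_comm]) ⟨e1, e2⟩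
        (fun H => h.irr k1 (H.2.symm.trans e3)) s ⟨j2, j3⟩ with H | H
      · exact (niv (h.nsymm n) j1 H).elim
      · have : (y⁻¹ * s) • x = x := H.2
        rwa [mul_smul, inv_smul_eq_iff, e3] at this
    have sz : s * z = z * s := h.ivZ he S (h.irr k1) i2 i3 i4 (Or.inr ⟨s1, j1.sw s1⟩)
    have sD : ∀ g ∈ St G x c, g * s = s * g := fun g hg =>
      h.ivZ he S (h.irr k3) j1 j2 j3 (Or.inl ⟨hg.2, f2 g ⟨hg.2, hg.1⟩⟩)
    rw [h.jfA k0 k1]
    refine le_two s (s * z) fun t ht => ?_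
    have m : s * t ∈ St G x b := ⟨show _ • x = x by rw [mul_smul, ht.2, j1.sw s1],
      show _ • b = b by rw [mul_smul, ht.1.1.sw ht.2, s1]⟩
    have cm : s * t * s = s * (s * t) := by
      rcases idx2 (D := St G x c) (E := St G x b) (fun g hg => ⟨hg.1, f1 g hg⟩)
        (by rw [h.ce k1, h.cL n, mul_comm]) ⟨i3, i4⟩ (niv n i2) _ m with H | H
      · exact sD _ H
      · have := sD _ H
        rw [i2.inv, mul_assoc, ← mul_assoc s z, sz, mul_assoc z s, mul_left_cancel_iff] at this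
        exact this
    have e4 : t = s * (s * t) := by rw [← mul_assoc, j1.2, one_mul]
    by_cases e5 : s * t = 1
    · left; rw [e4, e5, mul_one]
    · right
      rw [e4, h.ivU he k1 ⟨e5, by rw [← mul_assoc, cm, ← e4, ht.1.1.2]⟩ i2 m.1 i3 m.2 i4]
  omega

end Rk
end Cfsg.Agent.GW.RK
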