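import Mathlib
import Cfsg.Agent.GW.Rk3

/-! Rank 3 groups with a Frobenius subconstituent: lemmas on involutions. -/
set_option autoImplicit false
set_option linter.unusedSectionVars false
namespace Cfsg.Agent.GW.RK
open Set MulAction Cfsg.Agent.FT Cfsg.Agent.GW.ON

variable {G : Type*} [Group G] [Finite G] {D W P U R : Subgroup G} {t z c g q w y : G}

/-- A Sylow 2-subgroup covering a 2-quotient. -/
structure Sy (D W R : Subgroup G) : Prop where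
  le : R ≤ W
  pg : PGrp 2 R
  mul : ∀ w ∈ W, ∃ δ ∈ D, ∃ ρ ∈ R, w = δ * ρ
  cj : ∀ P, PGrp 2 P → P ≤ W → ∃ δ ∈ D, ∀ g ∈ P, δ * g * δ⁻¹ ∈ R

theorem exists_sy (hle : D ≤ W) {j : ℕ} (hc : #W = #D * 2 ^ j) (hP : PGrp 2 P) (hW : P ≤ W) :
    ∃ R, P ≤ R ∧ Sy D W R := by
  obtain ⟨R, h1, h2⟩ := hP.exists_syl hW
  have h3 : PiNat {2} (D.relIndex W) := fun p hp hd => by
    rw [← card_mul_relIndex hle, Nat.mul_right_inj Nat.card_pos.ne'] at hc
    exact (Nat.prime_dvd_prime_iff_eq hp Nat.prime_two).1 (hp.dvd_of_dvd_pow (hc ▸ hd))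
  refine ⟨R, h2, h1.le, h1.pi, (h1.mulEq_of_relIndex' hle h3).mul, fun P h4 h5 => ?_⟩
  obtain ⟨g, hg, h6⟩ := h1.syl_Jsub h4 h5
  obtain ⟨ρ, hρ, δ, hδ, rfl⟩ := (h1.mulEq_of_relIndex hle h3).mul g hg
  refine ⟨δ, hδ, fun g hg => ?_⟩
  have := R.mul_mem (R.mul_mem (R.inv_mem hρ) (h6 (conj_mem_cj.2 hg))) hρ
  simpa [mul_assoc] using this

theorem Iv.pg (h : Iv t) : PGrp 2 ⟪t⟫ := (pElt_of_pow_eq_one Nat.prime_two (sq t ▸ h.2)).zpowers

theorem Sy.cj1 (h : Sy D W R) (hg : g ∈ W) (h2 : PGrp 2 ⟪g⟫) : ∃ δ ∈ D, δ * g * δ⁻¹ ∈ R :=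
  (h.cj _ h2 ((Subgroup.zpowers_le (G := G)).2 hg)).imp fun _ H => ⟨H.1, H.2 g (Subgroup.mem_zpowers g)⟩

theorem pow2 (h : PGrp 2 R) (hg : g ∈ R) : ∃ n, g ^ 2 ^ n = 1 := (h.piElt hg).exists_pow

theorem four (uq : ∀ s ∈ U, s * s = 1 → s = 1 ∨ s = z) (n : ℕ) :
    ∀ g ∈ U, g ^ 2 ^ n = 1 → g ≠ 1 → g ≠ z → ∃ i : ℕ, g ^ i * g ^ i = z := by
  induction n with
  | zero => exact fun g _ e h _ => (h (by simpa using e)).elim
  | succ n ih =>
    intro g hg e h1 h2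
    by_cases h3 : g * g = z
    · exact ⟨1, by simpa using h3⟩
    obtain ⟨i, hi⟩ := ih (g * g) (U.mul_mem hg hg) (by rw [← sq, ← pow_mul, ← pow_succ', e])
      (fun e => (uq g hg e).elim h1 h2) h3
    exact ⟨2 * i, by rw [pow_mul, sq, hi]⟩

theorem card_le2 (h : ∀ s ∈ U, s = 1 ∨ s = z) : #U ≤ 2 := sub_card U ▸ le_two 1 z h

theorem exists_four (uq : ∀ s ∈ U, s * s = 1 → s = 1 ∨ s = z) (h : PGrp 2 U) (h2 : 2 < #U) :
    ∃ w ∈ U, w * w = z := by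
  by_contra H
  refine (card_le2 (z := z) fun s hs => by_contra fun H' => H ?_).not_gt h2
  obtain ⟨n, e⟩ := pow2 h hs
  obtain ⟨i, e⟩ := four uq n s hs e (fun e => H' (Or.inl e)) fun e => H' (Or.inr e)
  exact ⟨_, U.pow_mem hs i, e⟩

theorem pm (uq : ∀ s ∈ U, s * s = 1 → s = 1 ∨ s = z) (ab : ∀ a ∈ U, ∀ b ∈ U, a * b = b * a)
    (hz : z * z = 1) (hw : w ∈ U) (e : w * w = z) (hg : g ∈ U) (e' : g * g = z) :
    g = w ∨ g = w⁻¹ := by
  refine (uq (g * w⁻¹) (U.mul_mem hg (U.inv_mem hw)) ?_).imp mul_inv_eq_one.1 fun H => ?_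
  · rw [mul_assoc, ← mul_assoc w⁻¹, ab _ (U.inv_mem hw) g hg, mul_assoc, ← mul_inv_rev, ← mul_assoc,
      e, e', mul_inv_cancel]
  · rw [mul_inv_eq_iff_eq_mul.1 H, eq_inv_iff_mul_eq_one, mul_assoc, e, hz]

theorem pm_cent (h1 : g * w * g⁻¹ = w ∨ g * w * g⁻¹ = w⁻¹) (h2 : y * w * y⁻¹ = w ∨ y * w * y⁻¹ = w⁻¹) :
    y * (g * y * g⁻¹) * w = w * (y * (g * y * g⁻¹)) := by
  have k : ∀ {a : G}, a * w * a⁻¹ = w⁻¹ → a * w⁻¹ * a⁻¹ = w := fun {a} e => by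
    rw [← conj_inv, e, inv_inv]
  have k' : ∀ {a : G}, a * w * a⁻¹ = w → a * w⁻¹ * a⁻¹ = w⁻¹ := fun {a} e => by rw [← conj_inv, e]
  have k1 : g⁻¹ * w * g = w ∧ g * w * g⁻¹ = w ∧ g * w⁻¹ * g⁻¹ = w⁻¹ ∨
      g⁻¹ * w * g = w⁻¹ ∧ g * w * g⁻¹ = w⁻¹ ∧ g * w⁻¹ * g⁻¹ = w := h1.imp
    (fun e => ⟨by nth_rw 1 [← e]; group, e, k' e⟩) fun e => ⟨by nth_rw 1 [← k e]; group, e, k e⟩
  rw [← mul_inv_eq_iff_eq_mul, show y * (g * y * g⁻¹) * w * (y * (g * y * g⁻¹))⁻¹ =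
    y * (g * (y * (g⁻¹ * w * g) * y⁻¹) * g⁻¹) * y⁻¹ by group]
  rcases k1 with ⟨a1, a2, a3⟩ | ⟨a1, a2, a3⟩ <;> rcases h2 with e | e
  · rw [a1, e, a2, e]
  · rw [a1, e, a3, k e]
  · rw [a1, k' e, a3, e]
  · rw [a1, k e, a2, k e]

theorem half {H : Subgroup G} (hle : H ≤ D) (h : #D < 2 * #H) : D ≤ H := by
  obtain ⟨m, hm⟩ := card_dvd hle
  have := card_pos D
  obtain rfl : m = 1 := by
    rcases m with _ | _ | m
    · omega
    · rfl
    · nlinarith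
  exact (Subgroup.eq_of_le_of_card_ge hle (by omega)).ge

theorem inter {S T : Set G} (hS : S ⊆ D) (hT : T ⊆ D) :
    S.ncard + T.ncard ≤ #D + (S ∩ T).ncard := by
  have := ncard_inter_add_ncard_union S T
  have := ncard_le_ncard (union_subset hS hT)
  rw [sub_card] at this; omega

theorem three_four (hc : Iv c) (h : 3 * #D < 4 * {g | g ∈ D ∧ c * g * c = g⁻¹}.ncard) :
    ∀ g ∈ D, c * g * c = g⁻¹ := by
  set I := {g | g ∈ D ∧ c * g * c = g⁻¹}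
  have cm : ∀ a b : G, c * (a * b) * c = c * a * c * (c * b * c) := fun a b => by
    rw [show c * a * c * (c * b * c) = c * a * (c * c) * b * c by group, hc.2]; group
  have k : ∀ x ∈ D, (I ∩ (x * ·) '' I).ncard + #D ≥ 2 * I.ncard := fun x hx => by
    have := inter (D := D) (S := I) (T := (x * ·) '' I) (fun _ h => h.1)
      (by rintro _ ⟨a, ha, rfl⟩; exact D.mul_mem hx ha.1)
    rw [ncard_image_of_injective _ (mul_right_injective x)] at this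
    omega
  have k1 : ∀ x ∈ I, D ≤ D ⊓ C[x] := fun x hx => half inf_le_left (by
    have := k x hx.1
    have : (I ∩ (x * ·) '' I).ncard ≤ #(D ⊓ C[x] : Subgroup G) := by
      rw [← sub_card]
      refine ncard_le_ncard ?_
      rintro _ ⟨h1, a, ha, rfl⟩
      have := h1.2
      rw [cm, hx.2, ha.2, ← mul_inv_rev, inv_inj] at this
      exact ⟨h1.1, mem_cen1.2 (by rw [mul_assoc, this])⟩
    omega)
  intro g hg
  obtain ⟨_, h1, a, ha, rfl⟩ := (ncard_pos (toFinite (I ∩ (g * ·) '' I))).1 (by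
    have := k g hg; have := card_pos D; omega)
  have : c * (g * a) * c = (g * a)⁻¹ := h1.2
  rwa [cm, ha.2, mem_cen1.1 (k1 a ha hg).2, mul_inv_rev, mul_left_inj] at this

theorem dicho (hR : PGrp 2 R) (hU : U ≤ R) (hn : R ≤ N(U)) (htR : t ∈ R) (ht : Iv t)
    (hc : #(U ⊓ C[t] : Subgroup G) ≤ 2) (hq : q ∈ U) (iq : t * q * t = q⁻¹) (nq : t * q ∉ Cl U t) :
    ∀ u ∈ U, t * u * t = u⁻¹ := by
  have q1 : q ≠ 1 := fun e => nq ⟨1, U.one_mem, by simp [e]⟩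
  have lt := hR.comm_lt (hR.mono hU) hn fun e => q1 ((Subgroup.eq_bot_iff_forall _).1 e q hq)
  set W := ⁅U, R⁆
  have c1 := cls U t
  have c2 : 2 * #W ≤ #U := by_contra fun H => lt.not_ge (half lt.le (by omega))
  have m : ∀ s ∈ Cl U t, Iv s ∧ t * s ∈ W := by
    rintro _ ⟨u, hu, rfl⟩
    refine ⟨ht.cj u, ?_⟩
    have := W.inv_mem (Subgroup.commutator_mem_commutator hu htR)
    rwa [commutatorElement_inv, commutatorElement_def, ht.inv, mul_assoc, mul_assoc,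
      ← mul_assoc u] at this
  have i1 := all_inv (D := W) (S := Cl U t) ⟨1, U.one_mem, by simp⟩ m (by nlinarith)
  have c3 : (Cl U t).ncard ≤ #W := swap_le W fun s hs r hr => by
    have := W.mul_mem (W.inv_mem (m s hs).2) (m r hr).2
    rwa [mul_inv_rev, (m s hs).1.inv, mul_assoc, inv_mul_cancel_left] at this
  have nW : q ∉ W := fun H => nq (i1 q H).1
  have ix := idx2 lt.le (by nlinarith) hq nW
  have ab : ∀ a ∈ W, ∀ b ∈ W, a * b = b * a := fun a ha b hb => inv_ab ht (fun g hg => (i1 g hg).2) ha hb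
  have q2 : q * q ∈ W := (ix _ (U.mul_mem hq hq)).resolve_right (by simpa using nW)
  have cm : ∀ a b : G, t * (a * b) * t = t * a * t * (t * b * t) := fun a b => by
    rw [show t * a * t * (t * b * t) = t * a * (t * t) * b * t by group, ht.2]; group
  have st : ∀ x ∈ W, ∃ i : ℤ, ∃ y ∈ W, x = (q * q) ^ i * y ^ 2 := fun x hx => by
    obtain ⟨u, hu, e⟩ := (i1 x hx).1
    have e1 : x = t * u * t * u⁻¹ := by
      rw [mul_assoc, mul_assoc, ← mul_assoc u, e, ← mul_assoc, ht.2, one_mul]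
    rcases ix u hu with H | H
    · exact ⟨0, u⁻¹, W.inv_mem H, by rw [e1, (i1 u H).2, sq]; simp⟩
    · refine ⟨-1, q * (q⁻¹ * u)⁻¹ * q⁻¹, mem_nrm.1 (Subgroup.normalizer_commutator_ge_left U R hq) _
        (W.inv_mem H), ?_⟩
      have e2 : t * u * t = q⁻¹ * (q⁻¹ * u)⁻¹ := by
        rw [← (i1 _ H).2]; nth_rw 1 [← iq]; rw [← cm]; group
      rw [e1, e2, sq]; group
  have st2 : ∀ n : ℕ, ∀ x ∈ W, ∃ i : ℤ, ∃ y ∈ W, x = (q * q) ^ i * y ^ 2 ^ n := fun n => by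
    induction n with
    | zero => exact fun x hx => ⟨0, x, hx, by simp⟩
    | succ n ih =>
      intro x hx
      obtain ⟨i, y, hy, rfl⟩ := ih x hx
      obtain ⟨j, v, hv, rfl⟩ := st y hy
      refine ⟨i + j * 2 ^ n, v, hv, ?_⟩
      rw [(show Commute _ _ from ab _ (W.zpow_mem q2 j) _ (W.pow_mem hv 2)).mul_pow, zpow_add,
        zpow_mul, ← pow_mul, ← pow_succ', mul_assoc]
      norm_cast
  intro u hu
  rcases ix u hu with H | H
  · exact (i1 u H).2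
  obtain ⟨n, hn⟩ := hR.card
  obtain ⟨i, y, hy, e⟩ := st2 n _ H
  rw [← hn, pow_card (hU (lt.le hy)), mul_one] at e
  have e1 : u = q * (q⁻¹ * u) := by group
  rw [e1, cm, iq, (i1 _ H).2, e, ← sq, ← zpow_natCast, ← zpow_mul]; group

end Cfsg.Agent.GW.RK
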