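import Mathlib
import Cfsg.Agent.GW.Rk5

/-! Rank 3 groups with a Frobenius subconstituent: reflections in lines. -/
set_option autoImplicit false
set_option linter.unusedSectionVars false
namespace Cfsg.Agent.GW.RK
open Set MulAction Cfsg.Agent.FT Cfsg.Agent.GW.ON
open scoped Pointwise

variable {G X : Type*} [Group G] [MulAction G X] [Finite G] [Finite X]

open Classical in
/-- The neighbour fixed by an involution. -/
noncomputable def pt (a : X → X → Prop) (z : G) (p : X) : X :=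
  if h : ∃ q, a p q ∧ z • q = q then h.choose else p

/-- Two edges fixed by an involution. -/
structure Ev (a : X → X → Prop) (z : G) (x b c d : X) : Prop where
  iv : Iv z
  zx : z • x = x
  zb : z • b = b
  zc : z • c = c
  zd : z • d = d
  ab : a x b
  cd : a c d
  n : Na a x c

/-- The stabilizer of four points. -/
abbrev Wq (G : Type*) [Group G] [MulAction G X] (x b c d : X) : Subgroup G :=
  stabilizer G ({x, b, c, d} : Set X)

theorem memW {x b c d : X} {g : G} : g ∈ Wq G x b c d ↔ ∀ p ∈ ({x, b, c, d} : Set X),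
    g • p ∈ ({x, b, c, d} : Set X) := by
  rw [mem_stabilizer_set_iff_smul_set_subset (toFinite _)]
  exact ⟨fun H p hp => H ⟨p, hp, rfl⟩, by rintro H _ ⟨p, hp, rfl⟩; exact H p hp⟩

theorem mem2 {x b : X} {g : G} : g ∈ stabilizer G ({x, b} : Set X) ↔
    g • x = x ∧ g • b = b ∨ g • x = b ∧ g • b = x := by
  rw [mem_stabilizer_iff, smul_set_insert, smul_set_singleton, pair_eq_pair_iff]

namespace Rk
variable {a : X → X → Prop} {K : X → Subgroup G} {k e L l : ℕ} (h : Rk a K k e L l)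
  {x y u v w p q b c d : X} {g r s t z : G} (he : 2 ∣ e) (S : Sr a K)
include h

theorem mvp (hz : Iv z) (cm : g * z = z * g) (H : a u v) (zu : z • u = u) (zv : z • v = v)
    (e1 : g • u = p) (H' : a p q) (zq : z • q = q) : g • v = q := by
  subst e1
  exact h.uq hz.1 (by rw [← mul_smul, ← cm, mul_smul, zu]) (h.inv g H) H'
    (by rw [← mul_smul, ← cm, mul_smul, zv]) zq

theorem s2 (E : Ev a z x b c d) : Ev a z x b d c :=
  ⟨E.iv, E.zx, E.zb, E.zd, E.zc, E.ab, h.symm E.cd, fun e => E.n.2 (h.symm (e ▸ E.cd)), fun H =>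
    E.n.1 (h.uq E.iv.1 E.zd (h.symm H) (h.symm E.cd) E.zx E.zc)⟩

theorem s3 (E : Ev a z x b c d) : Ev a z c d x b :=
  ⟨E.iv, E.zc, E.zd, E.zx, E.zb, E.cd, E.ab, h.nsymm E.n⟩

theorem s1 (E : Ev a z x b c d) : Ev a z b x c d := h.s3 (h.s2 (h.s3 E))

include he

theorem pt1 (hz : Iv z) (e1 : z • p = p) : a p (pt a z p) ∧ z • pt a z p = pt a z p := by
  have := h.ivN he hz e1
  rw [pt, dif_pos this]; exact this.choose_spec

theorem ptU (hz : Iv z) (e1 : z • p = p) (H : a p q) (e2 : z • q = q) : pt a z p = q :=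
  h.uq hz.1 e1 (h.pt1 he hz e1).1 H (h.pt1 he hz e1).2 e2

theorem ptpt (hz : Iv z) (e1 : z • p = p) : pt a z (pt a z p) = p :=
  h.ptU he hz (h.pt1 he hz e1).2 (h.symm (h.pt1 he hz e1).1) e1

theorem ptc (hz : Iv z) (cm : g * z = z * g) (e1 : z • p = p) : pt a z (g • p) = g • pt a z p :=
  h.ptU he hz (by rw [← mul_smul, ← cm, mul_smul, e1]) (h.inv g (h.pt1 he hz e1).1)
    (by rw [← mul_smul, ← cm, mul_smul, (h.pt1 he hz e1).2])

theorem mkEv (hz : Iv z) (e1 : z • x = x) (e2 : z • c = c) (n : Na a x c) :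
    Ev a z x (pt a z x) c (pt a z c) :=
  ⟨hz, e1, (h.pt1 he hz e1).2, e2, (h.pt1 he hz e2).2, (h.pt1 he hz e1).1, (h.pt1 he hz e2).1, n⟩

include S

theorem uqD (E : Ev a z x b c d) : ∀ s ∈ St G x c, s * s = 1 → s = 1 ∨ s = z := fun _ hs e =>
  or_iff_not_imp_left.2 fun s1 => h.ivU' he S E.n.1 ⟨s1, e⟩ E.iv hs.1 E.zx hs.2 E.zc

theorem fQ (E : Ev a z x b c d) (hg : g ∈ St G x c) : ∀ p ∈ ({x, b, c, d} : Set X), g • p = p := by
  have cm := h.ivZ he S E.n.1 E.iv E.zx E.zc (Or.inl hg)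
  rintro _ (rfl | rfl | rfl | rfl)
  exacts [hg.1, h.mvp E.iv cm E.ab E.zx E.zb hg.1 E.ab E.zb, hg.2,
    h.mvp E.iv cm E.cd E.zc E.zd hg.2 E.cd E.zd]

theorem fb (E : Ev a z x b c d) (hg : g ∈ St G x c) : g • b = b := h.fQ he S E hg b (by simp)
theorem fd (E : Ev a z x b c d) (hg : g ∈ St G x c) : g • d = d := h.fQ he S E hg d (by simp)

theorem DW (E : Ev a z x b c d) : St G x c ≤ Wq G x b c d := fun _ hg =>
  memW.2 fun p hp => (h.fQ he S E hg p hp).symm ▸ hp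

theorem nD (E : Ev a z x b c d) (hg : g ∈ Wq G x b c d) (hs : s ∈ St G x c) :
    g * s * g⁻¹ ∈ St G x c := by
  have k : ∀ p ∈ ({x, b, c, d} : Set X), (g * s * g⁻¹) • p = p := fun p hp => by
    rw [mul_smul, mul_smul, h.fQ he S E hs _ (memW.1 (inv_mem hg) p hp), smul_inv_smul]
  exact ⟨k x (by simp), k c (by simp)⟩

theorem Wz (E : Ev a z x b c d) (hg : g ∈ Wq G x b c d) : g * z = z * g :=
  mul_inv_eq_iff_eq_mul.1 <| (h.uqD he S E _ (h.nD he S E hg ⟨E.zx, E.zc⟩) (E.iv.cj g).2).resolve_left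
    (E.iv.cj g).1

theorem trE (E : Ev a z x b c d) (n : Na a x p) (e1 : z • p = p) :
    ∃ g : G, g • x = x ∧ g • b = b ∧ g • c = p ∧ g * z = z * g := by
  obtain ⟨g, e2, e3⟩ := h.tN E.n n
  have cm := mul_inv_eq_iff_eq_mul.1 <| h.ivU' he S n.1 (E.iv.cj g) E.iv
    (by nth_rw 1 [← e2]; rw [cj_smul, E.zx, e2]) E.zx (by rw [← e3, cj_smul, E.zc]) e1
  exact ⟨g, e2, h.mvp E.iv cm E.ab E.zx E.zb e2 E.ab E.zb, e3, cm⟩

theorem exY (E : Ev a z x b c d) : ∃ g : G, g • x = x ∧ g • b = b ∧ g • c = d ∧ g • d = c := by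
  obtain ⟨g, e1, e2, e3, cm⟩ := h.trE he S E (h.s2 E).n E.zd
  exact ⟨g, e1, e2, e3, h.mvp E.iv cm E.cd E.zc E.zd e3 (h.symm E.cd) E.zc⟩

theorem sw (E : Ev a z x b c d) (e1 : g • x = c) (e2 : g • c = x) : g • b = d ∧ g • d = b := by
  have cm := h.ivZ he S E.n.1 E.iv E.zx E.zc (Or.inr ⟨e1, e2⟩)
  exact ⟨h.mvp E.iv cm E.ab E.zx E.zb e1 E.cd E.zd, h.mvp E.iv cm E.cd E.zc E.zd e2 E.ab E.zb⟩

theorem exG (E : Ev a z x b c d) : ∃ g : G, g • x = c ∧ g • c = x ∧ g • b = d ∧ g • d = b := by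
  obtain ⟨g, e1, e2⟩ := h.tN E.n (h.nsymm E.n)
  exact ⟨g, e1, e2, h.sw he S E e1 e2⟩

theorem cW (E : Ev a z x b c d) : #(Wq G x b c d) = #(St G x c) * 2 ^ 3 := by
  obtain ⟨y, y1, y2, y3, y4⟩ := h.exY he S E
  obtain ⟨g, g1, g2, g3, g4⟩ := h.exG he S E
  have yW : y ∈ Wq G x b c d := memW.2 (by simp [*])
  have gW : g ∈ Wq G x b c d := memW.2 (by simp [*])
  have n1 := h.irr E.ab
  have n2 := h.irr E.cd
  have n3 := E.n.1
  have n4 := (h.s2 E).n.1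
  have n5 := (h.s1 E).n.1
  have n6 := (h.s1 (h.s2 E)).n.1
  have k1 := orb (Wq G x b c d) x {x, b, c, d} fun p => ⟨by
    rintro (rfl | rfl | rfl | rfl)
    exacts [⟨1, one_mem _, one_smul _ _⟩, ⟨g * (y * g), mul_mem gW (mul_mem yW gW), by
      simp [mul_smul, *]⟩, ⟨g, gW, g1⟩, ⟨y * g, mul_mem yW gW, by simp [mul_smul, *]⟩],
    by rintro ⟨w, hw, rfl⟩; exact memW.1 hw x (by simp)⟩
  have k2 := orb (Wq G x b c d ⊓ stabilizer G x) c {c, d} fun p => ⟨by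
    rintro (rfl | rfl)
    exacts [⟨1, one_mem _, one_smul _ _⟩, ⟨y, ⟨yW, y1⟩, y3⟩], by
    rintro ⟨w, hw, rfl⟩
    rcases memW.1 hw.1 c (by simp) with H | H | H
    · exact (smul_ne w hw.2 n3.symm H).elim
    · exact (smul_ne w (h.mvp E.iv (h.Wz he S E hw.1) E.ab E.zx E.zb hw.2 E.ab E.zb) n5.symm H).elim
    · exact H⟩
  rw [inf_assoc, inf_eq_right.2 (h.DW he S E), ncard_pair n2] at k2
  rw [ncard_insert_of_notMem (by simp [*]), ncard_insert_of_notMem (by simp [*]), ncard_pair n2] at k1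
  omega

theorem exR (E : Ev a z x b c d) {P : Subgroup G} (hP : PGrp 2 P) (hW : P ≤ Wq G x b c d) :
    ∃ R, P ≤ R ∧ Sy (St G x c) (Wq G x b c d) R :=
  exists_sy (h.DW he S E) (h.cW he S E) hP hW

theorem rep (E : Ev a z x b c d) {R : Subgroup G} (hR : Sy (St G x c) (Wq G x b c d) R)
    (hg : g ∈ Wq G x b c d) : ∃ ρ ∈ R, ρ • x = g • x ∧ ρ • b = g • b ∧ ρ • c = g • c ∧ ρ • d = g • d := by
  obtain ⟨δ, k1, ρ, k2, rfl⟩ := hR.mul g hg
  have k : ∀ p ∈ ({x, b, c, d} : Set X), ρ • p = (δ * ρ) • p := fun p hp => by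
    rw [mul_smul, h.fQ he S E k1 _ (memW.1 (hR.le k2) p hp)]
  exact ⟨ρ, k2, k _ (by simp), k _ (by simp), k _ (by simp), k _ (by simp)⟩

theorem repY (E : Ev a z x b c d) {R : Subgroup G} (hR : Sy (St G x c) (Wq G x b c d) R) :
    ∃ g ∈ R, g • x = x ∧ g • b = b ∧ g • c = d ∧ g • d = c := by
  obtain ⟨y, y1, y2, y3, y4⟩ := h.exY he S E
  simpa only [y1, y2, y3, y4] using h.rep he S E hR (g := y) (memW.2 (by simp [*]))

theorem zR (E : Ev a z x b c d) {R : Subgroup G} (hR : Sy (St G x c) (Wq G x b c d) R) : z ∈ R := by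
  obtain ⟨δ, k1, k2⟩ := hR.cj1 (h.DW he S E ⟨E.zx, E.zc⟩) E.iv.pg
  rwa [h.Wz he S E (h.DW he S E k1), mul_inv_cancel_right] at k2

theorem cent4 (E : Ev a z x b c d) {R : Subgroup G} (hR : Sy (St G x c) (Wq G x b c d) R)
    (ab : ∀ g ∈ R ⊓ St G x c, ∀ r ∈ R ⊓ St G x c, g * r = r * g) (hr : r ∈ R ⊓ St G x c)
    (e1 : r * r = z) (ht : t ∈ R) (t1 : t • x = b) (t2 : t • c = d) : t * r = r * t := by
  obtain ⟨y, yR, y1, y2, y3, y4⟩ := h.repY he S E hR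
  obtain ⟨g0, g1, g2, g3, g4⟩ := h.exG he S E
  obtain ⟨g, gR, g5⟩ := h.rep he S E hR (g := g0) (memW.2 (by simp [*]))
  rw [g1, g2, g3, g4] at g5
  have k : ∀ ρ ∈ R, ρ * r * ρ⁻¹ = r ∨ ρ * r * ρ⁻¹ = r⁻¹ := fun ρ hρ =>
    pm (U := R ⊓ St G x c) (fun s hs => h.uqD he S E s hs.2) ab E.iv.2 hr e1
      ⟨R.mul_mem (R.mul_mem hρ hr.1) (R.inv_mem hρ), h.nD he S E (hR.le hρ) hr.2⟩
      (by rw [conj_mul, e1, h.Wz he S E (hR.le hρ), mul_inv_cancel_right])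
  have k1 := pm_cent (k g gR) (k y yR)
  have k2 := ab ((y * (g * y * g⁻¹))⁻¹ * t) ⟨R.mul_mem (R.inv_mem (R.mul_mem yR (R.mul_mem
    (R.mul_mem gR yR) (R.inv_mem gR)))) ht, show _ • x = x by
      rw [mul_smul, t1, inv_smul_eq_iff, mul_smul]; nth_rw 1 [← g5.2.2.1]
      rw [cj_smul, y3, g5.2.2.2, y2], show _ • c = c by
      rw [mul_smul, t2, inv_smul_eq_iff, mul_smul]; nth_rw 1 [← g5.1]
      rw [cj_smul, y1, g5.1, y3]⟩ r hr
  generalize y * (g * y * g⁻¹) = u at k1 k2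
  calc t * r = u * (u⁻¹ * t * r) := by group
    _ = _ := by rw [k2, ← mul_assoc, k1]; group

variable (hL : 2 ∣ L)
include hL

theorem exIv (ne : x ≠ y) : ∃ z : G, Iv z ∧ z • x = x ∧ z • y = y := by
  by_cases H : a x y
  · exact h.exI he H
  obtain ⟨t, k1, k2⟩ := exists_iv (H := St G x y) (h.cL ⟨ne, H⟩ ▸ hL)
  exact ⟨t, k2, k1⟩

theorem semi (hz : Iv z) (e1 : z • p = p) (cm : g * z = z * g) (e2 : g • p = p) (e3 : g • q = q)
    (e4 : z • q ≠ q) : g = 1 := by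
  obtain ⟨k1, k2⟩ := h.pt1 he hz e1
  have k3 := h.mvp hz cm k1 e1 k2 e2 k1 k2
  by_cases H : a p q
  · exact h.f1 k1 H (fun e => e4 (e ▸ k2)) e2 k3 e3
  have ne : p ≠ q := fun e => e4 (e ▸ e1)
  obtain ⟨s, s1, s2, s3⟩ := h.exIv he S hL ne
  obtain ⟨k4, k5⟩ := h.pt1 he s1 s2
  exact h.f1 k1 k4 (fun e => e4 (h.ivU he k1 hz s1 e1 s2 k2 (e ▸ k5) ▸ s3)) e2 k3
    (h.mvp s1 (h.ivZ he S ne s1 s2 s3 (Or.inl ⟨e2, e3⟩)) k4 s2 k5 e2 k4 k5)

theorem exEv : ∃ (z : G) (x b c d : X), Ev a z x b c d := by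
  obtain ⟨x, c, -, n, -⟩ := h.c1
  obtain ⟨z, k1, k2, k3⟩ := h.exIv he S hL n.1
  exact ⟨z, _, _, _, _, h.mkEv he k1 k2 k3 n⟩

omit hL in
theorem fixN (E : Ev a z x b c d) : {p | Na a x p ∧ z • p = p}.ncard * L = e := by
  have := orb (St G x b) c {p | Na a x p ∧ z • p = p} fun p => ⟨fun H => by
    obtain ⟨g, e1, e2, e3, -⟩ := h.trE he S E H.1 H.2
    exact ⟨g, ⟨e1, e2⟩, e3⟩, by
    rintro ⟨g, hg, rfl⟩
    exact ⟨h.fn hg.1 E.n, by
      rw [← mul_smul, ← h.ivZ he S (h.irr E.ab) E.iv E.zx E.zb (Or.inl hg), mul_smul, E.zc]⟩⟩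
  rwa [h.ce E.ab, show St G x b ⊓ stabilizer G c = St G x c from le_antisymm
    (fun g hg => ⟨hg.1.1, hg.2⟩) fun g hg => ⟨⟨hg.1, h.fb he S E hg⟩, hg.2⟩, h.cL E.n] at this

omit hL in
theorem fixA (E : Ev a z x b c d) :
    {p : X | z • p = p}.ncard = 2 + {p | Na a x p ∧ z • p = p}.ncard := by
  rw [split _ (Na a x), add_comm, ← ncard_pair (h.irr E.ab)]
  congr 2 <;> ext p
  · refine ⟨fun H => by_contra fun H' => H.2 ⟨fun e => H' (Or.inl e.symm), fun k =>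
      H' (Or.inr (h.uq E.iv.1 E.zx k E.ab H.1 E.zb))⟩, ?_⟩
    rintro (rfl | rfl)
    exacts [⟨E.zx, fun H => H.1 rfl⟩, ⟨E.zb, fun H => H.2 E.ab⟩]
  · exact and_comm

/-- A subgroup centralizing a second reflection acts freely on its line. -/
theorem free (hz : Iv z) (e1 : z • x = x) (ht : Iv t) (e2 : t • p = p) (ne : t • x ≠ x)
    {P : Subgroup G} (hP : P ≤ stabilizer G x ⊓ C[t]) : #P ∣ {p : X | z • p = p}.ncard := by
  rw [← h.fixC he S hz ht e1 e2]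
  exact PP.card_dvd_of_free P _ (fun g hg q hq => show t • _ = _ by
    rw [← mul_smul, ← mem_cen1.1 (hP hg).2, mul_smul, show t • q = q from hq]) fun q hq g hg e =>
    h.semi he S hL ht hq (mem_cen1.1 (hP hg).2) e (hP hg).1 ne

omit hL in
theorem sqr (ht : Iv t) (e2 : t • p = p) {P : Subgroup G} (hP : PGrp 2 P) (hc : P ≤ C[t])
    (ns : ∀ g ∈ P, g * g ≠ t) : #P ≤ {p : X | t • p = p}.ncard * 2 := by
  rw [← orb P p _ fun _ => Iff.rfl]
  refine Nat.mul_le_mul (ncard_le_ncard ?_) (not_lt.1 fun H => ?_)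
  · rintro _ ⟨g, hg, rfl⟩
    show t • _ = _
    rw [← mul_smul, ← mem_cen1.1 (hc hg), mul_smul, e2]
  obtain ⟨k1, k2⟩ := h.pt1 he ht e2
  obtain ⟨w, hw, e⟩ := exists_four (z := t) (U := P ⊓ stabilizer G p) (fun s hs e => or_iff_not_imp_left.2 fun s1 =>
    h.ivU he k1 ⟨s1, e⟩ ht hs.2 e2 (h.mvp ht (mem_cen1.1 (hc hs.1)) k1 e2 k2 hs.2 k1 k2) k2)
    (hP.mono inf_le_left) H
  exact ns w hw.1 e

end Rk
end Cfsg.Agent.GW.RK
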