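import Mathlib
import Cfsg.Agent.GW.Rk6

/-! Rank 3 groups with a Frobenius subconstituent: lines of size `2 mod 4`. -/
set_option autoImplicit false
set_option linter.unusedSectionVars false
namespace Cfsg.Agent.GW.RK
open Set MulAction Cfsg.Agent.FT Cfsg.Agent.GW.ON
open scoped Pointwise

variable {G X : Type*} [Group G] [MulAction G X] [Finite G] [Finite X]

theorem of_le2 {U : Subgroup G} {z : G} (h : #U ≤ 2) (hz : z ∈ U) (z1 : z ≠ 1) :
    ∀ u ∈ U, u = 1 ∨ u = z := fun u hu => by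
  have : ({1, z} : Set G) = U := eq_of_subset_of_ncard_le
    (by rintro _ (rfl | rfl); exacts [U.one_mem, hz]) (by rwa [ncard_pair z1.symm, sub_card])
  exact this.ge hu

theorem mem_cl (H : Subgroup G) (t : G) : t ∈ Cl H t := ⟨1, H.one_mem, by simp⟩

theorem cl_trans {H : Subgroup G} {s t r : G} (h1 : s ∈ Cl H t) (h2 : s ∈ Cl H r) : r ∈ Cl H t := by
  obtain ⟨a, ha, rfl⟩ := h1
  obtain ⟨b, hb, e⟩ := h2
  exact ⟨b⁻¹ * a, H.mul_mem (H.inv_mem hb) ha, by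
    rw [show b⁻¹ * a * t * (b⁻¹ * a)⁻¹ = b⁻¹ * (a * t * a⁻¹) * b by group, ← e]; group⟩

theorem two_cl {H : Subgroup G} {t r : G} (h : r ∉ Cl H t) (h1 : #(H ⊓ C[t] : Subgroup G) ≤ 2)
    (h2 : #(H ⊓ C[r] : Subgroup G) ≤ 2) : #H ≤ (Cl H t ∪ Cl H r).ncard := by
  rw [ncard_union_eq (Set.disjoint_left.2 fun s k1 k2 => h (cl_trans k1 k2))]
  have := cls H t
  have := cls H r
  nlinarith

theorem jf_cj {x y : X} {t g : G} (ht : t ∈ Jf G x y) (e1 : g • x = x) (e2 : g • y = y) :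
    g * t * g⁻¹ ∈ Jf G x y :=
  ⟨⟨ht.1.1.cj g, ht.1.2.elim fun p e => ⟨g • p, by rw [cj_smul, e]⟩⟩, by
    nth_rw 1 [← e1]; rw [cj_smul, ht.2, e2]⟩

theorem jf_mul {x y : X} {s t : G} (hs : Iv s) (ht : Iv t) (e1 : s • x = y) (e2 : t • x = y) :
    s * t ∈ St G x y := ⟨show _ • x = x by rw [mul_smul, e2, hs.sw e1], show _ • y = y by
      rw [mul_smul, ht.sw e2, e1]⟩

namespace Rk
variable {a : X → X → Prop} {K : X → Subgroup G} {k e L l : ℕ} (h : Rk a K k e L l)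
  {x y u v w p q b c d : X} {g r s t z : G} (he : 2 ∣ e) (S : Sr a K)
include h he

theorem tfree (hz : Iv z) (ht : Iv t) (cm : t * z = z * t) (ne : t ≠ z) (e1 : z • p = p) :
    t • p ≠ p := fun e => by
  obtain ⟨k1, k2⟩ := h.pt1 he hz e1
  exact ne (h.ivU he k1 ht hz e e1 (h.mvp hz cm k1 e1 k2 e k1 k2) k2)

theorem edge (hz : Iv z) (ht : Iv t) (cm : t * z = z * t) (ne : t ≠ z) (Y : Set X)
    (hY : ∀ p ∈ Y, z • p = p ∧ t • p ∈ Y ∧ pt a z p ∈ Y) (h4 : ¬ 4 ∣ Y.ncard) :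
    ∃ p ∈ Y, t • p = pt a z p := by
  by_contra H
  exact h4 (four_dvd Y (t • ·) (pt a z) (fun p hp => (hY p hp).2.1) (fun p _ => ht.ss p)
    (fun p hp => h.tfree he hz ht cm ne (hY p hp).1) (fun p hp => (hY p hp).2.2)
    (fun p hp => h.ptpt he hz (hY p hp).1) (fun p hp => (h.irr (h.pt1 he hz (hY p hp).1).1).symm)
    (fun p hp => (h.ptc he hz cm (hY p hp).1).symm) fun p hp e => H ⟨p, hp, e⟩)

theorem cN (H : a x b) : #(stabilizer G ({x, b} : Set X)) = #(St G x b) * 2 ^ 1 := by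
  obtain ⟨g, g1, g2⟩ := h.tA H (h.symm H)
  have := orb (stabilizer G ({x, b} : Set X)) x {x, b} fun p => ⟨by
    rintro (rfl | rfl)
    exacts [⟨1, one_mem _, one_smul _ _⟩, ⟨g, mem2.2 (Or.inr ⟨g1, g2⟩), g1⟩], by
    rintro ⟨w, hw, rfl⟩; rcases mem2.1 hw with H | H <;> simp [H.1]⟩
  rw [ncard_pair (h.irr H), show stabilizer G ({x, b} : Set X) ⊓ stabilizer G x = St G x b from
    le_antisymm (fun w hw => (mem2.1 hw.1).resolve_right fun k => h.irr H (hw.2.symm.trans k.1))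
    fun w hw => ⟨mem2.2 (Or.inl hw), hw.1⟩] at this
  omega

include S

theorem cd2 (E : Ev a z x b c d) (hg : g ∈ Wq G x b c d) (e1 : g • x = x) :
    g • b = b ∧ (g • c = c ∧ g • d = d ∨ g • c = d ∧ g • d = c) := by
  have cm := h.Wz he S E hg
  have e2 := h.mvp E.iv cm E.ab E.zx E.zb e1 E.ab E.zb
  refine ⟨e2, ?_⟩
  rcases memW.1 hg c (by simp) with H | H | H | H
  · exact (smul_ne g e1 E.n.1.symm H).elim
  · exact (smul_ne g e2 (h.s1 E).n.1.symm H).elim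
  · exact Or.inl ⟨H, h.mvp E.iv cm E.cd E.zc E.zd H E.cd E.zd⟩
  · exact Or.inr ⟨H, h.mvp E.iv cm E.cd E.zc E.zd H (h.symm E.cd) E.zc⟩

theorem ysq (E : Ev a z x b c d) (e1 : g • x = x) (e2 : g • b = b) (e3 : g • c = d) : g * g ≠ 1 :=
  fun e => h.irr E.cd (by
    rw [← e3, h.ivU he E.ab ⟨fun e => h.irr E.cd (by rw [← e3, e, one_smul]), e⟩ E.iv e1 E.zx e2 E.zb,
      E.zc])

variable (hL : 2 ∣ L) (h4 : ¬ 4 ∣ {p : X | z • p = p}.ncard)
include hL h4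

theorem small (hz : Iv z) (e1 : z • x = x) (ht : Iv t) (e2 : t • p = p) (ne : t • x ≠ x)
    {P : Subgroup G} (hP : PGrp 2 P) (hle : P ≤ stabilizer G x) : #(P ⊓ C[t] : Subgroup G) ≤ 2 := by
  have := h.free he S hL hz e1 ht e2 ne (inf_le_inf_right C[t] hle)
  obtain ⟨n, hn⟩ := (hP.mono (inf_le_left (b := C[t]))).card
  rw [hn] at this ⊢
  rcases n with _ | _ | n
  · omega
  · omega
  · exact (h4 (Dvd.dvd.trans ⟨2 ^ n, by ring⟩ this)).elim

theorem no_mm (E : Ev a z x b c d) (ht : Iv t) (e2 : t • p = p) (t1 : t • x = b) (t2 : t • c = d) :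
    False := by
  have t3 := ht.sw t1
  have t4 := ht.sw t2
  have tW : t ∈ Wq G x b c d := memW.2 (by simp [*])
  obtain ⟨R, tR, hR⟩ := h.exR he S E ht.pg ((Subgroup.zpowers_le (G := G)).2 tW)
  replace tR := tR (Subgroup.mem_zpowers t)
  obtain ⟨y, yR, y1, y2, y3, y4⟩ := h.repY he S E hR
  have zU : z ∈ R ⊓ St G x c := ⟨h.zR he S E hR, E.zx, E.zc⟩
  have sm := h.small he S hL h4 E.iv E.zx ht e2 (t1 ▸ (h.irr E.ab).symm)
    (hR.pg.mono (inf_le_left (b := stabilizer G x))) inf_le_right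
  have c1 := orb (R ⊓ stabilizer G x) c {c, d} fun p => ⟨by
    rintro (rfl | rfl)
    exacts [⟨1, one_mem _, one_smul _ _⟩, ⟨y, ⟨yR, y1⟩, y3⟩], by
    rintro ⟨w, hw, rfl⟩
    rcases (h.cd2 he S E (hR.le hw.1) hw.2).2 with H | H <;> simp [H.1]⟩
  rw [ncard_pair (h.irr E.cd), inf_assoc] at c1
  have c2 := cls (R ⊓ stabilizer G x) t
  have i1 := all_inv (D := R ⊓ St G x c) (mem_cl (R ⊓ stabilizer G x) t) (by
    rintro _ ⟨g, hg, rfl⟩
    obtain ⟨k1, k2⟩ := h.cd2 he S E (hR.le hg.1) hg.2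
    have k3 : (g * t * g⁻¹) • x = b := by
      nth_rw 1 [← show g • x = x from hg.2]; rw [cj_smul, t1, k1]
    have k4 : (g * t * g⁻¹) • c = d := by
      rcases k2 with k2 | k2
      · nth_rw 1 [← k2.1]; rw [cj_smul, t2, k2.2]
      · nth_rw 1 [← k2.2]; rw [cj_smul, t4, k2.1]
    exact ⟨ht.cj g, R.mul_mem tR (R.mul_mem (R.mul_mem hg.1 tR) (R.inv_mem hg.1)),
      show _ • x = x by rw [mul_smul, k3, t3], show _ • c = c by rw [mul_smul, k4, t4]⟩)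
    (by nlinarith)
  by_cases H : 2 < #(R ⊓ St G x c : Subgroup G)
  · obtain ⟨w, hw, e⟩ := exists_four (U := R ⊓ St G x c) (fun s hs => h.uqD he S E s hs.2)
      (hR.pg.mono inf_le_left) H
    have := h.cent4 he S E hR (fun g hg r hr => inv_ab ht (fun g hg => (i1 g hg).2) hg hr) hw e tR t1 t2
    have k := (i1 w hw).2
    rw [this, mul_assoc, ht.2, mul_one] at k
    exact E.iv.1 (by rw [← e]; nth_rw 1 [k]; rw [inv_mul_cancel])
  have k := of_le2 (not_lt.1 H) zU E.iv.1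
  have k1 := (k (y * y) ⟨R.mul_mem yR yR, show _ • x = x by rw [mul_smul, y1, y1],
    show _ • c = c by rw [mul_smul, y3, y4]⟩).resolve_left (h.ysq he S E y1 y2 y3)
  have k2 := (k (t * y * (t * y)) ⟨R.mul_mem (R.mul_mem tR yR) (R.mul_mem tR yR),
    show _ • x = x by simp [mul_smul, *], show _ • c = c by simp [mul_smul, *]⟩).resolve_left
    (h.ysq he S (h.s3 E) (by simp [mul_smul, *]) (by simp [mul_smul, *]) (by simp [mul_smul, *]))
  rw [← k1, ← mul_assoc, mul_left_inj] at k2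
  rcases of_le2 sm (z := z) ⟨⟨zU.1, E.zx⟩, mem_cen1.2 (h.Wz he S E tW).symm⟩ E.iv.1 y ⟨⟨yR, y1⟩,
    mem_cen1.2 (by nth_rw 1 [← k2]; rw [mul_assoc, ht.2, mul_one])⟩ with rfl | rfl
  · exact h.irr E.cd (by simpa using y3)
  · exact h.irr E.cd (E.zc.symm.trans y3)

theorem one_cl (E : Ev a z x b c d) (ht : t ∈ Jf G x b) : Jf G x b = Cl (St G x b) t := by
  refine Subset.antisymm (fun s hs => ?_) (by rintro _ ⟨g, hg, rfl⟩; exact jf_cj ht hg.1 hg.2)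
  have mN : ∀ s ∈ Jf G x b, s ∈ stabilizer G ({x, b} : Set X) := fun s hs =>
    mem2.2 (Or.inr ⟨hs.2, hs.1.1.sw hs.2⟩)
  obtain ⟨R, tR, hR⟩ := exists_sy (fun g hg => mem2.2 (Or.inl hg)) (h.cN he E.ab) ht.1.1.pg
    ((Subgroup.zpowers_le (G := G)).2 (mN t ht))
  replace tR := tR (Subgroup.mem_zpowers t)
  obtain ⟨δ, k1, k2⟩ := hR.cj1 (mN s hs) hs.1.1.pg
  have k3 := jf_cj hs k1.1 k1.2
  by_contra H
  have sm : ∀ s ∈ Jf G x b, #((R ⊓ St G x b) ⊓ C[s] : Subgroup G) ≤ 2 := fun s hs =>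
    hs.1.2.elim fun p e => h.small he S hL h4 E.iv E.zx hs.1.1 e (hs.2 ▸ (h.irr E.ab).symm)
      (hR.pg.mono inf_le_left) fun g hg => hg.2.1
  have m : ∀ s ∈ Jf G x b, s ∈ R → ∀ r ∈ Cl (R ⊓ St G x b) s, Iv r ∧ t * r ∈ R ⊓ St G x b := by
    rintro s hs sR _ ⟨g, hg, rfl⟩
    have := jf_cj hs hg.2.1 hg.2.2
    exact ⟨this.1.1, R.mul_mem tR (R.mul_mem (R.mul_mem hg.1 sR) (R.inv_mem hg.1)),
      jf_mul ht.1.1 this.1.1 ht.2 this.2⟩
  have m' : ∀ r ∈ Cl (R ⊓ St G x b) t ∪ Cl (R ⊓ St G x b) (δ * s * δ⁻¹),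
    Iv r ∧ t * r ∈ R ⊓ St G x b := fun r hr => hr.elim (m t ht tR r) (m _ k3 k2 r)
  have i1 := all_inv (D := R ⊓ St G x b) (Or.inl (mem_cl _ t)) m' (two_cl (fun ⟨g, hg, e⟩ =>
    H (cl_trans (s := δ * s * δ⁻¹) ⟨g, hg.2, e⟩ ⟨δ, k1, rfl⟩)) (sm t ht) (sm _ k3))
  obtain ⟨R', -, hR'⟩ := h.exR he S (h.s3 E) (P := ⊥) (fun p hp hd => by simp [hp.ne_one] at hd) bot_le
  obtain ⟨y, yR, y1, y2, y3, y4⟩ := h.repY he S (h.s3 E) hR'
  obtain ⟨γ, k4, k5⟩ := hR.cj1 (mem2.2 (Or.inr ⟨y3, y4⟩))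
    (hR'.pg.mono ((Subgroup.zpowers_le (G := G)).2 yR))
  have k6 := (m' _ (i1 (t * (γ * y * γ⁻¹)) ⟨R.mul_mem tR k5, show _ • x = x by
    rw [mul_smul]; nth_rw 1 [← show γ • x = x from k4.1]
    rw [cj_smul, y3, show γ • b = b from k4.2, ht.1.1.sw ht.2], show _ • b = b by
    rw [mul_smul]; nth_rw 1 [← show γ • b = b from k4.2]
    rw [cj_smul, y4, show γ • x = x from k4.1, ht.2]⟩).1).1.2
  rw [← mul_assoc t t, ht.1.1.2, one_mul, conj_mul, conj_eq_one_iff] at k6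
  exact h.ysq he S (h.s3 E) y1 y2 y3 k6

theorem v_odd (E : Ev a z x b c d) : False := by
  set T := {t : G | (Iv t ∧ ∃ p : X, t • p = p) ∧ t * z = z * t ∧ t ≠ z} with hT
  set F := {p : X | z • p = p} with hF
  have b1 := dc_eq T {p | p ∈ univ ∧ ¬ z • p = p} (fun t p => t • p = p) (c := F.ncard) (d := 1)
    (fun t ht => by
      obtain ⟨q, hq⟩ := ht.1.2
      rw [← h.fixC he S E.iv ht.1.1 E.zx hq]; congr 1; ext p
      exact ⟨fun H => H.2, fun H => ⟨⟨trivial, fun e =>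
        h.tfree he E.iv ht.1.1 ht.2.1 ht.2.2 e H⟩, H⟩⟩) fun p hp => by
      obtain ⟨t, k1, k2, k3⟩ := h.exIv he S hL (Ne.symm hp.2)
      refine ncard_eq_one.2 ⟨t, ?_⟩
      ext s
      refine ⟨fun H => h.ivU' he S (Ne.symm hp.2) H.1.1.1 k1 H.2 k2 (by
        rw [← mul_smul, H.1.2.1, mul_smul, H.2]) k3, ?_⟩
      rintro rfl
      exact ⟨⟨⟨k1, p, k2⟩, (h.ivZ he S (Ne.symm hp.2) k1 k2 k3 (Or.inr ⟨rfl, E.iv.ss p⟩)).symm,
        fun e => hp.2 (e ▸ k2)⟩, k2⟩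
  have ed : ∀ t ∈ T, ∃ p ∈ F, t • p = pt a z p := fun t ht =>
    h.edge he E.iv ht.1.1 ht.2.1 ht.2.2 F (fun p hp => ⟨hp, show z • _ = _ by
      rw [← mul_smul, ← ht.2.1, mul_smul, show z • p = p from hp], (h.pt1 he E.iv hp).2⟩) h4
  have b2 := dc_eq T F (fun t p => t • p = pt a z p) (c := 2) (d := (Jf G x b).ncard)
    (fun t ht => by
      obtain ⟨p, k1, k2⟩ := ed t ht
      obtain ⟨k3, k4⟩ := h.pt1 he E.iv k1
      rw [← ncard_pair (h.irr k3)]; congr 1; ext q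
      refine ⟨fun H => by_contra fun H' => ?_, ?_⟩
      · simp only [mem_insert_iff, mem_singleton_iff, not_or] at H'
        obtain ⟨u, hu⟩ := ht.1.2
        exact h.no_mm he S hL h4 (h.mkEv he E.iv k1 H.1 ⟨Ne.symm H'.1, fun k =>
          H'.2 (h.ptU he E.iv k1 k H.1).symm⟩) ht.1.1 hu k2 H.2
      · rintro (rfl | rfl)
        exacts [⟨k1, k2⟩, ⟨k4, by rw [h.ptpt he E.iv k1, ht.1.1.sw k2]⟩]) fun p hp => by
      obtain ⟨k3, k4⟩ := h.pt1 he E.iv hp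
      rw [← h.jfA k3 E.ab]; congr 1; ext t
      exact ⟨fun H => ⟨H.1.1, H.2⟩, fun H => ⟨⟨H.1, h.ivZ he S (h.irr k3) E.iv hp k4
        (Or.inr ⟨H.2, H.1.1.sw H.2⟩), fun e => h.irr k3 (by rw [← H.2, e, show z • p = p from hp])⟩,
        H.2⟩⟩
  have b3 := split univ fun p : X => z • p = p
  rw [ncard_univ, h.cn, show {p | p ∈ univ ∧ z • p = p} = F by ext; simp [hF]] at b3
  have b4 := h.fixN he S E
  have b5 := h.fixA he S E
  have b6 : 0 < {p | Na a x p ∧ z • p = p}.ncard := (ncard_pos (toFinite _)).2 ⟨c, E.n, E.zc⟩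
  obtain ⟨m, hm⟩ := h.ek
  have L0 := h.L0
  have k2 := h.k2
  rw [← hF] at b5
  generalize {p | Na a x p ∧ z • p = p}.ncard = e' at *
  have b7 : l = k * e' := Nat.eq_of_mul_eq_mul_right L0 (by rw [h.lL, ← b4]; ring)
  have b8 : T.ncard * (2 + e') = m * e * (1 + e') := by
    rw [b5] at b1 b3; rw [b7, hm] at b3; nlinarith
  have b9 : 0 < (Jf G x b).ncard := by
    have : 0 < m * e * (1 + e') := Nat.mul_pos (by omega) (by omega)
    rw [← b8] at this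
    nlinarith [Nat.pos_of_mul_pos_right this, Nat.pos_of_ne_zero (n := (Jf G x b).ncard)]
  obtain ⟨t, ht⟩ := (ncard_pos (toFinite _)).1 b9
  have c1 := cls (St G x b) t
  rw [← h.one_cl he S hL h4 E ht, h.ce E.ab] at c1
  rw [b5] at b2
  have c2 : (2 + e') * (2 + e') = (1 + e') * (2 * m * #(St G x b ⊓ C[t] : Subgroup G)) :=
    Nat.eq_of_mul_eq_mul_left b9 (by
      calc _ = (2 + e') * (Jf G x b).ncard * (2 + e') := by ring
        _ = 2 * (T.ncard * (2 + e')) := by rw [← b2]; ring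
        _ = _ := by rw [b8, ← c1]; ring)
  have c3 : 1 + e' ∣ (1 + e') * (3 + e') + 1 := ⟨_, by rw [← c2]; ring⟩
  have := Nat.le_of_dvd one_pos ((Nat.dvd_add_right (Dvd.intro _ rfl)).1 c3)
  omega

end Rk
end Cfsg.Agent.GW.RK
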