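import Mathlib
import Cfsg.Agent.GW.Rk4
import Cfsg.Agent.GW.Rk7

/-! Rank 3 groups with a Frobenius subconstituent: lines of size `0 mod 4`, preparations. -/
set_option autoImplicit false
set_option linter.unusedSectionVars false
namespace Cfsg.Agent.GW.RK
open Set MulAction Cfsg.Agent.FT Cfsg.Agent.GW.ON
open scoped Pointwise

theorem arith {L e' ρ k n : ℕ} {N : ℤ} (h4 : 4 ∣ L) (L0 : 0 < L)
    (he : e' = 2 ∨ e' = 6 ∨ e' = 10 ∧ 3 ∣ L) (hk : k = L * e' + 1) (hn : n = 1 + k + k * e')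
    (h1 : ρ * ρ + 4 * L = L * L + 4 * k) (h2 : N * ρ = L * n - L - 2 * k) : L = 4 := by
  obtain ⟨δ, rfl⟩ : ∃ δ, ρ = L + δ := ⟨ρ - L, by
    have : L ≤ ρ := by by_contra H; rcases he with rfl | rfl | ⟨rfl, -⟩ <;> nlinarith
    omega⟩
  have h3 : 2 * δ * L + δ * δ + 4 * L = 4 * k := by nlinarith
  rcases he with rfl | rfl | ⟨rfl, h⟩
  · obtain rfl : δ = 2 := by
      rcases Nat.lt_trichotomy δ 2 with H | H | H
      · interval_cases δ <;> omega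
      · exact H
      · nlinarith
    have : (L + 2 : ℤ) ∣ 24 := ⟨N - 6 * L + 13, by
      subst hn hk; push_cast at h2; linear_combination (-1) * h2⟩
    have h5 := Int.le_of_dvd (by norm_num) this
    have : L + 2 ∣ 24 := by exact_mod_cast this
    have : L ≤ 22 := by omega
    interval_cases L <;> omega
  · have : δ < 10 := by nlinarith
    interval_cases δ <;> omega
  · have : δ < 18 := by nlinarith
    have : L = 24 ∧ δ = 14 := by interval_cases δ <;> omega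
    obtain ⟨rfl, rfl⟩ := this
    subst hn hk
    omega

variable {G X : Type*} [Group G] [MulAction G X] [Finite G] [Finite X]

theorem big4 {P : Subgroup G} {x b c d : X} (h : ({x, b, c, d} : Set X).ncard = 4)
    (h1 : ∃ g ∈ P, g • x = b) (h2 : ∃ g ∈ P, g • x = c) (h3 : ∃ g ∈ P, g • x = d) :
    4 * #(P ⊓ stabilizer G x : Subgroup G) ≤ #P := by
  rw [← orb P x _ fun _ => Iff.rfl, ← h]
  refine Nat.mul_le_mul_right _ (ncard_le_ncard ?_)
  rintro _ (rfl | rfl | rfl | rfl)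
  exacts [⟨1, one_mem _, one_smul _ _⟩, h1, h2, h3]

/-- Reflections swapping both edges. -/
def Im (G : Type*) [Group G] [MulAction G X] (x b c d : X) : Set G := {t | t ∈ Jf G x b ∧ t • c = d}

theorem im_mul {x b c d : X} {s t : G} (hs : s ∈ Im G x b c d) (ht : t ∈ Im G x b c d) :
    s * t ∈ St G x c := ⟨show _ • x = x by rw [mul_smul, ht.1.2, hs.1.1.1.sw hs.1.2],
      show _ • c = c by rw [mul_smul, ht.2, hs.1.1.1.sw hs.2]⟩

namespace Rk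
variable {a : X → X → Prop} {K : X → Subgroup G} {k e L l : ℕ} (h : Rk a K k e L l)
  {x y u v w p q b c d : X} {g r s t z : G} (he : 2 ∣ e) (S : Sr a K)
include h

theorem q4 (E : Ev a z x b c d) : ({x, b, c, d} : Set X).ncard = 4 := by
  have n1 := h.irr E.ab
  have n3 := E.n.1
  have n4 := (h.s2 E).n.1
  have n5 := (h.s1 E).n.1
  have n6 := (h.s1 (h.s2 E)).n.1
  rw [ncard_insert_of_notMem (by simp [*]), ncard_insert_of_notMem (by simp [*]),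
    ncard_pair (h.irr E.cd)]

theorem trI (hk : k = e + 1) (k1 : a x y) (k2 : a x u) (n2 : y ≠ u) (k3 : a x v) (n3 : y ≠ v) :
    ∃ g ∈ St G x y, g • u = v := by
  have c1 := orb (St G x y) u _ fun _ => Iff.rfl
  rw [(Subgroup.eq_bot_iff_forall (St G x y ⊓ stabilizer G u)).2 fun g hg =>
    h.f1 k1 k2 n2 hg.1.1 hg.1.2 hg.2, Subgroup.card_bot, mul_one, h.ce k1] at c1
  have c2 := split {w | a x w} (y = ·)
  rw [one_fib (T := {w | a x w}) k1, h.ck] at c2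
  have : {b | ∃ g ∈ St G x y, g • u = b} = {w | w ∈ {w | a x w} ∧ ¬ y = w} :=
    eq_of_subset_of_ncard_le (by
      rintro _ ⟨g, hg, rfl⟩; exact ⟨h.fa hg.1 k2, (smul_ne g hg.2 n2.symm).symm⟩)
      (le_of_eq_of_le (by omega) c1.ge)
  exact this.ge ⟨k3, n3⟩

theorem lam0 (hk : k = e + 1) (k1 : a x y) (k2 : a x w) : ¬ a y w := fun H => by
  obtain ⟨x', y', w', m1, m2, m3⟩ := h.c2
  obtain ⟨g, rfl, rfl⟩ := h.tA m1 k1
  obtain ⟨s, hs, e⟩ := h.trI hk k1 k2 (h.irr H) (h.inv g m2) (h.ninv g m3).1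
  exact (h.ninv g m3).2 (e ▸ h.fa hs.2 H)

theorem mu (hk : k = e + 1) (n : Na a x y) : {w | a x w ∧ a y w}.ncard = L := by
  have := dc_eq {p | a x p} {q | Na a x q} a (c := e) (d := {w | a x w ∧ a y w}.ncard)
    (fun p hp => by
      have c2 := split {w | a p w} (x = ·)
      rw [one_fib (T := {w | a p w}) (h.symm hp), h.ck] at c2
      rw [show e = {w | w ∈ {w | a p w} ∧ ¬ x = w}.ncard by omega]; congr 1; ext w
      exact ⟨fun H => ⟨H.2, H.1.1⟩, fun H => ⟨⟨H.2, h.lam0 hk (h.symm hp) H.1⟩, H.1⟩⟩)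
    fun q hq => by
      obtain ⟨g, e1, rfl⟩ := h.tN n hq
      rw [← ncard_image_of_injective {w | a x w ∧ a y w} (MulAction.injective g)]; congr 1; ext w
      refine ⟨fun H => ⟨g⁻¹ • w, ⟨h.fa (inv_fix e1) H.1, by
        simpa using h.inv g⁻¹ (h.symm H.2)⟩, smul_inv_smul g w⟩, ?_⟩
      rintro ⟨w, hw, rfl⟩; exact ⟨h.fa e1 hw.1, h.symm (h.inv g hw.2)⟩
  rw [h.ck, h.cl, ← h.lL] at this
  exact (Nat.eq_of_mul_eq_mul_left h.l1 this).symm

include he S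

theorem cyc (E : Ev a z x b c d) (hg : g ∈ Wq G x b c d) (e1 : (g * g) • x = b) :
    ∃ w : G, (w = g ∨ w = g⁻¹) ∧ w • x = c ∧ w • c = b := by
  have cm := h.Wz he S E hg
  rw [mul_smul] at e1
  rcases memW.1 hg x (by simp) with H | H | H | H <;> rw [H] at e1
  · exact (h.irr E.ab (H.symm.trans e1)).elim
  · exact (h.irr E.ab ((h.mvp E.iv cm E.ab E.zx E.zb H (h.symm E.ab) E.zx).symm.trans e1)).elim
  · exact ⟨g, Or.inl rfl, H, e1⟩
  · exact ⟨g⁻¹, Or.inr rfl, inv_smul_eq_iff.2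
      (h.mvp E.iv cm (h.symm E.cd) E.zd E.zc e1 (h.symm E.ab) E.zx).symm, inv_smul_eq_iff.2
      (h.mvp E.iv cm E.ab E.zx E.zb H (h.symm E.cd) E.zc).symm⟩

theorem im_cj (E : Ev a z x b c d) (ht : t ∈ Im G x b c d) (hg : g ∈ St G x c) :
    g * t * g⁻¹ ∈ Im G x b c d := ⟨jf_cj ht.1 hg.1 (h.fb he S E hg), by
      nth_rw 1 [← show g • c = c from hg.2]; rw [cj_smul, ht.2, h.fd he S E hg]⟩

theorem imW (ht : t ∈ Im G x b c d) : t ∈ Wq G x b c d := by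
  have := ht.1.2; have := ht.2; have := ht.1.1.1.sw ht.1.2; have := ht.1.1.1.sw ht.2
  exact memW.2 (by simp [*])

theorem jfW (E : Ev a z x b c d) (ht : t ∈ Jf G x c) : t ∈ Wq G x b c d := by
  have := ht.2; have k := ht.1.1.sw ht.2; have := h.sw he S E ht.2 k
  exact memW.2 (by simp [*])

theorem iota (E : Ev a z x b c d) (h4 : ¬ 4 ∣ {p | Na a x p ∧ z • p = p}.ncard) :
    (Jf G x b).ncard * 2 ≤ {p | Na a x p ∧ z • p = p}.ncard * (Im G x b c d).ncard := by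
  refine dc _ _ (fun t p => t • p = pt a z p) (fun t ht => ?_) fun p hp => ?_
  · have k := ht.1.1.sw ht.2
    have cm := h.ivZ he S (h.irr E.ab) E.iv E.zx E.zb (Or.inr ⟨ht.2, k⟩)
    have k1 : ∀ p ∈ {p | Na a x p ∧ z • p = p}, pt a z p ∈ {p | Na a x p ∧ z • p = p} := fun p hp =>
      ⟨(h.s2 (h.mkEv he E.iv E.zx hp.2 hp.1)).n, (h.pt1 he E.iv hp.2).2⟩
    obtain ⟨p, k2, k3⟩ := h.edge he E.iv ht.1.1 cm (fun e => h.irr E.ab (by rw [← ht.2, e, E.zx]))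
      {p | Na a x p ∧ z • p = p} (fun p hp => by
        have e1 : z • t • p = t • p := by rw [← mul_smul, ← cm, mul_smul, hp.2]
        exact ⟨hp.2, ⟨⟨fun e => hp.1.2 (by rw [← ht.1.1.sw e.symm, ht.2]; exact E.ab), fun H =>
          hp.1.1 (by rw [← ht.1.1.sw (h.uq E.iv.1 E.zx H E.ab e1 E.zb), k])⟩, e1⟩, k1 p hp⟩) h4
    rw [← ncard_pair (h.irr (h.pt1 he E.iv k2.2).1)]
    refine ncard_le_ncard ?_
    rintro _ (rfl | rfl)
    exacts [⟨k2, k3⟩, ⟨k1 p k2, by rw [h.ptpt he E.iv k2.2, ht.1.1.sw k3]⟩]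
  obtain ⟨g, e1, e2, rfl, cm⟩ := h.trE he S E hp.1 hp.2
  refine inj_le (fun t => g⁻¹ * t * g⁻¹⁻¹) (fun t ht => ⟨jf_cj ht.1 (inv_fix e1) (inv_fix e2), ?_⟩)
    fun _ _ _ _ e => by simpa using e
  rw [inv_inv, mul_smul, mul_smul, ht.2, h.ptc he E.iv cm E.zc, inv_smul_smul,
    h.ptU he E.iv E.zc E.cd E.zd]

theorem nb1 (hk : k = e + 1) (E : Ev a z x b c d) (k1 : a x p) (n1 : b ≠ p) :
    {q | (Na a x q ∧ z • q = q) ∧ a p q}.ncard = 1 := by
  have := dc_eq {p | p ∈ {w | a x w} ∧ ¬ b = p} {q | Na a x q ∧ z • q = q} a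
    (c := {q | (Na a x q ∧ z • q = q) ∧ a p q}.ncard) (d := L) (fun v hv => by
      obtain ⟨g, hg, rfl⟩ := h.trI hk E.ab k1 n1 hv.1 hv.2
      have cm := h.ivZ he S (h.irr E.ab) E.iv E.zx E.zb (Or.inl hg)
      rw [← ncard_image_of_injective {q | (Na a x q ∧ z • q = q) ∧ a p q} (MulAction.injective g)]
      congr 1; ext w
      refine ⟨fun H => ⟨g⁻¹ • w, ⟨⟨h.fn (inv_fix hg.1) H.1.1, ?_⟩, by
        simpa using h.inv g⁻¹ H.2⟩, smul_inv_smul g w⟩, ?_⟩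
      · rw [eq_inv_smul_iff, ← mul_smul, cm, mul_smul, smul_inv_smul, H.1.2]
      · rintro ⟨w, hw, rfl⟩
        exact ⟨⟨h.fn hg.1 hw.1.1, by rw [← mul_smul, ← cm, mul_smul, hw.1.2]⟩, h.inv g hw.2⟩)
    fun q hq => by
      rw [← h.mu hk hq.1]; congr 1; ext w
      exact ⟨fun H => ⟨H.1.1, h.symm H.2⟩, fun H => ⟨⟨H.1, fun e => hq.1.1 <|
        h.uq E.iv.1 E.zb (h.symm E.ab) (e ▸ h.symm H.2) E.zx hq.2⟩, h.symm H.2⟩⟩
  have c2 := split {w | a x w} (b = ·)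
  rw [one_fib (T := {w | a x w}) E.ab, h.ck] at c2
  rw [h.fixN he S E, show {p | p ∈ {w | a x w} ∧ ¬ b = p}.ncard = e by omega] at this
  have := h.e2
  exact Nat.eq_of_mul_eq_mul_left (by omega : 0 < e) (by omega)

theorem tt (E : Ev a z x b c d) (ht : t ∈ Jf G x c) (i1 : ∀ g ∈ St G x c, t * g * t = g⁻¹)
    (y1 : g • x = x) (y2 : g • b = b) (y3 : g • c = d) (y4 : g • d = c) :
    (t * (g * t * g⁻¹)) • x = b ∧ (t * (g * t * g⁻¹)) • c = d ∧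
      ∀ r ∈ St G x c, t * (g * t * g⁻¹) * r = r * (t * (g * t * g⁻¹)) := by
  obtain ⟨k1, k2⟩ := h.sw he S E ht.2 (ht.1.1.sw ht.2)
  have gW : g ∈ Wq G x b c d := memW.2 (by simp [*])
  refine ⟨?_, ?_, fun r hr => inv_mul_cent ht.1.1 (ht.1.1.cj g) i1 (fun r hr => ?_) hr⟩
  · rw [mul_smul]; nth_rw 1 [← y1]; rw [cj_smul, ht.2, y3, k2]
  · rw [mul_smul]; nth_rw 1 [← y4]; rw [cj_smul, k2, y2, k1]
  · have := i1 _ (h.nD he S E (inv_mem gW) hr)
    calc _ = g * (t * (g⁻¹ * r * g⁻¹⁻¹) * t) * g⁻¹ := by group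
      _ = _ := by rw [this]; group

variable (hL : 2 ∣ L)
include hL

theorem good (hk : k = e + 1) (E : Ev a z x b c d) :
    ∃ t ∈ Jf G x c, ∀ g ∈ St G x c ⊓ C[t], g = 1 ∨ g = z := by
  obtain ⟨p, k1, k2⟩ := h.c2' E.n
  have n1 : b ≠ p := fun e => (h.s1 E).n.2 (e ▸ h.symm k2)
  have n2 : p ≠ z • p := fun e => n1 (h.uq E.iv.1 E.zx E.ab k1 E.zb e.symm)
  have k3 := h.fa E.zx k1
  obtain ⟨t, t1, t2, t3⟩ := h.exIv he S hL n2
  have cm := (h.ivZ he S n2 t1 t2 t3 (Or.inr ⟨rfl, E.iv.ss p⟩)).symm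
  have n3 := h.tfree he E.iv t1 cm (fun e => n2 (e ▸ t2.symm)) E.zx
  have k4 := h.fa t2 (h.symm k1)
  have e1 : t • x = c := (ncard_le_one (toFinite _)).1 (h.nb1 he S hk E k1 n1).le _
    ⟨⟨⟨n3.symm, h.lam0 hk (h.symm k1) k4⟩, by rw [← mul_smul, ← cm, mul_smul, E.zx]⟩, k4⟩ _
    ⟨⟨E.n, E.zc⟩, h.symm k2⟩
  refine ⟨t, ⟨⟨t1, p, t2⟩, e1⟩, fun g hg => ?_⟩
  have m : Na a p (z • p) := ⟨n2, h.lam0 hk k1 k3⟩
  have E' := h.mkEv he t1 t2 t3 m
  by_cases e2 : g • p = p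
  · exact Or.inl (h.f1 E.ab k1 n1 hg.1.1 (h.fb he S E hg.1) e2)
  have k5 := h.fa hg.1.1 k1
  have e3 : g • p = z • p := (ncard_le_one (toFinite _)).1
    (h.nb1 he S hk E' (h.symm k1) fun e => n3 (e ▸ E'.zb)).le _
    ⟨⟨⟨Ne.symm e2, h.lam0 hk k1 k5⟩, by rw [← mul_smul, ← mem_cen1.1 hg.2, mul_smul, t2]⟩, k5⟩ _
    ⟨⟨m, t3⟩, k3⟩
  right
  have := h.f1 (g := z * g) E.ab k1 n1 (by rw [mul_smul, show g • x = x from hg.1.1, E.zx])
    (by rw [mul_smul, h.fb he S E hg.1, E.zb]) (by rw [mul_smul, e3, E.iv.ss])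
  rw [← E.iv.inv]; exact (inv_eq_of_mul_eq_one_right this).symm

omit hL in
theorem a_two (E : Ev a z x b c d) (h1 : L ≤ (Im G x b c d).ncard) (h2 : L ≤ (Jf G x c).ncard)
    (f4 : {p : X | z • p = p}.ncard = 4) : False := by
  have L0 := h.L0
  obtain ⟨t, ht⟩ := (ncard_pos (toFinite (Jf G x c))).1 (by omega)
  obtain ⟨s, hs⟩ := (ncard_pos (toFinite (Im G x b c d))).1 (by omega)
  have i1 := all_inv (D := St G x c) ht (fun r hr => ⟨hr.1.1, jf_mul ht.1.1 hr.1.1 ht.2 hr.2⟩)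
    (h.cL E.n ▸ h2)
  have i2 := all_inv (D := St G x c) hs (fun r hr => ⟨hr.1.1.1, im_mul hs hr⟩) (h.cL E.n ▸ h1)
  obtain ⟨y, y1, y2, y3, y4⟩ := h.exY he S E
  obtain ⟨u1, u2, u3⟩ := h.tt he S E ht (fun g hg => (i1 g hg).2) y1 y2 y3 y4
  have yW : y ∈ Wq G x b c d := memW.2 (by simp [*])
  have tW := h.jfW he S E ht
  obtain ⟨t1, t2⟩ := h.sw he S E ht.2 (ht.1.1.sw ht.2)
  set u := t * (y * t * y⁻¹) with hu
  have m : s * u ∈ St G x c := ⟨show _ • x = x by rw [mul_smul, u1, hs.1.1.1.sw hs.1.2],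
    show _ • c = c by rw [mul_smul, u2, hs.1.1.1.sw hs.2]⟩
  have uI : u ∈ Im G x b c d := by
    have := (i2 _ m).1
    rwa [← mul_assoc, hs.1.1.1.2, one_mul] at this
  have D2 : ∀ g ∈ St G x c, g = 1 ∨ g = z := fun g hg => h.uqD he S E g hg (by
    have k := (all_inv (D := St G x c) uI (fun r hr => ⟨hr.1.1.1, im_mul uI hr⟩)
      (h.cL E.n ▸ h1) g hg).2
    rw [u3 g hg, mul_assoc, uI.1.1.1.2, mul_one] at k
    nth_rw 1 [k]; rw [inv_mul_cancel])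
  have yy : ∀ y : G, y • x = x → y • b = b → y • c = d → y • d = c → y * y = z := fun y a1 a2 a3 a4 =>
    (D2 _ ⟨show _ • x = x by rw [mul_smul, a1, a1], show _ • c = c by
      rw [mul_smul, a3, a4]⟩).resolve_left (h.ysq he S E a1 a2 a3)
  have tz := h.Wz he S E tW
  have tu : t * u = u * t := by
    have := uI.1.1.1.inv
    rw [hu, mul_inv_rev, ht.1.1.inv, (ht.1.1.cj y).inv] at this
    rw [hu, mul_assoc t, this]
  have yu : y * u = u * y := by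
    rw [← mul_inv_eq_iff_eq_mul, hu, ← conj_mul, show y * (y * t * y⁻¹) * y⁻¹ =
      y * y * t * (y * y)⁻¹ by group, yy y y1 y2 y3 y4, ← tz, mul_inv_cancel_right]
    rw [← mul_right_inj t, ← mul_assoc, ← hu, ← tu]
  have c1 := h.cW he S E
  have c2 : #(St G x c) = 2 := (card_le2 D2).antisymm ((Subgroup.one_lt_card_iff_ne_bot _).2
    fun e => E.iv.1 ((Subgroup.eq_bot_iff_forall _).1 e z ⟨E.zx, E.zc⟩))
  obtain ⟨p, hp⟩ := uI.1.1.2
  have c3 := h.sqr he S uI.1.1.1 hp (P := Wq G x b c d ⊓ C[u])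
    ((pGrp_of_card Nat.prime_two (n := 4) (by rw [c1, c2]; rfl)).mono inf_le_left) inf_le_right
    fun g hg e => by
      obtain ⟨w, k1, k2, k3⟩ := h.cyc he S E hg.1 (e ▸ u1)
      have k4 : w * w = u := by
        rcases k1 with rfl | rfl
        exacts [e, by rw [← mul_inv_rev, e, uI.1.1.1.inv]]
      have wW : w ∈ Wq G x b c d := by rcases k1 with rfl | rfl; exacts [hg.1, inv_mem hg.1]
      have a1 : (t * w) • x = x := by rw [mul_smul, k2, ht.1.1.sw ht.2]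
      have a3 : (t * w) • c = d := by rw [mul_smul, k3, t1]
      obtain ⟨a2, a4⟩ := h.cd2 he S E (mul_mem tW wW) a1
      have a5 := yy _ a1 a2 a3 (a4.resolve_left fun H => h.irr E.cd (H.1.symm.trans a3)).2
      have a6 : t * w * t * (t * w)⁻¹ = y * t * y⁻¹ := by
        rcases D2 (y⁻¹ * (t * w)) ⟨show _ • x = x by rw [mul_smul, a1, inv_fix y1],
          show _ • c = c by rw [mul_smul, a3, inv_smul_eq_iff, y3]⟩ with H | H <;>
          rw [inv_mul_eq_iff_eq_mul.1 H]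
        · group
        · rw [mul_assoc y z, ← tz]; group
      refine E.iv.1 (mul_left_cancel (a := u) ?_)
      rw [mul_one]; nth_rw 2 [← k4]
      rw [hu, ← a6, ← a5]
      calc _ = t * t * w * (t * t) * w := by group
        _ = _ := by rw [ht.1.1.2]; group
  rw [h.fixC he S E.iv uI.1.1.1 E.zx hp, f4] at c3
  have c4 := big4 (P := Wq G x b c d ⊓ C[u]) (h.q4 E) ⟨u, ⟨h.imW he S uI, mem_cen1.2 rfl⟩, u1⟩
    ⟨t, ⟨tW, mem_cen1.2 tu⟩, ht.2⟩ ⟨y * t, mul_mem ⟨yW, mem_cen1.2 yu⟩ ⟨tW, mem_cen1.2 tu⟩, by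
      rw [mul_smul, ht.2, y3]⟩
  have c5 : 2 < #((Wq G x b c d ⊓ C[u]) ⊓ stabilizer G x : Subgroup G) := by
    by_contra H
    rcases of_le2 (not_lt.1 H) (z := z) ⟨⟨h.DW he S E ⟨E.zx, E.zc⟩, mem_cen1.2
      (u3 z ⟨E.zx, E.zc⟩).symm⟩, E.zx⟩ E.iv.1 y ⟨⟨yW, mem_cen1.2 yu⟩, y1⟩ with rfl | rfl
    · exact h.irr E.cd (by simpa using y3)
    · exact h.irr E.cd (E.zc.symm.trans y3)
  omega

end Rk
end Cfsg.Agent.GW.RK
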