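import Mathlib
import Cfsg.Agent.GW.Rk8

/-! Rank 3 groups with a Frobenius subconstituent: lines of size `0 mod 4`. -/
set_option autoImplicit false
set_option linter.unusedSectionVars false
namespace Cfsg.Agent.GW.RK
open Set MulAction Cfsg.Agent.FT Cfsg.Agent.GW.ON
open scoped Pointwise

variable {G X : Type*} [Group G] [MulAction G X] [Finite G] [Finite X]

theorem four_le {H : Subgroup G} {w z : G} (hz : Iv z) (hw : w ∈ H) (e : w * w = z) : 4 ≤ #H := by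
  have : Fact (Nat.Prime 2) := ⟨Nat.prime_two⟩
  have : orderOf w = 2 ^ (1 + 1) := orderOf_eq_prime_pow (by rw [pow_one, sq, e]; exact hz.1)
    (by rw [pow_succ, pow_mul, pow_one, sq w, e, sq, hz.2])
  exact Nat.le_of_dvd (card_pos H) (show 2 ^ (1 + 1) ∣ #H from this ▸ H.orderOf_dvd_natCard hw)

theorem inv_comm_sq {t w : G} (ht : Iv t) (h1 : t * w * t = w⁻¹) (h2 : t * w = w * t) : w * w = 1 := by
  rw [h2, mul_assoc, ht.2, mul_one] at h1
  nth_rw 1 [h1]; rw [inv_mul_cancel]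

theorem iv_inv {s t : G} (hs : Iv s) (ht : Iv t) : s * (s * t) * s = (s * t)⁻¹ := by
  rw [← mul_assoc, hs.2, one_mul, mul_inv_rev, hs.inv, ht.inv]

namespace Rk
variable {a : X → X → Prop} {K : X → Subgroup G} {k e L l : ℕ} (h : Rk a K k e L l)
  {x y u v w p q b c d : X} {g r s t z : G} (he : 2 ∣ e) (S : Sr a K) (hL : 2 ∣ L)
  {e' : ℕ} (E : Ev a z x b c d) (hf : {p : X | z • p = p}.ncard = 2 + e') (h4 : 4 ∣ 2 + e')
  (q1 : 2 * L * (1 + e') ≤ ((Im G x b c d).ncard + 2 * (Jf G x c).ncard) * (2 + e'))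
  (q2 : (Jf G x c).ncard < L) (q3 : 2 + e' ∣ 2 * L) (ee : e' * L = e)
  (ht : t ∈ Jf G x c) (gd : ∀ g ∈ St G x c ⊓ C[t], g = 1 ∨ g = z)
include h he S E ht gd

theorem clt : (Cl (St G x c) t).ncard * 2 = L := by
  rw [← h.cL E.n, ← cls (St G x c) t]
  congr 1
  exact ((card_le2 gd).antisymm ((Subgroup.one_lt_card_iff_ne_bot _).2 fun e => E.iv.1
    ((Subgroup.eq_bot_iff_forall _).1 e z ⟨⟨E.zx, E.zc⟩, mem_cen1.2
      (h.Wz he S E (h.jfW he S E ht)).symm⟩))).symm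

include q2 in
theorem nocl (hs : s ∈ Jf G x c) (ns : s ∉ Cl (St G x c) t) : 2 < #(St G x c ⊓ C[s] : Subgroup G) := by
  by_contra H
  have := (two_cl ns (card_le2 gd) (not_lt.1 H)).trans (ncard_le_ncard (t := Jf G x c) (by
    rintro _ (⟨g, hg, rfl⟩ | ⟨g, hg, rfl⟩); exacts [jf_cj ht hg.1 hg.2, jf_cj hs hg.1 hg.2]))
  rw [h.cL E.n] at this; omega

include hL hf h4 q1 q2 q3 ee in
theorem inv_case (i1 : ∀ g ∈ St G x c, t * g * t = g⁻¹) : L = 2 ∧ e' = 2 := by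
  have ab : ∀ g ∈ St G x c, ∀ r ∈ St G x c, g * r = r * g := fun g hg r hr => inv_ab ht.1.1 i1 hg hr
  have c1 := h.clt he S E ht gd
  have c2 : (Jf G x c).ncard ≤ (Cl (St G x c) t).ncard := ncard_le_ncard fun s hs => by
    by_contra ns
    refine (card_le2 (z := z) (U := St G x c ⊓ C[s]) fun g hg => gd g ⟨hg.1, mem_cen1.2 ?_⟩).not_gt
      (h.nocl he S E q2 ht gd hs ns)
    have := ab g hg.1 _ (jf_mul hs.1.1 ht.1.1 hs.2 ht.2)
    rwa [← mul_assoc, mem_cen1.1 hg.2, mul_assoc, mul_assoc, mul_right_inj] at this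
  obtain ⟨y, y1, y2, y3, y4⟩ := h.exY he S E
  obtain ⟨u1, u2, u3⟩ := h.tt he S E ht i1 y1 y2 y3 y4
  have ce : ∀ s ∈ Im G x b c d, ∀ g ∈ St G x c, s * g = g * s := fun s hs g hg => by
    generalize t * (y * t * y⁻¹) = u at u1 u2 u3
    have := ab g hg (u⁻¹ * s) ⟨show _ • x = x by rw [mul_smul, hs.1.2, inv_smul_eq_iff, u1],
      show _ • c = c by rw [mul_smul, hs.2, inv_smul_eq_iff, u2]⟩
    calc s * g = u * (u⁻¹ * s * g) := by group
      _ = _ := by rw [← this, ← mul_assoc, u3 g hg]; group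
  have c3 : ∀ s ∈ Im G x b c d, ∀ r ∈ Im G x b c d, r = s ∨ r = s * z := fun s hs r hr => by
    have m := im_mul hs hr
    refine (h.uqD he S E _ m (inv_comm_sq hs.1.1.1 (iv_inv hs.1.1.1 hr.1.1.1) (ce s hs _ m))).imp
      (fun e => ?_) fun e => ?_
    · rw [← hs.1.1.1.inv]; exact (inv_eq_of_mul_eq_one_right e).symm
    · rw [← e, ← mul_assoc, hs.1.1.1.2, one_mul]
  have c4 : (Im G x b c d).ncard ≤ 2 := by
    rcases (Im G x b c d).eq_empty_or_nonempty with e | ⟨s, hs⟩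
    · simp [e]
    · exact le_two s (s * z) (c3 s hs)
  have c5 : L * e' ≤ 2 * (2 + e') := by nlinarith
  have e2 : 2 ≤ e' := by omega
  have L0 := h.L0
  have L4 : L ≤ 4 := by nlinarith
  by_cases L2 : L = 2
  · subst L2; have := Nat.le_of_dvd (by omega) q3; omega
  exfalso
  obtain rfl : L = 4 := by omega
  obtain rfl : e' = 2 := by omega
  obtain ⟨s, hs⟩ := (ncard_pos (toFinite (Im G x b c d))).1 (by omega)
  have tW := h.jfW he S E ht
  have sW := h.imW he S hs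
  obtain ⟨t1, t2⟩ := h.sw he S E ht.2 (ht.1.1.sw ht.2)
  have t3 := ht.1.1.sw ht.2
  have s1 := hs.1.2
  have s2 := hs.2
  have s3 := hs.1.1.1.sw s2
  have st : t * s * t⁻¹ ∈ Im G x b c d := ⟨⟨⟨hs.1.1.1.cj t, hs.1.1.2.elim fun p e =>
    ⟨t • p, by rw [cj_smul, e]⟩⟩, by nth_rw 1 [← t3]; rw [cj_smul, s2, t2]⟩, by
      nth_rw 1 [← ht.2]; rw [cj_smul, s1, t1]⟩
  rcases c3 s hs _ st with e | e
  · replace e := mul_inv_eq_iff_eq_mul.1 e
    obtain ⟨p, hp⟩ := hs.1.1.2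
    have c6 := h.sqr he S hs.1.1.1 hp (P := Wq G x b c d ⊓ C[s])
      ((pGrp_of_card Nat.prime_two (n := 5) (by rw [h.cW he S E, h.cL E.n]; rfl)).mono inf_le_left)
      inf_le_right fun g hg e1 => by
        obtain ⟨w, k1, k2, k3⟩ := h.cyc he S E hg.1 (e1 ▸ s1)
        have wW : w ∈ Wq G x b c d ⊓ C[s] := by rcases k1 with rfl | rfl; exacts [hg, inv_mem hg]
        have a1 : (t * w) • x = x := by rw [mul_smul, k2, t3]
        have a3 : (t * w) • c = d := by rw [mul_smul, k3, t1]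
        have a2 := (h.cd2 he S E (mul_mem tW wW.1) a1).1
        have a4 : t * w ∈ C[s] := mul_mem (mem_cen1.2 e) wW.2
        have := h.free he S hL E.iv E.zx hs.1.1.1 hp (s1 ▸ (h.irr E.ab).symm) (P := St G x b)
          fun g hg => ⟨hg.1, by
            rcases idx2 (D := St G x c) (E := St G x b) (fun g hg => ⟨hg.1, h.fb he S E hg⟩)
              (by rw [h.ce E.ab, h.cL E.n, ee]) ⟨a1, a2⟩ (fun H => h.irr E.cd (H.2.symm.trans a3))
              g hg with H | H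
            · exact mem_cen1.2 (ce s hs g H).symm
            · exact mul_inv_cancel_left (t * w) g ▸ mul_mem a4 (mem_cen1.2 (ce s hs _ H).symm)⟩
        rw [h.ce E.ab, hf, ← ee] at this
        omega
    rw [h.fixC he S E.iv hs.1.1.1 E.zx hp, hf] at c6
    have c7 := big4 (P := Wq G x b c d ⊓ C[s]) (h.q4 E) ⟨s, ⟨sW, mem_cen1.2 rfl⟩, s1⟩
      ⟨t, ⟨tW, mem_cen1.2 e⟩, ht.2⟩ ⟨s * t, mul_mem ⟨sW, mem_cen1.2 rfl⟩ ⟨tW, mem_cen1.2 e⟩, by
        rw [mul_smul, ht.2, s2]⟩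
    have c8 := card_le (A := St G x c) (B := (Wq G x b c d ⊓ C[s]) ⊓ stabilizer G x) fun g hg =>
      ⟨⟨h.DW he S E hg, mem_cen1.2 (ce s hs g hg).symm⟩, hg.1⟩
    rw [h.cL E.n] at c8
    omega
  · obtain ⟨w, hw, e1⟩ := exists_four (h.uqD he S E)
      (pGrp_of_card Nat.prime_two (n := 2) (h.cL E.n)) (by rw [h.cL E.n]; omega)
    have k1 : t * (s * w) = s * w * t := by
      have : t * (s * w) * t = s * w := by
        rw [show t * (s * w) * t = t * s * t⁻¹ * (t * w * t) by group, e, i1 w hw, ← e1]; group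
      nth_rw 2 [← this]; rw [mul_assoc _ t t, ht.1.1.2, mul_one]
    have k2 : s * w * t * (s * w * t) = z := by
      rw [show s * w * t * (s * w * t) = s * w * (t * (s * w)) * t by group, k1,
        show s * w * (s * w * t) * t = s * (w * s) * w * (t * t) by group, ← ce s hs w hw, ht.1.1.2,
        ← mul_assoc, hs.1.1.1.2, one_mul, mul_one, e1]
    have m : (s * w * t)⁻¹ * (y * t * y⁻¹) ∈ St G x c := ⟨show _ • x = x by
      rw [mul_smul, inv_smul_eq_iff, mul_smul _ t, ht.2, mul_smul s, show w • c = c from hw.2, s2]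
      nth_rw 1 [← y1]; rw [cj_smul, ht.2, y3], show _ • c = c by
      rw [mul_smul, inv_smul_eq_iff, mul_smul _ t, t3, mul_smul s, show w • x = x from hw.1, s1]
      nth_rw 1 [← y4]; rw [cj_smul, t2, y2]⟩
    have k3 := (ht.1.1.cj y).2
    generalize y * t * y⁻¹ = r at m k3
    have k4 : r = s * w * t * ((s * w * t)⁻¹ * r) := by group
    generalize (s * w * t)⁻¹ * r = δ at m k4
    have k5 : δ * (s * w * t) = s * w * t * δ⁻¹ := by
      rw [← mul_assoc, ← mul_assoc, ← ce s hs δ m, mul_assoc s δ, ab δ m w hw, ← i1 δ m,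
        mul_assoc _ t, ← mul_assoc t, ← mul_assoc t, ht.1.1.2]; group
    rw [k4, mul_assoc, ← mul_assoc δ, k5, inv_mul_cancel_right, k2] at k3
    exact E.iv.1 k3

include hL hf h4 q1 q2 q3 ee in
theorem a_one (hk : k = e + 1) : L = 2 ∧ e' = 2 := by
  refine h.inv_case he S hL E hf h4 q1 q2 q3 ee ht gd ?_
  have tW := h.jfW he S E ht
  have tz := h.Wz he S E tW
  have t3 := ht.1.1.sw ht.2
  obtain ⟨R, tR, hR⟩ := h.exR he S E ht.1.1.pg ((Subgroup.zpowers_le (G := G)).2 tW)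
  replace tR := tR (Subgroup.mem_zpowers t)
  have zU : z ∈ R ⊓ St G x c := ⟨h.zR he S E hR, E.zx, E.zc⟩
  have uq : ∀ s ∈ R ⊓ St G x c, s * s = 1 → s = 1 ∨ s = z := fun s hs => h.uqD he S E s hs.2
  have pU := hR.pg.mono (inf_le_left (b := St G x c))
  have zc : ∀ δ ∈ St G x c, δ * z * δ⁻¹ = z := fun δ hδ => by
    rw [h.Wz he S E (h.DW he S E hδ), mul_inv_cancel_right]
  have c1 := h.clt he S E ht gd
  by_cases H : #(R ⊓ St G x c : Subgroup G) ≤ 2
  · have tzI : Iv (t * z) := ⟨fun e => E.n.1 (by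
      rw [← ht.2, eq_inv_of_mul_eq_one_left e, E.iv.inv, E.zx]), by
      rw [mul_assoc, ← mul_assoc z, ← tz, mul_assoc, E.iv.2, mul_one, ht.1.1.2]⟩
    refine fun g hg => (all_inv (D := St G x c) (S := Cl (St G x c) t ∪ Cl (St G x c) (t * z))
      (Or.inl (mem_cl _ t)) ?_ (two_cl ?_ (card_le2 gd) (card_le2 (z := z) fun g hg =>
        gd g ⟨hg.1, mem_cen1.2 ?_⟩)) g hg).2
    · rintro _ (⟨g, hg, rfl⟩ | ⟨g, hg, rfl⟩)
      · exact ⟨ht.1.1.cj g, jf_mul ht.1.1 (ht.1.1.cj g) ht.2 (jf_cj ht hg.1 hg.2).2⟩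
      · refine ⟨tzI.cj g, jf_mul ht.1.1 (tzI.cj g) ht.2 ?_⟩
        nth_rw 1 [← show g • x = x from hg.1]
        rw [cj_smul, mul_smul, E.zx, ht.2, show g • c = c from hg.2]
    · rintro ⟨δ, hδ, e⟩
      rcases gd (δ * δ) ⟨mul_mem hδ hδ, mem_cen1.2 (by
        rw [← mul_inv_eq_iff_eq_mul, show δ * δ * t * (δ * δ)⁻¹ = δ * (δ * t * δ⁻¹) * δ⁻¹ by group, e,
          ← conj_mul, e, zc δ hδ, mul_assoc, E.iv.2, mul_one])⟩ with e1 | e1
      · rcases h.uqD he S E δ hδ e1 with rfl | rfl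
        · exact E.iv.1 (by simpa using e)
        · rw [← tz, mul_inv_cancel_right] at e; exact E.iv.1 (by simpa using e)
      · obtain ⟨γ, k1, k2⟩ := hR.cj1 (h.DW he S E hδ) (piElt_of_pow_eq_one (π := {2}) (n := 2 ^ 2)
          (fun p hp hd => (Nat.prime_dvd_prime_iff_eq hp Nat.prime_two).1 (hp.dvd_of_dvd_pow hd))
          (by rw [sq, pow_mul, sq δ, e1, sq, E.iv.2])).zpowers
        have k3 : γ * δ * γ⁻¹ * (γ * δ * γ⁻¹) = z := by rw [conj_mul, e1, zc γ k1]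
        rcases of_le2 H zU E.iv.1 _ ⟨k2, h.nD he S E (h.DW he S E k1) hδ⟩ with e | e <;> rw [e] at k3
        · exact E.iv.1 (by simpa using k3.symm)
        · exact E.iv.1 (k3.symm.trans E.iv.2)
    · have := mem_cen1.1 hg.2
      rwa [mul_assoc t, ← h.Wz he S E (h.DW he S E hg.1), ← mul_assoc, ← mul_assoc,
        mul_left_inj] at this
  push Not at H
  obtain ⟨w, hw, e1⟩ := exists_four uq pU H
  have L4 : 4 ∣ L := by
    obtain ⟨n, hn⟩ := pU.card
    have := card_dvd (inf_le_right (a := R) (b := St G x c))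
    rw [hn, h.cL E.n] at this
    rcases n with _ | _ | n
    · omega
    · omega
    · exact Dvd.dvd.trans ⟨2 ^ n, by ring⟩ this
  have L0 := h.L0
  have cov : ∀ s ∈ Jf G x c, ∃ δ ∈ St G x c, δ * s * δ⁻¹ ∈ Jf G x c ∧
      t * (δ * s * δ⁻¹) ∈ R ⊓ St G x c := fun s hs => by
    obtain ⟨δ, k1, k2⟩ := hR.cj1 (h.jfW he S E hs) hs.1.1.pg
    have := jf_cj hs k1.1 k1.2
    exact ⟨δ, k1, this, R.mul_mem tR k2, jf_mul ht.1.1 this.1.1 ht.2 this.2⟩
  have covI : ∀ s ∈ Im G x b c d, ∃ δ ∈ St G x c, δ * s * δ⁻¹ ∈ Im G x b c d ∧ δ * s * δ⁻¹ ∈ R :=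
    fun s hs => by
      obtain ⟨δ, k1, k2⟩ := hR.cj1 (h.imW he S hs) hs.1.1.1.pg
      exact ⟨δ, k1, h.im_cj he S E hs k1, k2⟩
  have nI : ∀ s ∈ Im G x b c d, s ∈ R → (∀ g ∈ R ⊓ St G x c, ∀ r ∈ R ⊓ St G x c, g * r = r * g) →
      ∀ r ∈ R ⊓ St G x c, r * r = z → s * r * s ≠ r⁻¹ := fun s hs sR ab r hr e e' =>
    E.iv.1 (e ▸ inv_comm_sq hs.1.1.1 e' (h.cent4 he S E hR ab hr e sR hs.1.2 hs.2))
  have hf' : e' = 2 ∨ e' = 6 ∨ e' = 10 ∧ 3 ∣ L := by
    by_cases hA : ∀ u ∈ R ⊓ St G x c, t * u * t = u⁻¹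
    · have ab : ∀ g ∈ R ⊓ St G x c, ∀ r ∈ R ⊓ St G x c, g * r = r * g := fun g hg r hr =>
        inv_ab ht.1.1 hA hg hr
      have i2 : (Im G x b c d).ncard * 2 ≤ L := by
        rcases (Im G x b c d).eq_empty_or_nonempty with e | ⟨s, hs⟩
        · simp [e]
        obtain ⟨δ, -, hs, sR⟩ := covI s hs
        generalize δ * s * δ⁻¹ = s at hs sR
        have sw := h.cent4 he S E hR ab hw e1 sR hs.1.2 hs.2
        have a1 := cls (St G x c) s
        have a2 := cls (St G x c) (s * z)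
        have a3 := four_le (H := St G x c ⊓ C[s]) E.iv ⟨hw.2, mem_cen1.2 sw.symm⟩ e1
        have a4 := four_le (H := St G x c ⊓ C[s * z]) E.iv ⟨hw.2, mem_cen1.2 (by
          rw [← mul_assoc, ← sw, ← e1]; group)⟩ e1
        have a5 := (ncard_le_ncard (s := Im G x b c d) fun r hr => by
          obtain ⟨γ, k1, k2, k3⟩ := covI r hr
          have m : s * (γ * r * γ⁻¹) ∈ R ⊓ St G x c := ⟨R.mul_mem sR k3, im_mul hs k2⟩
          have : γ * r * γ⁻¹ = s ∨ γ * r * γ⁻¹ = s * z := by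
            by_contra H
            obtain ⟨n, hn⟩ := pow2 pU m
            obtain ⟨i, hi⟩ := four uq n _ m hn (fun e => H (Or.inl (by
              rw [← hs.1.1.1.inv]; exact (inv_eq_of_mul_eq_one_right e).symm))) fun e =>
              H (Or.inr (by rw [← e, ← mul_assoc s s, hs.1.1.1.2, one_mul]))
            refine nI s hs sR ab _ (pow_mem m i) hi ?_
            nth_rw 3 [← hs.1.1.1.inv]
            rw [← conj_pow, hs.1.1.1.inv, iv_inv hs.1.1.1 k2.1.1.1, inv_pow]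
          exact this.imp (fun e => cl_trans (mem_cl _ s) ⟨γ, k1, e⟩)
            fun e => cl_trans (mem_cl _ (s * z)) ⟨γ, k1, e⟩).trans
          (ncard_union_le (Cl (St G x c) s) (Cl (St G x c) (s * z)))
        rw [h.cL E.n] at a1 a2
        nlinarith
      by_cases hB : Jf G x c ⊆ Cl (St G x c) t
      · have := ncard_le_ncard hB
        have : e' ≤ 2 := by nlinarith
        omega
      obtain ⟨s, hs, ns⟩ := not_subset.1 hB
      obtain ⟨δ, k1, k2, k3⟩ := cov s hs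
      replace ns : δ * s * δ⁻¹ ∉ Cl (St G x c) t := fun H => ns (cl_trans H ⟨δ, k1, rfl⟩)
      generalize δ * s * δ⁻¹ = s at k2 k3 ns
      have iS : ∀ s ∈ Jf G x c, s ∈ R → ∀ u ∈ R ⊓ St G x c, s * u * s = u⁻¹ := fun s hs sR u hu => by
        have m : t * s ∈ R ⊓ St G x c := ⟨R.mul_mem tR sR, jf_mul ht.1.1 hs.1.1 ht.2 hs.2⟩
        calc s * u * s = t⁻¹ * (t * s * u) * s := by group
          _ = t⁻¹ * u * t⁻¹ * (t * t) * (s * s) * s⁻¹ * s := by rw [ab _ m u hu]; group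
          _ = _ := by rw [ht.1.1.2, hs.1.1.2, ht.1.1.inv, hA u hu]; group
      have sR : s ∈ R := by simpa using R.mul_mem (R.inv_mem tR) k3.1
      have b1 : Jf G x c ⊆ Cl (St G x c) t ∪ Cl (St G x c) s := fun r hr => by
        obtain ⟨γ, m1, m2, m3⟩ := cov r hr
        have := (all_inv (D := R ⊓ St G x c) (S := Cl (R ⊓ St G x c) t ∪ Cl (R ⊓ St G x c) s)
          (Or.inl (mem_cl _ t)) (by
            rintro _ (⟨g, hg, rfl⟩ | ⟨g, hg, rfl⟩)
            · exact ⟨ht.1.1.cj g, R.mul_mem tR (R.mul_mem (R.mul_mem hg.1 tR) (R.inv_mem hg.1)),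
                jf_mul ht.1.1 (ht.1.1.cj g) ht.2 (jf_cj ht hg.2.1 hg.2.2).2⟩
            · exact ⟨k2.1.1.cj g, R.mul_mem tR (R.mul_mem (R.mul_mem hg.1 sR) (R.inv_mem hg.1)),
                jf_mul ht.1.1 (k2.1.1.cj g) ht.2 (jf_cj k2 hg.2.1 hg.2.2).2⟩)
          (two_cl (fun ⟨g, hg, e⟩ => ns ⟨g, hg.2, e⟩) (card_le2 fun g hg => gd g ⟨hg.1.2, hg.2⟩)
            (card_le2 fun g hg => uq g hg.1 (inv_comm_sq k2.1.1 (iS s k2 sR g hg.1)
              (mem_cen1.1 hg.2).symm))) _ m3).1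
        rw [← mul_assoc t t, ht.1.1.2, one_mul] at this
        exact this.imp (fun ⟨g, hg, e⟩ => cl_trans ⟨g, hg.2, e⟩ ⟨γ, m1, rfl⟩)
          fun ⟨g, hg, e⟩ => cl_trans ⟨g, hg.2, e⟩ ⟨γ, m1, rfl⟩
      have b2 := (ncard_le_ncard b1).trans (ncard_union_le _ _)
      have b3 := cls (St G x c) s
      have b4 := h.nocl he S E q2 ht gd k2 ns
      have b5 : 2 ∣ #(St G x c ⊓ C[s] : Subgroup G) := by
        have : Fact (Nat.Prime 2) := ⟨Nat.prime_two⟩
        rw [← orderOf_eq_prime (p := 2) (sq z ▸ E.iv.2) E.iv.1]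
        exact Subgroup.orderOf_dvd_natCard _ ⟨zU.2, mem_cen1.2 (h.Wz he S E (hR.le sR)).symm⟩
      have b6 : ¬ 2 ^ 2 ∣ #(St G x c ⊓ C[s] : Subgroup G) := fun H => by
        obtain ⟨Q, m1, m2⟩ := exists_card_pow_le Nat.prime_two H
        have pQ := pGrp_of_card Nat.prime_two m2
        obtain ⟨v, m3, m4⟩ := exists_four (fun g hg => h.uqD he S E g (m1 hg).1) pQ (by omega)
        obtain ⟨γ, m5, m6⟩ := hR.cj (Q ⊔ ⟪s⟫) (pQ.sup k2.1.1.pg (cents_norm
          ((Subgroup.zpowers_le (G := G)).2 (mem_cen.2 fun g hg => mem_cen1.1 (m1 hg).2))))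
          (sup_le (fun g hg => h.DW he S E (m1 hg).1) ((Subgroup.zpowers_le (G := G)).2 (hR.le sR)))
        have := inv_comm_sq (k2.1.1.cj γ) (iS _ (jf_cj k2 m5.1 m5.2)
          (m6 s (Subgroup.mem_sup_right (Subgroup.mem_zpowers s))) _
          ⟨m6 v (Subgroup.mem_sup_left m3), h.nD he S E (h.DW he S E m5) (m1 m3).1⟩)
          (by rw [conj_mul, conj_mul, mem_cen1.1 (m1 m3).2])
        rw [conj_mul, m4, zc γ m5] at this
        exact E.iv.1 this
      obtain ⟨p, hp⟩ := k2.1.2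
      have b7 := h.free he S hL E.iv E.zx k2.1.1 hp (k2.2 ▸ E.n.1.symm)
        (P := St G x c ⊓ C[s]) fun g hg => ⟨hg.1.1, hg.2⟩
      rw [hf] at b7
      rw [h.cL E.n] at b3
      generalize #(St G x c ⊓ C[s] : Subgroup G) = σ at *
      have b8 : 6 ≤ σ := by omega
      have b9 : e' ≤ 10 := by
        have : 6 * ((Im G x b c d).ncard + 2 * (Jf G x c).ncard) ≤ 11 * L := by nlinarith
        nlinarith
      have := Nat.le_of_dvd (by omega) b7
      obtain ⟨rfl, rfl⟩ : e' = 10 ∧ σ = 6 := by interval_cases e' <;> interval_cases σ <;> omega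
      omega
    have hB : Jf G x c ⊆ Cl (St G x c) t := fun s hs => by
      by_contra ns
      obtain ⟨δ, k1, k2, k3⟩ := cov s hs
      refine hA (dicho hR.pg inf_le_left (fun ρ hρ => mem_nrm.2 fun u hu =>
        ⟨R.mul_mem (R.mul_mem hρ hu.1) (R.inv_mem hρ), h.nD he S E (hR.le hρ) hu.2⟩) tR ht.1.1
        (card_le2 fun g hg => gd g ⟨hg.1.2, hg.2⟩) k3 (iv_inv ht.1.1 k2.1.1) fun ⟨g, hg, e⟩ => ?_)
      rw [← mul_assoc t t, ht.1.1.2, one_mul] at e
      exact ns (cl_trans ⟨g, hg.2, e⟩ ⟨δ, k1, rfl⟩)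
    have i2 : 4 * (Im G x b c d).ncard ≤ 3 * L := by
      by_contra H
      obtain ⟨s, hs⟩ := (ncard_pos (toFinite (Im G x b c d))).1 (by omega)
      obtain ⟨δ, -, hs, sR⟩ := covI s hs
      generalize δ * s * δ⁻¹ = s at hs sR
      have := inj_le (S := Im G x b c d) (T := {g | g ∈ St G x c ∧ s * g * s = g⁻¹}) (s * ·)
        (fun r hr => ⟨im_mul hs hr, iv_inv hs.1.1.1 hr.1.1.1⟩) fun _ _ _ _ e => mul_left_cancel e
      have i3 := three_four (D := St G x c) hs.1.1.1 (by rw [h.cL E.n]; omega)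
      exact nI s hs sR (fun g hg r hr => inv_ab hs.1.1.1 i3 hg.2 hr.2) w hw e1 (i3 w hw.2)
    have := ncard_le_ncard hB
    have : e' ≤ 6 := by nlinarith
    omega
  have hl : l = k * e' := Nat.eq_of_mul_eq_mul_right L0 (by rw [h.lL, ← ee]; ring)
  have e2 : 2 ≤ e' := by omega
  obtain ⟨ρ, r1, N, r2⟩ := srg a (fun _ _ => h.symm) (fun x H => h.irr H rfl) h.ck h.cn
    (fun _ _ _ => h.lam0 hk) (fun _ _ k1 k2 => h.mu hk ⟨k1, k2⟩) (by rw [hl, hk, ← ee]; ring)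
    (by nlinarith) (by omega) (by
      rw [hl]; have := Nat.le_of_dvd L0 L4; have := h.k2; nlinarith)
  obtain rfl := arith L4 L0 hf' (by rw [hk, ← ee, mul_comm]) (by rw [hl]) r1 r2
  have eU : R ⊓ St G x c = St G x c := Subgroup.eq_of_le_of_card_ge inf_le_right
    (by rw [h.cL E.n]; exact four_le E.iv hw e1)
  rw [eU] at hw uq
  have n1 : w ≠ 1 := fun e => E.iv.1 (by rw [← e1, e, mul_one])
  have n2 : w ≠ z := fun e => E.iv.1 (by rw [← e1, e, E.iv.2])
  have n3 : w ≠ w⁻¹ := fun e => E.iv.1 (by rw [← e1]; nth_rw 1 [e]; rw [inv_mul_cancel])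
  have n4 : z ≠ w⁻¹ := fun e => n2 (by rw [← E.iv.inv, e, inv_inv])
  have eD : ({1, z, w, w⁻¹} : Set G) = St G x c := eq_of_subset_of_ncard_le (by
    rintro _ (rfl | rfl | rfl | rfl); exacts [one_mem _, zU.2, hw, inv_mem hw]) (by
    rw [sub_card, h.cL E.n, ncard_insert_of_notMem (by simp [E.iv.1.symm, n1.symm, n1]),
      ncard_insert_of_notMem (by simp [n2.symm, n4]), ncard_pair n3])
  have iw : t * w * t = w⁻¹ := by
    have := h.nD he S E tW hw
    rcases eD.ge this with e | e | e | e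
    · exact (n1 (by simpa using e)).elim
    · exact (n2 (by rwa [mul_inv_eq_iff_eq_mul, ← tz, mul_right_inj] at e)).elim
    · exact ((gd w ⟨hw, mem_cen1.2 (mul_inv_eq_iff_eq_mul.1 e).symm⟩).elim n1 n2).elim
    · rwa [ht.1.1.inv] at e
  intro g hg
  rcases eD.ge hg with rfl | rfl | rfl | rfl
  · simpa using ht.1.1.2
  · rw [tz, mul_assoc, ht.1.1.2, mul_one, E.iv.inv]
  · exact iw
  · rw [inv_inv, ← iw, show t * (t * w * t) * t = t * t * w * (t * t) by group, ht.1.1.2]; group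

omit ht gd E he S in
theorem main : Nat.card X = 10 ∧ k * e = 6 ∨ Nat.card X = 16 ∧ (k * e = 20 ∨ k = 9) := by
  by_cases NZ : ∀ x y, Na a x y → ∀ z ∈ Z(K x), z • y = y → z = 1
  swap
  · simp only [not_forall] at NZ
    obtain ⟨x, y, n, z, k1, k2, k3⟩ := NZ
    exact Or.inr ((h.lines (h.hr n k3 k1 k2)).imp_right Or.inr)
  have he := h.even_e' NZ
  have S : Sr a K := fun x y n g hg => NZ x y n g ⟨hg, mem_cen.2 fun s hs => h.Kab he hs hg⟩
  by_cases hL : 2 ∣ L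
  swap
  · obtain ⟨k1, rfl, rfl⟩ := h.odd_L he S hL
    exact Or.inl ⟨k1, rfl⟩
  obtain ⟨z, x, b, c, d, E⟩ := h.exEv he S hL
  have h4 : 4 ∣ {p : X | z • p = p}.ncard := by_contra fun H => h.v_odd he S hL H E
  have b1 := h.cnt he S E.iv E.zx E.ab E.n
  have b2 := h.fixN he S E
  have b3 := h.fixA he S E
  have b4 := h.iota he S E (by omega)
  have b5 : (Im G x b c d).ncard ≤ L := h.cL E.n ▸ swap_le _ fun s hs t ht => im_mul hs ht
  have b6 : (Jf G x c).ncard ≤ L := h.cL E.n ▸ jf_st x c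
  obtain ⟨m, hm⟩ := h.ek
  have L0 := h.L0
  have k2 := h.k2
  generalize {p | Na a x p ∧ z • p = p}.ncard = e' at *
  have e2 : 2 ≤ e' := by omega
  have b7 : l = k * e' := Nat.eq_of_mul_eq_mul_right L0 (by rw [h.lL, ← b2]; ring)
  rw [b3, b7] at b1
  have b8 : m * L * e' * (1 + e') = ((Jf G x b).ncard + e' * (Jf G x c).ncard) * (2 + e') := by
    have : 1 + k + k * e' = (1 + (Jf G x b).ncard + e' * (Jf G x c).ncard) * (2 + e') :=
      Nat.eq_of_mul_eq_mul_right (by omega : 0 < k) (by rw [b1]; ring)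
    rw [hm, ← b2] at this
    nlinarith
  have b9 : 2 * (m * L) * (1 + e') ≤ ((Im G x b c d).ncard + 2 * (Jf G x c).ncard) * (2 + e') :=
    Nat.le_of_mul_le_mul_left (by nlinarith [Nat.mul_le_mul_right (2 + e') b4]) (by omega : 0 < e')
  have c1 := Nat.mul_le_mul_right (2 + e') (show (Im G x b c d).ncard + 2 * (Jf G x c).ncard ≤ 3 * L
    by omega)
  rcases m with _ | _ | m
  · omega
  swap
  · have c2 : 4 * L * (1 + e') ≤ ((Im G x b c d).ncard + 2 * (Jf G x c).ncard) * (2 + e') :=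
      le_trans (by nlinarith) b9
    obtain rfl : e' = 2 := by nlinarith
    exact (h.a_two he S E (by omega) (by omega) b3).elim
  have hk : k = e + 1 := by omega
  obtain ⟨t, ht, gd⟩ := h.good he S hL hk E
  rw [b3] at h4
  obtain ⟨rfl, rfl⟩ := h.a_one he S hL E b3 h4 (by simpa using b9) (by
      by_contra H
      nlinarith [Nat.mul_le_mul_left (e' * (2 + e')) (not_lt.1 H)]) (by
      have c2 : 2 + e' ∣ L * e' := (show (2 + e').Coprime (1 + e') by
        rw [show 2 + e' = 1 + (1 + e') by omega]; simp).dvd_of_dvd_mul_right ⟨_, by rw [mul_comm (2 + e'), ← b8]; ring⟩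
      exact (Nat.dvd_add_left c2).1 ⟨L, by ring⟩) b2 ht gd hk
  right
  rw [h.cn, b7, hk, ← b2]; omega

end Rk
end Cfsg.Agent.GW.RK
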