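import Mathlib
import Cfsg.Agent.GW.Rk9
import Cfsg.Agent.S0035
import Cfsg.Agent.S0042
import Cfsg.Agent.S0144
import Cfsg.Agent.S0494
import Cfsg.Agent.S0547

/-! Rank 3 groups with a Frobenius subconstituent: assembly. -/
set_option autoImplicit false
set_option linter.unusedSectionVars false
namespace Cfsg.Agent.GW.RK
open Set MulAction Cfsg.Agent.FT Cfsg.Agent.GW.ON
open scoped Pointwise

variable {G X : Type*} [Group G] [MulAction G X] [Finite G] [Finite X]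

theorem prim_rel (hp : IsPreprimitive G X) (r : X → X → Prop) (rf : ∀ x, r x x)
    (sy : ∀ x y, r x y → r y x) (tr : ∀ x y w, r x y → r y w → r x w)
    (iv : ∀ (g : G) x y, r x y → r (g • x) (g • y)) {A C : X} (ne : A ≠ C) (H : r A C) (y : X) :
    r A y := by
  have : Nontrivial X := ⟨A, C, ne⟩
  let M : Subgroup G := ⟨⟨⟨{g | r A (g • A)}, fun {a b} ha hb => tr _ _ _ ha
    (by simpa only [mul_smul] using iv a _ _ hb)⟩, by simpa using rf A⟩, fun {a} ha =>
      sy _ _ (by simpa using iv a⁻¹ _ _ ha)⟩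
  obtain ⟨g, rfl⟩ := exists_smul_eq G A C
  obtain ⟨s, rfl⟩ := exists_smul_eq G A y
  have := (IsPreprimitive.isCoatom_stabilizer_of_isPreprimitive G A).2 M (lt_of_le_of_ne
    (fun g hg => show r A (g • A) by rw [show g • A = A from hg]; exact rf A)
    fun e => ne (e.ge (show g ∈ M from H)).symm)
  exact this.ge (Subgroup.mem_top s)

theorem ncard_tr {p : X → X → Prop} (iv : ∀ (g : G) x y, p x y → p (g • x) (g • y)) (g : G) (x : X) :
    {y | p (g • x) y}.ncard = {y | p x y}.ncard :=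
  (inj_le (g⁻¹ • ·) (fun y hy => by simpa using iv g⁻¹ _ _ hy)
    fun _ _ _ _ e => MulAction.injective _ e).antisymm
    (inj_le (g • ·) (fun y hy => iv g _ _ hy) fun _ _ _ _ e => MulAction.injective _ e)

theorem card_st (g : G) (x y : X) : #(St G (g • x) (g • y)) = #(St G x y) := by
  have k : ∀ (g : G) (x y : X), #(St G x y) ≤ #(St G (g • x) (g • y)) := fun g x y =>
    card_le_cj g fun a ha => ⟨(cj_smul g a x).trans (congrArg _ ha.1),
      (cj_smul g a y).trans (congrArg _ ha.2)⟩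
  exact (by simpa using k g⁻¹ (g • x) (g • y) : _ ≤ _).antisymm (k g x y)

theorem exists_rk [FaithfulSMul G X] (heven : Even (Nat.card G)) (hp : IsPreprimitive G X) (A : X)
    (h3 : Nat.card (orbitRel.Quotient ↥(stabilizer G A) X) = 3) (B : X) (hBA : B ≠ A)
    (hfaith : ∀ g ∈ stabilizer G A, (∀ h ∈ stabilizer G A, g • (h • B) = h • B) → g = 1)
    (hfix : ∃ g ∈ stabilizer G A, g ≠ 1 ∧ g • B = B)
    (hfrob : ∀ g ∈ stabilizer G A, ∀ h ∈ stabilizer G A, g • B = B → g • (h • B) = h • B →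
      h • B ≠ B → g = 1) :
    ∃ (a : X → X → Prop) (K : X → Subgroup G) (k e L l : ℕ), Rk a K k e L l := by
  let a : X → X → Prop := fun x y => ∃ g : G, g • A = x ∧ g • B = y
  have aB : a A B := ⟨1, one_smul _ _, one_smul _ _⟩
  have iv : ∀ (g : G) x y, a x y → a (g • x) (g • y) := by
    rintro g _ _ ⟨s, rfl, rfl⟩; exact ⟨g * s, mul_smul _ _ _, mul_smul _ _ _⟩
  have irr : ∀ {x y}, a x y → x ≠ y := by
    rintro _ _ ⟨s, rfl, rfl⟩ e; exact hBA (MulAction.injective s e).symm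
  have ivn : ∀ (g : G) x y, Na a x y → Na a (g • x) (g • y) := fun g x y n =>
    ⟨fun e => n.1 (MulAction.injective g e), fun H => n.2 (by simpa using iv g⁻¹ _ _ H)⟩
  have tA : ∀ {x y u v}, a x y → a u v → ∃ g : G, g • x = u ∧ g • y = v := by
    rintro _ _ _ _ ⟨s, rfl, rfl⟩ ⟨t, rfl, rfl⟩; exact ⟨t * s⁻¹, by simp [mul_smul]⟩
  let q : X → orbitRel.Quotient ↥(stabilizer G A) X := Quotient.mk _
  have qe : ∀ x y, q x = q y ↔ ∃ g : G, g • A = A ∧ g • y = x := fun x y =>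
    ⟨fun e => by obtain ⟨g, e⟩ := Quotient.exact e; exact ⟨g, g.2, e⟩,
      fun ⟨g, e1, e2⟩ => Quotient.sound ⟨⟨g, e1⟩, e2⟩⟩
  have qn : ∀ x, Na a A x ↔ q x ≠ q A ∧ q x ≠ q B := fun x => by
    rw [Ne, Ne, qe, qe]
    exact ⟨fun n => ⟨fun ⟨g, e1, e2⟩ => n.1 (e1.symm.trans e2), n.2⟩,
      fun n => ⟨fun e => n.1 ⟨1, one_smul _ _, by rw [one_smul, e]⟩, n.2⟩⟩
  have qAB : q A ≠ q B := fun e => by
    obtain ⟨g, e1, e2⟩ := (qe _ _).1 e.symm; exact hBA (e2.symm.trans e1)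
  rw [← ncard_univ] at h3
  obtain ⟨C, nC⟩ : ∃ C, Na a A C := by
    by_contra H
    have := le_two (S := univ) (q A) (q B) fun c _ => by
      obtain ⟨x, rfl⟩ := Quotient.exists_rep c
      by_contra H'
      exact H ⟨x, (qn x).2 ⟨fun e => H' (Or.inl e), fun e => H' (Or.inr e)⟩⟩
    omega
  have tN0 : ∀ {y}, Na a A y → ∃ g : G, g • A = A ∧ g • C = y := fun {y} n => (qe _ _).1 (by
    by_contra H
    have k1 := (qn _).1 n
    have k2 := (qn _).1 nC
    have := ncard_le_ncard (subset_univ {q y, q C, q A, q B})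
    rw [ncard_insert_of_notMem (by simp [H, k1]), ncard_insert_of_notMem (by simp [k2]),
      ncard_pair qAB] at this
    omega)
  have tN : ∀ {x y u v}, Na a x y → Na a u v → ∃ g : G, g • x = u ∧ g • y = v := by
    have k : ∀ {x y}, Na a x y → ∃ g : G, g • A = x ∧ g • C = y := fun {x y} n => by
      obtain ⟨g, rfl⟩ := exists_smul_eq G A x
      obtain ⟨s, e1, e2⟩ := tN0 (y := g⁻¹ • y) (by simpa using ivn g⁻¹ _ _ n)
      exact ⟨g * s, by simp [mul_smul, e1, e2]⟩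
    intro x y u v n1 n2
    obtain ⟨s, rfl, rfl⟩ := k n1
    obtain ⟨t, rfl, rfl⟩ := k n2
    exact ⟨t * s⁻¹, by simp [mul_smul]⟩
  have symm : ∀ {x y}, a x y → a y x := fun {x y} H => by
    obtain ⟨t, -, ht⟩ := exists_iv (H := (⊤ : Subgroup G)) (by simpa using heven.two_dvd)
    obtain ⟨p, hp⟩ : ∃ p : X, t • p ≠ p := by
      by_contra H'
      push Not at H'
      exact ht.1 (FaithfulSMul.eq_of_smul_eq_smul (α := X) fun p => by rw [H', one_smul])
    by_cases k : a p (t • p)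
    · obtain ⟨g, rfl, rfl⟩ := tA k H
      exact iv g _ _ (by simpa only [ht.ss] using iv t _ _ k)
    by_contra H'
    obtain ⟨g, rfl, rfl⟩ := tN ⟨hp.symm, k⟩ ⟨(irr H).symm, H'⟩
    exact k (by simpa only [ht.ss, inv_smul_smul] using iv t _ _ (iv g⁻¹ _ _ H))
  have f1 : ∀ {g : G} {x y w}, a x y → a x w → y ≠ w → g • x = x → g • y = y → g • w = w → g = 1 := by
    rintro g _ _ w ⟨s, rfl, rfl⟩ ⟨t, e1, rfl⟩ ne e2 e3 e4
    have := hfrob (s⁻¹ * g * s) (by simp [mul_smul, e2]) (s⁻¹ * t) (by simp [mul_smul, e1])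
      (by simp [mul_smul, e3]) (by simp [mul_smul, e4]) fun e => ne (by
        rw [mul_smul, inv_smul_eq_iff] at e; exact e.symm)
    simpa [mul_assoc, inv_mul_eq_one] using this
  obtain ⟨g0, g1, g2, g3⟩ := hfix
  let E : Subgroup (stabilizer G A) := (stabilizer G B).subgroupOf _
  have mc : ∀ g x : stabilizer G A, x ∈ MulAut.conj g • E ↔ (x : G) • (g : G) • B = (g : G) • B :=
    fun g x => by
      rw [Subgroup.mem_pointwise_smul_iff_inv_smul_mem]
      simp [E, Subgroup.mem_subgroupOf, mul_smul, inv_smul_eq_iff]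
  have hE : IsFrobeniusComplement E := ⟨fun e => g2 (congrArg Subtype.val
    ((Subgroup.eq_bot_iff_forall _).1 e ⟨g0, g1⟩ g3)), fun e => g2 (hfaith g0 g1 fun h hh => by
      rw [show h • B = B from e.ge (Subgroup.mem_top (⟨h, hh⟩ : stabilizer G A)), g3]),
    fun g hg => (Subgroup.eq_bot_iff_forall _).2 fun x hx =>
      Subtype.ext (hfrob x x.2 g g.2 hx.1 ((mc g x).1 hx.2) hg)⟩
  obtain ⟨N, N1, -, N2⟩ := S0035.result E hE
  obtain ⟨N', N3, -, N4⟩ := S0042.result E hE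
  obtain rfl : N = N' := SetLike.coe_injective (N1.trans N3.symm)
  have mK0 : ∀ g : G, g ∈ N.map (stabilizer G A).subtype ↔
      g • A = A ∧ (g = 1 ∨ ∀ y, a A y → g • y ≠ y) := fun g => by
    constructor
    · rintro ⟨n, hn, rfl⟩
      refine ⟨n.2, (N1.le hn).imp (congrArg Subtype.val) ?_⟩
      rintro H _ ⟨s, e1, rfl⟩ e
      exact H ⟨s, e1⟩ ((mc _ n).2 e)
    · rintro ⟨e, H⟩
      exact ⟨⟨g, e⟩, N1.ge (H.imp Subtype.ext fun H s e => H _ ⟨s, s.2, rfl⟩ ((mc s _).1 e)), rfl⟩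
  choose γ hγ using exists_smul_eq G A
  have mK : ∀ {x} {g : G}, g ∈ cj (γ x) (N.map (stabilizer G A).subtype) ↔
      g • x = x ∧ (g = 1 ∨ ∀ y, a x y → g • y ≠ y) := fun {x g} => by
    rw [mem_cj, mK0, mul_smul, mul_smul, inv_smul_eq_iff, hγ]
    refine and_congr_right fun _ => or_congr (by simp [mul_assoc, inv_mul_eq_one]) ⟨fun H y k e => ?_,
      fun H y k e => H (γ x • y) (by simpa only [hγ] using iv (γ x) _ _ k) (by
        rwa [mul_smul, mul_smul, inv_smul_eq_iff] at e)⟩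
    exact H ((γ x)⁻¹ • y) (by
      have := iv (γ x)⁻¹ _ _ k
      rwa [show (γ x)⁻¹ • x = A from inv_smul_eq_iff.2 (hγ x).symm] at this) (by simp [mul_smul, e])
  refine ⟨a, fun x => cj (γ x) (N.map (stabilizer G A).subtype), {y | a A y}.ncard, #(St G A B),
    #(St G A C), {y | Na a A y}.ncard, symm, irr, fun g _ _ => iv g _ _, tA, tN, f1, mK, ?_,
    fun x => Nil.cj (Group.nilpotent_of_mulEquiv (N.equivMapOfInjective _ Subtype.val_injective)) _,
    ?_, ?_, heven.two_dvd, (Subgroup.one_lt_card_iff_ne_bot _).2 fun e =>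
      g2 ((Subgroup.eq_bot_iff_forall _).1 e g0 ⟨g1, g3⟩), fun x => hγ x ▸ ncard_tr iv _ _,
    fun x => hγ x ▸ ncard_tr ivn _ _, ?_, fun n => ?_⟩
  · have k : ∀ {x y}, a x y → ∃ g ∈ cj (γ x) (N.map (stabilizer G A).subtype), g • γ x • B = y := by
      rintro x _ ⟨s, e1, rfl⟩
      obtain ⟨⟨n, e⟩, H⟩ := (N2.existsUnique ⟨(γ x)⁻¹ * s, by simp [mul_smul, e1, inv_smul_eq_iff,
        hγ]⟩).exists
      refine ⟨γ x * n * (γ x)⁻¹, conj_mem_cj.2 ⟨n, n.2, rfl⟩, ?_⟩
      have : ((n : stabilizer G A) : G) * e = (γ x)⁻¹ * s := congrArg Subtype.val H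
      rw [cj_smul, ← show ((e : stabilizer G A) : G) • B = B from e.2, ← mul_smul (n : G), this,
        ← mul_smul, mul_inv_cancel_left, show ((e : stabilizer G A) : G) • B = B from e.2]
    intro x y w k1 k2
    obtain ⟨g, hg, rfl⟩ := k k1
    obtain ⟨s, hs, rfl⟩ := k k2
    exact ⟨s * g⁻¹, mul_mem hs (inv_mem hg), by simp [mul_smul]⟩
  · by_contra H
    refine (prim_rel hp (fun x y => ¬ a x y) (fun x k => irr k rfl) (fun x y k k' => k (symm k'))
      (fun x y w k1 k2 k3 => H ⟨y, x, w, ⟨?_, fun k => k1 (symm k)⟩, ⟨?_, k2⟩, k3⟩)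
      (fun g x y k k' => k (by simpa using iv g⁻¹ _ _ k')) nC.1 nC.2 B) aB
    exacts [fun e => k2 (e ▸ k3), fun e => k1 (e ▸ k3)]
  · by_contra H
    refine (prim_rel hp (fun x y => ¬ Na a x y) (fun x k => k.1 rfl)
      (fun x y k k' => k ⟨k'.1.symm, fun k => k'.2 (symm k)⟩)
      (fun x y w k1 k2 k3 => H ⟨y, x, w, symm ?_, ?_, k3⟩)
      (fun g x y k k' => k (by simpa using ivn g⁻¹ _ _ k')) hBA.symm (fun k => k.2 aB) C) nC
    exacts [by_contra fun k => k1 ⟨fun e => k2 (e ▸ k3), k⟩,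
      by_contra fun k => k2 ⟨fun e => k1 (e ▸ k3), k⟩]
  · rintro _ _ ⟨g, rfl, rfl⟩; exact card_st g A B
  · obtain ⟨g, rfl, rfl⟩ := tN nC n; exact card_st g A C

theorem sol60 {H : Type*} [Group H] [Finite H] (h : Nat.card H ∣ 60) (h' : Nat.card H ≠ 60) :
    Group.IsSolvable H := by
  by_cases e : Nat.card H = 30
  · have := IsZGroup.of_squarefree (G := H) (by
      rw [e, show 30 = 2 * (3 * 5) from rfl, Nat.squarefree_mul (by decide),
        Nat.squarefree_mul (by decide)]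
      exact ⟨Nat.prime_two.squarefree, Nat.prime_three.squarefree, Nat.prime_five.squarefree⟩)
    infer_instance
  obtain ⟨p, q, a, b, hp, hq, e⟩ : ∃ p q a b : ℕ, p.Prime ∧ q.Prime ∧ Nat.card H = p ^ a * q ^ b := by
    have := Nat.le_of_dvd (by omega) h
    have : Nat.card H ∣ 12 ∨ Nat.card H ∣ 20 ∨ Nat.card H = 15 := by
      generalize Nat.card H = n at *
      interval_cases n <;> omega
    rcases this with k | k | k
    · obtain ⟨x, y, hx, hy, e⟩ := (Nat.dvd_mul (m := 2 ^ 2) (n := 3 ^ 1)).1 k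
      obtain ⟨a, -, rfl⟩ := (Nat.dvd_prime_pow Nat.prime_two).1 hx
      obtain ⟨b, -, rfl⟩ := (Nat.dvd_prime_pow Nat.prime_three).1 hy
      exact ⟨2, 3, a, b, Nat.prime_two, Nat.prime_three, e.symm⟩
    · obtain ⟨x, y, hx, hy, e⟩ := (Nat.dvd_mul (m := 2 ^ 2) (n := 5 ^ 1)).1 k
      obtain ⟨a, -, rfl⟩ := (Nat.dvd_prime_pow Nat.prime_two).1 hx
      obtain ⟨b, -, rfl⟩ := (Nat.dvd_prime_pow Nat.prime_five).1 hy
      exact ⟨2, 5, a, b, Nat.prime_two, Nat.prime_five, e.symm⟩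
    · exact ⟨3, 5, 1, 1, Nat.prime_three, Nat.prime_five, k⟩
  exact S0144.result p q a b hp hq e

theorem sol_reg [FaithfulSMul G X] [Nontrivial G] [Nonempty X] (hp : IsPreprimitive G X)
    (hs : Group.IsSolvable G) : ∃ N : Subgroup G, N.Normal ∧ #N = Nat.card X ∧
      (∀ x y : X, ∃! n : N, (n : G) • x = y) ∧ IsPrimePow (Nat.card X) := by
  obtain ⟨N, ⟨h1, h2⟩, h3⟩ := (wellFounded_lt (α := Subgroup G)).has_min
    {N | N.Normal ∧ N ≠ ⊥} ⟨⊤, inferInstance, top_ne_bot⟩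
  obtain ⟨k1, k2, p, d, k3, k4, k5, k6⟩ := S0547.result hp N h2 fun K a b =>
    or_iff_not_imp_left.2 fun c => by_contra fun d => h3 K ⟨a, c⟩ (lt_of_le_of_ne b d)
  refine ⟨N, h1, k6.trans k5.symm, fun x y => ?_, k5 ▸ ⟨p, d, k3.prime, k4, rfl⟩⟩
  obtain ⟨n, e⟩ := exists_smul_eq N x y
  refine ⟨n, e, fun m e' => (inv_mul_eq_one.1 ((Subgroup.eq_bot_iff_forall _).1 (k2 x) (n⁻¹ * m) ?_)).symm⟩
  rw [mem_stabilizer_iff, mul_smul, inv_smul_eq_iff, e]; exact e'

theorem Rk.final [FaithfulSMul G X] {a : X → X → Prop} {K : X → Subgroup G} {k e L l : ℕ}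
    (h : Rk a K k e L l) (hp : IsPreprimitive G X) :
    (Nonempty (G ≃* ↥(alternatingGroup (Fin 5))) ∧ Nat.card X = 10) ∨
    (Group.IsSolvable G ∧ ∃ N : Subgroup G, N.Normal ∧ Nat.card N = 16 ∧
      ∀ x y : X, ∃! n : ↥N, (n : G) • x = y) := by
  have c := h.cG
  have : Nonempty X := ⟨h.c1.choose⟩
  have : Nontrivial G := Finite.one_lt_card_iff_nontrivial.1
    (Nat.le_of_dvd Nat.card_pos h.ev)
  rcases h.main with ⟨k1, k2⟩ | ⟨k1, k2⟩
  · rw [k1, k2] at c
    replace c : Nat.card G = 60 := c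
    have : IsSimpleGroup G := ⟨fun N hN => by
      by_contra H
      push Not at H
      have a1 := N.card_mul_index
      have a2 := (Subgroup.one_lt_card_iff_ne_bot N).2 H.1
      have a3 := Subgroup.one_lt_index_of_ne_top H.2
      have := sol60 (H := N) (c ▸ N.card_subgroup_dvd_card) (by intro e; rw [e] at a1; omega)
      have := sol60 (H := G ⧸ N) (c ▸ N.index_dvd_card) (by
        intro e; rw [Subgroup.index, e] at a1; omega)
      obtain ⟨-, -, -, -, k⟩ := sol_reg hp (Group.isSolvable_of_ker_le_range N.subtype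
        (QuotientGroup.mk' N) (by simp))
      rw [k1] at k
      exact absurd k (by decide)⟩
    exact Or.inl ⟨S0494.result c, k1⟩
  have s : Group.IsSolvable G := by
    rcases k2 with k2 | rfl
    · exact S0144.result 2 5 6 1 Nat.prime_two Nat.prime_five (by rw [c, k1, k2]; rfl)
    obtain ⟨m, hm⟩ := h.ek
    obtain ⟨j, -, rfl⟩ := (Nat.dvd_prime_pow (m := 3) Nat.prime_two).1
      (Dvd.intro_left m (by omega) : e ∣ 2 ^ 3)
    exact S0144.result 2 3 (4 + j) 2 Nat.prime_two Nat.prime_three (by rw [c, k1]; ring)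
  obtain ⟨N, a1, a2, a3, -⟩ := sol_reg hp s
  exact Or.inr ⟨s, N, a1, a2.trans k1, a3⟩

end Cfsg.Agent.GW.RK
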