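import Mathlib
import Cfsg.Agent.S0144

set_option autoImplicit false

namespace Cfsg.Agent.GW.SyN
open Subgroup

variable {G : Type*} [Group G] [Finite G]

theorem syl_quot_dvd (N : Subgroup G) [N.Normal] (r : ℕ) [Fact r.Prime] :
    Nat.card (Sylow r (G ⧸ N)) ∣ Nat.card (Sylow r G) := by
  obtain ⟨R⟩ : Nonempty (Sylow r G) := inferInstance
  have hs := QuotientGroup.mk'_surjective N
  rw [R.card_eq_index_normalizer, (R.mapSurjective hs).card_eq_index_normalizer,
    ← index_comap_of_surjective _ hs]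
  exact index_dvd_of_le (map_le_iff_le_comap.1 (le_normalizer_map _))

theorem syl_sub_dvd (N : Subgroup G) [hN : N.Normal] (r : ℕ) [Fact r.Prime] :
    Nat.card (Sylow r N) ∣ Nat.card (Sylow r G) := by
  obtain ⟨Q⟩ : Nonempty (Sylow r N) := inferInstance
  obtain ⟨R, hR⟩ := Q.exists_comap_subtype_eq
  have h1 := Q.normalizer_sup_eq_top
  set M := normalizer (((Q : Subgroup N).map N.subtype : Subgroup G) : Set G) with hM
  have e : (Q : Subgroup N).map N.subtype = (R : Subgroup G) ⊓ N := by
    rw [← hR]; exact subgroupOf_map_subtype _ _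
  have h2 : normalizer ((R : Subgroup G) : Set G) ≤ M := by
    intro g hg
    rw [hM, e, mem_normalizer_iff]
    intro x
    exact and_congr (mem_normalizer_iff.1 hg x) ⟨fun h => hN.conj_mem _ h _, fun h => by
      simpa [mul_assoc] using hN.conj_mem _ h g⁻¹⟩
  have h3 : normalizer ((Q : Subgroup N) : Set N) = M.subgroupOf N := by
    ext g
    rw [mem_subgroupOf, hM, mem_normalizer_iff, mem_normalizer_iff]
    constructor
    · intro h x
      constructor
      · rintro ⟨y, hy, rfl⟩; exact ⟨_, (h y).1 hy, rfl⟩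
      · rintro ⟨y, hy, e⟩
        have : x = ((g⁻¹ * y * g : N) : G) := by
          simp only [coe_subtype] at e; simp [e, mul_assoc]
        refine ⟨g⁻¹ * y * g, (h _).2 (by
          rw [show g * (g⁻¹ * y * g) * g⁻¹ = y by group]; exact hy), this.symm⟩
    · intro h x
      have := h x
      rwa [← coe_inv, ← coe_mul, ← coe_mul, ← coe_subtype, mem_map_iff_mem Subtype.val_injective,
        mem_map_iff_mem Subtype.val_injective] at this
  have h4 : M.relIndex N = M.index := by
    have a1 := relIndex_mul_index (inf_le_right : M ⊓ N ≤ N)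
    have a2 := relIndex_mul_index (inf_le_left : M ⊓ N ≤ M)
    rw [inf_relIndex_right] at a1
    rw [inf_relIndex_left, ← relIndex_sup_right M N, h1, relIndex_top_right, ← a1, mul_comm] at a2
    exact (Nat.eq_of_mul_eq_mul_right (Nat.pos_of_ne_zero N.index_ne_zero_of_finite) a2).symm
  rw [R.card_eq_index_normalizer, Q.card_eq_index_normalizer]
  exact (congrArg index h3).trans h4 ▸ index_dvd_of_le h2

theorem key [IsSimpleGroup G] {r q : ℕ} [Fact r.Prime] [Fact q.Prime] (hq : q ∣ Nat.card G)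
    (h1 : ¬ q ∣ Nat.card (Sylow r G))
    (h2 : (Nat.card (Sylow r G)).Coprime (Nat.card (Sylow q G))) : Nat.card (Sylow r G) = 1 := by
  obtain ⟨R⟩ : Nonempty (Sylow r G) := inferInstance
  rw [R.card_eq_index_normalizer] at *
  set M := normalizer (R : Set G)
  obtain ⟨Q0⟩ : Nonempty (Sylow q M) := inferInstance
  obtain ⟨Q, hQ⟩ : ∃ Q : Sylow q G, (Q : Subgroup G) ≤ M := by
    refine ⟨Sylow.ofCard ((Q0 : Subgroup M).map M.subtype) ?_, map_subtype_le _⟩
    rw [card_map_of_injective Subtype.val_injective, Q0.card_eq_multiplicity, ← M.card_mul_index,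
      Nat.factorization_mul Nat.card_pos.ne' M.index_ne_zero_of_finite, Finsupp.add_apply,
      Nat.factorization_eq_zero_of_not_dvd h1, add_zero]
  rw [Q.card_eq_index_normalizer] at h2
  set K := normalizer (Q : Set G)
  have hall : ∀ g : G, ∃ m ∈ M, ∃ k ∈ K, g = m * k := by
    intro g
    have a1 : K.relIndex M = K.index := by
      have b1 := relIndex_mul_index (inf_le_right : K ⊓ M ≤ M)
      have b2 := index_dvd_of_le (inf_le_left : K ⊓ M ≤ K)
      rw [inf_relIndex_right] at b1
      rw [← b1] at b2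
      refine le_antisymm ?_ (Nat.le_of_dvd (Nat.pos_of_ne_zero index_ne_zero_of_finite)
        (h2.symm.dvd_of_dvd_mul_right b2))
      rw [← relIndex_top_right (H := K)]
      exact relIndex_le_of_le_right le_top (by simpa using index_ne_zero_of_finite)
    have a2 : Function.Bijective (quotientSubgroupOfEmbeddingOfLE K (le_top (a := M))) :=
      (Nat.bijective_iff_injective_and_card _).2 ⟨Function.Embedding.injective _,
        a1.trans K.relIndex_top_right.symm⟩
    obtain ⟨m, hm⟩ := a2.2 (⟨g, trivial⟩ : (⊤ : Subgroup G))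
    obtain ⟨m, rfl⟩ := QuotientGroup.mk_surjective m
    rw [quotientSubgroupOfEmbeddingOfLE_apply_mk, QuotientGroup.eq, mem_subgroupOf] at hm
    exact ⟨m, m.2, _, hm, by simp⟩
  rcases (normalCore_normal M).eq_bot_or_eq_top with e | e
  · exfalso
    have : (Q : Subgroup G) = ⊥ := by
      rw [eq_bot_iff, ← e]
      intro x hx g
      obtain ⟨m, hm, k, hk, rfl⟩ := hall g
      have := mul_mem (mul_mem hm (hQ ((mem_set_normalizer_iff.1 hk x).1 hx))) (inv_mem hm)
      simpa [mul_assoc] using this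
    have h5 := Q.not_dvd_index
    rw [this, index_bot] at h5
    exact h5 hq
  · exact index_eq_one.2 (top_le_iff.1 (e ▸ normalCore_le M))

theorem simple_case [IsSimpleGroup G]
    (h : ∀ (r : ℕ) [Fact r.Prime], Nat.card (Sylow r G) = 1 ∨ IsPrimePow (Nat.card (Sylow r G))) :
    Group.IsSolvable G := by
  by_cases h0 : ∃ r : ℕ, ∃ _ : Fact r.Prime, r ∣ Nat.card G ∧ Nat.card (Sylow r G) = 1
  · obtain ⟨r, _, h1, h2⟩ := h0
    obtain ⟨R⟩ : Nonempty (Sylow r G) := inferInstance
    rw [R.card_eq_index_normalizer, index_eq_one, ← R.coe_coe, normalizer_eq_top_iff] at h2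
    have h5 := R.not_dvd_index
    rcases h2.eq_bot_or_eq_top with e | e
    · rw [e, index_bot] at h5; exact absurd h1 h5
    · obtain ⟨n, hn⟩ := IsPGroup.iff_card.1 R.isPGroup'
      rw [e, card_top] at hn
      exact S0144.result r r n 0 Fact.out Fact.out (by simpa using hn)
  push Not at h0
  have k : ∀ r : ℕ, r.Prime → r ∣ Nat.card G → ∃ s : ℕ, s.Prime ∧ s ≠ r ∧ s ∣ Nat.card G ∧
      ∀ q : ℕ, ∀ _ : Fact q.Prime, q ∣ Nat.card G → q ≠ s → s ∣ Nat.card (Sylow q G) := by
    intro r hr hd
    have : Fact r.Prime := ⟨hr⟩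
    obtain ⟨s, b, hs, hb, e⟩ := (h r).resolve_left (h0 r this hd)
    have hs' := hs.nat_prime
    obtain ⟨R⟩ : Nonempty (Sylow r G) := inferInstance
    refine ⟨s, hs', ?_, ?_, fun q _ hq hqs => ?_⟩
    · rintro rfl
      exact not_dvd_card_sylow s G (e ▸ dvd_pow_self s hb.ne')
    · exact (dvd_pow_self s hb.ne').trans (e ▸ R.card_dvd_index.trans (index_dvd_card _))
    · by_contra H
      refine h0 r this hd (key hq (fun c => hqs ?_) ?_)
      · rw [← e] at c
        exact (Nat.prime_dvd_prime_iff_eq Fact.out hs').1 (Nat.Prime.dvd_of_dvd_pow Fact.out c)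
      · rw [← e]; exact ((Nat.Prime.coprime_iff_not_dvd hs').2 H).pow_left _
  obtain ⟨r, hr, hd⟩ := Nat.exists_prime_and_dvd (Finite.one_lt_card (α := G)).ne'
  obtain ⟨s, a1, -, a3, a4⟩ := k r hr hd
  obtain ⟨u, b1, b2, b3, b4⟩ := k s a1 a3
  refine S0144.result s u ((Nat.card G).factorization s) ((Nat.card G).factorization u) a1 b1 ?_
  have hsub : (Nat.card G).primeFactors ⊆ {s, u} := by
    intro q hq
    by_contra H
    simp only [Finset.mem_insert, Finset.mem_singleton, not_or] at H
    have : Fact q.Prime := ⟨Nat.prime_of_mem_primeFactors hq⟩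
    have hq' := Nat.dvd_of_mem_primeFactors hq
    obtain ⟨t, c, ht, hc, e⟩ := (h q).resolve_left (h0 q this hq')
    have c1 := a4 q this hq' H.1
    have c2 := b4 q this hq' H.2
    rw [← e] at c1 c2
    exact b2 (((Nat.prime_dvd_prime_iff_eq b1 ht.nat_prime).1 (b1.dvd_of_dvd_pow c2)).trans
      ((Nat.prime_dvd_prime_iff_eq a1 ht.nat_prime).1 (a1.dvd_of_dvd_pow c1)).symm)
  conv_lhs => rw [← Nat.prod_factorization_pow_eq_self (Nat.card_pos (α := G)).ne']
  rw [Finsupp.prod_of_support_subset _ (by simpa using hsub) _ (by simp),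
    Finset.prod_pair b2.symm]

theorem pp_dvd {a b : ℕ} (h : a ∣ b) (hb : b = 1 ∨ IsPrimePow b) : a = 1 ∨ IsPrimePow a := by
  rcases hb with rfl | hb
  · exact Or.inl (Nat.dvd_one.1 h)
  · exact or_iff_not_imp_left.2 (hb.dvd h)

universe u
theorem main (n : ℕ) : ∀ (G : Type u) [Group G] [Finite G], Nat.card G = n →
    (∀ (r : ℕ) [Fact r.Prime], Nat.card (Sylow r G) = 1 ∨ IsPrimePow (Nat.card (Sylow r G))) →
    Group.IsSolvable G := by
  induction n using Nat.strong_induction_on with
  | _ n ih =>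
  intro G _ _ hn h
  by_cases h0 : ∃ N : Subgroup G, N.Normal ∧ N ≠ ⊥ ∧ N ≠ ⊤
  · obtain ⟨N, _, h1, h2⟩ := h0
    have a1 := N.card_mul_index
    have a2 := (one_lt_card_iff_ne_bot N).2 h1
    have a3 := one_lt_index_of_ne_top h2
    have := ih _ (by nlinarith) N rfl fun r _ => pp_dvd (syl_sub_dvd N r) (h r)
    have := ih N.index (by nlinarith) (G ⧸ N) rfl fun r _ => pp_dvd (syl_quot_dvd N r) (h r)
    exact Group.isSolvable_of_ker_le_range N.subtype (QuotientGroup.mk' N) (by simp)
  rcases subsingleton_or_nontrivial G with _ | _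
  · infer_instance
  push Not at h0
  have : IsSimpleGroup G := ⟨fun N hN => or_iff_not_imp_left.2 (h0 N hN)⟩
  exact simple_case h

end Cfsg.Agent.GW.SyN
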